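import Cfsg.Agent.Lib.FL.Defs

/-!
# Basic lemmas (notes/FL.md, section A)
-/

set_option autoImplicit false
set_option linter.unusedSectionVars false

namespace Cfsg.Agent.FL

open Subgroup Cfsg.Agent.H6 Cfsg.Agent.FT
open scoped commutatorElement

variable {G : Type*} [Group G] [Finite G] {p : ℕ} {V R X Y Γ W R' W' T D P L N : Subgroup G}
  {g c x y u : G}

theorem card_inf_mul (A K : Subgroup G) :
    Nat.card (A ⊓ K : Subgroup G) * A.relIndex K = Nat.card K := by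
  rw [← inf_relIndex_right, H1.card_mul_relIndex inf_le_right]

/-- (A1) invariant abelian `p'`-subgroups are centralised. -/
theorem Act.cent_of_comm (h : Act p V R) (hX : Fa V R X) (hp : ¬ p ∣ Nat.card X)
    (hab : IsMulCommutative X) : X ≤ 𝒞(R) := by
  by_contra hne
  have hK : ⁅X, R⁆ ≠ ⊥ := fun e => hne (commutator_eq_bot_iff.1 e)
  have hle : ⁅X, R⁆ ≤ X := commutator_le_left hX.nR
  have hf := hX.sub hle le_norm_commutator_right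
  refine Frobenius_rfix_compl (K := ⁅X, R⁆) (R := R) (L := ⁅X, R⁆ ⊔ R)
    ((prime_FrobeniusP hK h.hr).2 ⟨SDP.of_norm hf.nR (inf_eq_bot_of_coprime' hf.cop),
      coprime_abel_cent_TI hX.nR hX.cop hab⟩) h.hV.1 (sup_le hf.nV h.RV)
    (coprime_of_pgroup_of_not_dvd h.hp (elem_pgroup h.hV) fun e =>
      hp (e.trans (card_dvd_of_le hle))) (fun e => hK ?_) h.fpf
  rw [← hf.ff, inf_eq_left.2 e]

/-- (A2) invariant odd order `p'`-subgroups are centralised. -/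
theorem Act.cent_of_odd (h : Act p V R) (hX : Fa V R X) (hp : ¬ p ∣ Nat.card X)
    (ho : Odd (Nat.card X)) : X ≤ 𝒞(R) := by
  have hs := SDP.of_norm hX.nR (inf_eq_bot_of_coprime' hX.cop)
  have ho' : Odd (Nat.card (X ⊔ R : Subgroup G)) := by
    rw [← hs.card_mul]; exact ho.mul h.odd
  have := odd_prime_sdprod_abelem_cent1 (isSolvable_of_odd ho') ho' hs hX.cop h.hr h.hp h.hV
    (sup_le hX.nV h.RV) (fun e => by
      rw [← hs.card_mul] at e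
      rcases (Nat.Prime.dvd_mul h.hp).1 e with e | e
      · exact hp e
      · exact h.rp ((Nat.prime_dvd_prime_iff_eq h.hp h.hr).1 e).symm) h.fpf
  exact cent_comm.1 (commutator_eq_bot_iff.1 (eq_bot_iff.2
    (hX.ff ▸ le_inf (commutator_le_right hX.nR) this)))

/-- `X = C_X(R) Y` gives `[X, R] = [Y, R]`. -/
theorem commutator_eq_of_mul (hY : Y ≤ X) (hn : R ≤ 𝒩(Y))
    (h : ∀ x ∈ X, ∃ c ∈ 𝒞(R), ∃ y ∈ Y, x = c * y) : ⁅X, R⁆ = ⁅Y, R⁆ := by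
  refine le_antisymm (commutator_le.2 fun x hx g hg => ?_) (commutator_mono hY le_rfl)
  obtain ⟨c, hc, y, hy, e⟩ := h x⁻¹ (X.inv_mem hx)
  have e1 : x = y⁻¹ * c⁻¹ := by rw [← mul_inv_rev, ← e, inv_inv]
  have e2 : c⁻¹ * g * c = g := by rw [mul_assoc, mem_cent.1 hc g hg, inv_mul_cancel_left]
  have : ⁅x, g⁆ = ⁅y⁻¹, g⁆ := by
    rw [e1, commutatorElement_def, commutatorElement_def]
    conv_rhs => rw [← e2]
    rw [e2]
    calc y⁻¹ * c⁻¹ * g * (y⁻¹ * c⁻¹)⁻¹ * g⁻¹ = y⁻¹ * (c⁻¹ * g * c) * y * g⁻¹ := by group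
      _ = y⁻¹ * g * y⁻¹⁻¹ * g⁻¹ := by rw [e2, inv_inv]
  rw [this]
  exact commutator_mem_commutator (Y.inv_mem hy) hg

/-- The `s`-part of `|Y : C_Y(R)|` is seen in an invariant Sylow subgroup. -/
theorem fact_relIndex {s : ℕ} {Q : Subgroup G} (hs : s.Prime) (hR : Group.IsSolvable R)
    (hn : R ≤ 𝒩(Y)) (hc : (Nat.card Y).Coprime (Nat.card R)) (hQ : Syl s Q Y) (hQn : R ≤ 𝒩(Q)) :
    ((𝒞(R)).relIndex Y).factorization s = ((𝒞(R)).relIndex Q).factorization s := by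
  have := Fact.mk hs
  have h1 := hQ.card_eq
  have h2 := (H1.IsSylowIn.inf_centralizer hn hc.symm (Or.inl hR) hQ hQn).card_eq
  have key : ∀ Z : Subgroup G, (Nat.card Z).factorization s =
      (Nat.card (Z ⊓ 𝒞(R) : Subgroup G)).factorization s +
        ((𝒞(R)).relIndex Z).factorization s := fun Z => by
    rw [← card_inf_mul 𝒞(R) Z, inf_comm,
      Nat.factorization_mul (card_ne_zero _) (relIndex_ne_zero' _ _)]
    rfl
  have h3 := key Y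
  have h4 := key Q
  rw [h1, h2, hs.factorization_pow, hs.factorization_pow, Finsupp.single_eq_same,
    Finsupp.single_eq_same] at h4
  omega

theorem mul_of_fact (hX : X ≤ Y) (h : ∀ s : ℕ, s.Prime →
    ((𝒞(R)).relIndex Y).factorization s ≤ ((𝒞(R)).relIndex X).factorization s) :
    ∀ y ∈ Y, ∃ c ∈ Y ⊓ 𝒞(R), ∃ x ∈ X, y = c * x := by
  have hd : (𝒞(R)).relIndex Y ∣ (𝒞(R)).relIndex X :=
    (Nat.factorization_prime_le_iff_dvd (relIndex_ne_zero' _ _) (relIndex_ne_zero' _ _)).1 h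
  have hle := Nat.le_of_dvd (Nat.pos_of_ne_zero (relIndex_ne_zero' _ _)) hd
  refine forall_mul_of_card inf_le_left hX ?_
  have e : Y ⊓ 𝒞(R) ⊓ X = 𝒞(R) ⊓ X := by
    rw [inf_comm Y, inf_assoc, inf_eq_right.2 hX]
  rw [e, ← card_inf_mul 𝒞(R) Y, ← card_inf_mul 𝒞(R) X, inf_comm Y,
    mul_assoc, mul_comm ((𝒞(R)).relIndex Y)]
  exact Nat.mul_le_mul_left _ (Nat.mul_le_mul_left _ hle)

theorem Act.fact_eq_zero {s : ℕ} (h : Act p V R) (hX : Fa V R X) (hs : s.Prime) (h2 : s ≠ 2)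
    (hp : s ≠ p ∨ ¬ p ∣ Nat.card X) : ((𝒞(R)).relIndex X).factorization s = 0 := by
  have := Fact.mk hs
  obtain ⟨Q, hQ, hn⟩ := coprime_Syl_exists hs hX.nR hX.cop (Or.inl h.sol)
  obtain ⟨k, hk⟩ := IsPGroup.iff_card.1 hQ.isPGroup
  have : Q ≤ 𝒞(R) := h.cent_of_odd (hX.sub hQ.le hn) (fun e => by
    rcases hp with hp | hp
    · exact hp ((Nat.prime_dvd_prime_iff_eq h.hp hs).1 (h.hp.dvd_of_dvd_pow (hk ▸ e))).symm
    · exact hp (e.trans (card_dvd_of_le hQ.le))) (hk ▸ (hs.odd_of_ne_two h2).pow)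
  rw [fact_relIndex hs h.sol hX.nR hX.cop hQ hn, relIndex_eq_one.2 this]
  simp

/-- (A3) in a `p'`-group, `X = C_X(R) T` for an invariant Sylow `2`-subgroup `T`. -/
theorem Act.mul_syl (h : Act p V R) (hX : Fa V R X) (hp : ¬ p ∣ Nat.card X) (hT : Syl 2 T X)
    (hn : R ≤ 𝒩(T)) : ∀ x ∈ X, ∃ c ∈ X ⊓ 𝒞(R), ∃ t ∈ T, x = c * t := by
  refine mul_of_fact hT.le fun s hs => ?_
  by_cases h2 : s = 2
  · subst h2
    exact (fact_relIndex hs h.sol hX.nR hX.cop hT hn).le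
  · rw [h.fact_eq_zero hX hs h2 (Or.inr hp)]
    exact Nat.zero_le _

theorem Act.commutator_eq (h : Act p V R) (hX : Fa V R X) (hp : ¬ p ∣ Nat.card X) (hT : Syl 2 T X)
    (hn : R ≤ 𝒩(T)) : ⁅X, R⁆ = ⁅T, R⁆ :=
  commutator_eq_of_mul hT.le hn fun x hx =>
    let ⟨c, hc, t, ht, e⟩ := h.mul_syl hX hp hT hn x hx
    ⟨c, hc.2, t, ht, e⟩

theorem Act.commutator_two (h : Act p V R) (hX : Fa V R X) (hp : ¬ p ∣ Nat.card X) :
    IsPGroup 2 (⁅X, R⁆ : Subgroup G) := by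
  obtain ⟨T, hT, hn⟩ := coprime_Syl_exists Nat.prime_two hX.nR hX.cop (Or.inl h.sol)
  rw [h.commutator_eq hX hp hT hn]
  exact hT.isPGroup.to_le (commutator_le_left hn)

/-- (A4) a `2`-group `Y = [Y, R]` is special with centre `C_Y(R)`. -/
theorem Act.special (h : Act p V R) (hY : Fa V R Y) (h2 : IsPGroup 2 Y) (hc : ⁅Y, R⁆ = Y) :
    H9.Phi 2 Y = Zc Y ∧ ⁅Y, Y⁆ = Zc Y ∧ Y ⊓ 𝒞(R) = Zc Y := by
  refine abelian_charsimple_special Nat.prime_two h2 hY.nR hY.cop hc fun B hB hn hab => ?_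
  exact cent_comm.1 (h.cent_of_comm (hY.sub hB (hY.nR.trans hn)) (h.not_dvd_two (h2.to_le hB)) hab)

/-- An irreducible constituent on which `N` acts non-trivially. -/
theorem exists_irr (hp : p.Prime) (hV : IsElementaryAbelian p V) (hL : L ≤ 𝒩(V))
    (hLp : ¬ p ∣ Nat.card L) (hN : ¬ N ≤ 𝒞(V)) :
    ∃ U, U ≤ V ∧ L ≤ 𝒩(U) ∧ ¬ N ≤ 𝒞(U) ∧ ∀ U', U' ≤ U → L ≤ 𝒩(U') → U' = ⊥ ∨ U' = U := by
  induction hn : Nat.card V using Nat.strong_induction_on generalizing V with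
  | _ n ih =>
  by_cases hirr : ∀ U, U ≤ V → L ≤ 𝒩(U) → U = ⊥ ∨ U = V
  · exact ⟨V, le_rfl, hL, hN, hirr⟩
  push Not at hirr
  obtain ⟨U, hU, hLU, hU1, hU2⟩ := hirr
  obtain ⟨U', hW, hLW⟩ := Maschke_abelem hp hV ((piN_compl_singleton_iff hp).2 hLp) hU hL hLU
  have key : ∀ U, U < V → L ≤ 𝒩(U) → ¬ N ≤ 𝒞(U) → ∃ U, U ≤ V ∧ L ≤ 𝒩(U) ∧ ¬ N ≤ 𝒞(U) ∧
      ∀ U', U' ≤ U → L ≤ 𝒩(U') → U' = ⊥ ∨ U' = U := fun U hU hLU hNU => by
    obtain ⟨U1, h1, h2⟩ := ih _ (hn ▸ H1.card_lt_of_lt hU) (elem_of_le hV hU.le) hLU hNU rfl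
    exact ⟨U1, h1.trans hU.le, h2⟩
  by_cases h1 : N ≤ 𝒞(U)
  · refine key U' (hW.right_le.lt_of_ne fun e => hU1 ?_) hLW fun h2 => hN ?_
    · rw [← hW.inf_eq, e, inf_eq_left.2 hU]
    · rw [← hW.sup_eq, cent_sup]; exact le_inf h1 h2
  · exact key U (hU.lt_of_ne hU2) hLU h1

/-- Passing to the holomorph of `V`. -/
theorem Act.hol (h : Act p V R) (h1 : V ≠ ⊥) : Act p (holSub V V) (holAct V R) ∧
    Nat.card (holAct V R) = Nat.card R := by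
  have hc : Nat.card (holAct V R) = Nat.card R := by
    rw [card_holAct h.RV, ← card_inf_mul 𝒞(V) R]
    rcases (h.hr.eq_one_or_self_of_dvd _ (card_dvd_of_le (inf_le_right : 𝒞(V) ⊓ R ≤ R))) with e | e
    · rw [e, one_mul]
    · have := eq_of_le_of_card_le (inf_le_right : 𝒞(V) ⊓ R ≤ R) e.ge
      exact absurd (by rw [← h.fpf, inf_eq_left.2 (cent_comm.1 (this.ge.trans inf_le_left))]) h1
  refine ⟨⟨h.hp, h.p2, mim_elem h.hV, hc ▸ h.hr, hc ▸ h.r2, hc ▸ h.rp, holAct_le_norm R, ?_⟩, hc⟩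
  rw [← holSub_inf_cent h.RV, h.fpf, holSub_eq_bot bot_le]

theorem Act.hol_fa (h : Act p V R) (h1 : V ≠ ⊥) (hV : X ≤ 𝒩(V)) (hR : R ≤ 𝒩(X))
    (hc : (Nat.card X).Coprime (Nat.card R)) : Fa (holSub V V) (holAct V R) (holAct V X) := by
  refine ⟨holAct_le_norm X, mim_le_norm hR, holAct_inf_cent X, ?_⟩
  rw [(h.hol h1).2]
  exact hc.coprime_dvd_left (card_mim_dvd _ _)

theorem hol_irr (hL : L ≤ 𝒩(V)) (hirr : ∀ U, U ≤ V → L ≤ 𝒩(U) → U = ⊥ ∨ U = V) :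
    ∀ U, U ≤ holSub V V → holAct V L ≤ 𝒩(U) → U = ⊥ ∨ U = holSub V V := by
  intro U hU hn
  rw [← holSub_mpre hU] at hn ⊢
  rcases hirr _ (mpre_le _ _) ((holAct_le_norm_iff hL (mpre_le _ _)).1 hn) with e | e <;> rw [e]
  · exact Or.inl ((holSub_eq_bot bot_le).2 rfl)
  · exact Or.inr rfl

/-- On an irreducible module, a special `Y` with central centre is extraspecial. -/
theorem Act.extra (h : Act p V R) (hY : Fa V R Y) (h2 : IsPGroup 2 Y) (hc : ⁅Y, R⁆ = Y)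
    (h1 : Y ≠ ⊥) (hL : L ≤ 𝒩(V)) (hZ : Zc Y ≤ Zc L)
    (hirr : ∀ U, U ≤ V → L ≤ 𝒩(U) → U = ⊥ ∨ U = V) : Extraspecial 2 Y := by
  obtain ⟨h4, h5, -⟩ := h.special hY h2 hc
  have hV1 : V ≠ ⊥ := fun e => h1 (by rw [← hY.ff, e, cent_bot, inf_top_eq])
  have hZ1 : Zc Y ≠ ⊥ := Zc_ne_bot (nil_of_pgroup h2) h1
  have h7 := (cyclic_of_central_irr hV1 hL hZ
    (eq_bot_iff.2 (hY.ff ▸ inf_le_inf_right _ inf_le_left)) hirr).1
  have h8 : IsElementaryAbelian 2 (Zc Y) := h5 ▸ elem_der_of_Phi_le_Zc h4.le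
  refine extraspecial_of_der_eq_Zc Nat.prime_two h2 h5 ?_
  rw [← omega_eq_of_elem h8]
  exact card_omega_of_cyclic Nat.prime_two h7 (H9.dvd_card_of_ne_bot (elem_pgroup h8) hZ1)

end Cfsg.Agent.FL
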