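import Cfsg.Agent.Lib.FL.HH
import Cfsg.Agent.Lib.GW.Basic

/-!
# Lemma C, the diagonal lemma, the torus lemma (notes/FL.md, section C)
-/

set_option autoImplicit false
set_option linter.unusedSectionVars false

namespace Cfsg.Agent.FL

open Subgroup Cfsg.Agent.H6 Cfsg.Agent.FT
open scoped commutatorElement

variable {G : Type*} [Group G] [Finite G] {p : ℕ} {V R X Y Γ W R' W' T D P L N U Z : Subgroup G}
  {g c x y u z : G}

theorem Act.piR (h : Act p V R) : PiG {p}ᶜ R := (piN_compl_singleton_iff h.hp).2 fun e =>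
  h.rp ((Nat.prime_dvd_prime_iff_eq h.hp h.hr).1 e).symm

theorem Act.dvd_pred (h : Act p V R) (hU : U ≤ V) (hn : R ≤ 𝒩(U)) : Nat.card R ∣ Nat.card U - 1 :=
  ((semiPrime_of_card_prime h.hr).semiReg (h.sub hU hn).fpf).card_dvd hn

/-- An irreducible constituent on which `Y` acts as an extraspecial group. -/
theorem Act.exists_extra (h : Act p V R) (hY : Fa V R Y) (h2 : IsPGroup 2 Y) (hc : ⁅Y, R⁆ = Y)
    (hL : L ≤ 𝒩(V)) (hLp : PiG {p}ᶜ L) (h1 : Y ≤ L) (h3 : R ≤ L) (hZ : Zc Y ≤ 𝒞(L)) (hN : N ≤ Y)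
    (hN1 : N ≠ ⊥) : ∃ U, U ≤ V ∧ U ≠ ⊥ ∧ L ≤ 𝒩(U) ∧ ¬ N ≤ 𝒞(U) ∧
      Act p (holSub U U) (holAct U R) ∧ Nat.card (holAct U R) = Nat.card R ∧
      Fa (holSub U U) (holAct U R) (holAct U Y) ∧ Extraspecial 2 (holAct U Y) ∧
      holAct U Y ⊓ 𝒞(holAct U R) = Zc (holAct U Y) := by
  obtain ⟨U, a1, a2, a3, a4⟩ := exists_irr (N := N) h.hp h.hV hL
    ((piN_compl_singleton_iff h.hp).1 hLp) fun e => hN1 (eq_bot_iff.2 (hY.ff ▸ le_inf hN e))
  have U1 : U ≠ ⊥ := fun e => a3 (by rw [e, cent_bot]; exact le_top)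
  have h' := h.sub a1 (h3.trans a2)
  obtain ⟨b1, b2⟩ := h'.hol U1
  have b3 := h'.hol_fa U1 (h1.trans a2) hY.nR hY.cop
  have b4 : ⁅holAct U Y, holAct U R⁆ = holAct U Y := by
    rw [← mim_commutator (h1.trans a2) (h3.trans a2), hc]
  have b5 := (b1.special b3 (mim_pgroup h2) b4).2.2
  refine ⟨U, a1, U1, a2, a3, b1, b2, b3, b1.extra b3 (mim_pgroup h2) b4
    (fun e => a3 (hN.trans ((holAct_eq_bot (h1.trans a2)).1 e))) (holAct_le_norm L) ?_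
    (hol_irr a2 a4), b5⟩
  rw [← b5, ← mim_inf_cent_of_coprime (h1.trans a2) (h3.trans a2) hY.nR
    (hY.cop.symm.coprime_dvd_right (card_dvd_of_le inf_le_right)) (Or.inl h.sol),
    (h.special hY h2 hc).2.2]
  exact le_inf (mim_mono (inf_le_left.trans h1)) (mim_le_cent hZ)

/-- Lemma C. -/
theorem Act.lemC (h : Act p V R) (hY : Fa V R Y) (h2 : IsPGroup 2 Y) (hc : ⁅Y, R⁆ = Y)
    (c1 : c ∈ 𝒩(V)) (c2 : c ∈ 𝒩(Y)) (c3 : c ∈ 𝒞(R)) (c4 : c ∈ 𝒞(Zc Y))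
    (c5 : ¬ p ∣ orderOf c) (c6 : ¬ Nat.card R ∣ orderOf c) : c ∈ 𝒞(Y) := by
  by_contra hn
  have h3 := zpowers_le.2 c2
  obtain ⟨U, -, -, a2, a3, b1, b2, b3, b4, b5⟩ := h.exists_extra (L := Y ⊔ zpowers c ⊔ R) hY h2 hc
    (sup_le (sup_le hY.nV (zpowers_le.2 c1)) h.RV)
    ((PiG.sup' ((piN_compl_singleton_iff h.hp).2 (h.not_dvd_two h2))
      (piG_zpowers.2 ((piN_compl_singleton_iff h.hp).2 c5)) h3).sup' h.piR
      (H1.le_normalizer_sup hY.nR ((cent_comm.1 (zpowers_le.2 c3)).trans cent_le_norm)))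
    (le_sup_left.trans le_sup_left) le_sup_right
    (cent_comm.1 (sup_le (sup_le (cent_comm.1 inf_le_right) (zpowers_le.2 c4))
      (cent_comm.1 ((h.special hY h2 hc).2.2.ge.trans inf_le_right))))
    (commutator_le_left h3)
    (fun e => hn (zpowers_le.1 (cent_comm.1 (commutator_eq_bot_iff.1 e))))
  have a4 := le_sup_left.trans a2
  have cU : c ∈ 𝒩(U) := a4 (mem_sup_right (mem_zpowers c))
  have h4 := b1.hh_cent b4 b3 b5 (mim_norm_le (mem_mim_of_mem c2 cU))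
    (mim_cent_le (mem_mim_of_mem c3 cU)) fun e => c6 (b2 ▸ e.trans
      ((orderOf_map_dvd _ _).trans (orderOf_coe (⟨c, cU⟩ : 𝒩(U))).symm.dvd))
  refine a3 ((holAct_eq_bot ((commutator_le_left h3).trans (le_sup_left.trans a4))).1 ?_)
  rw [holAct, mim_commutator (le_sup_left.trans a4) (zpowers_le.2 cU), mim_zpowers cU,
    FT.commutator_eq_bot_iff, cent_comm]
  exact zpowers_le.2 h4

/-- The diagonal lemma. -/
theorem Act.diag (h : Act p V R) (hY : Fa V R Y) (h2 : IsPGroup 2 Y) (hc : ⁅Y, R⁆ = Y)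
    (hD : D ≤ Y) (hn : R ≤ 𝒩(D)) (hDc : ⁅D, R⁆ = D) (hE : Extraspecial 2 D)
    (hZ : V ⊓ 𝒞(Zc D) = ⊥) (hZY : Zc D ≤ Zc Y) (hx : x ∈ Y) (hxD : ∀ d ∈ D, ⁅d, x⁆ ∈ Zc D) :
    x ∈ D ⊔ Zc Y := by
  obtain ⟨e1, -, e2, e3⟩ := (extraspecial_iff Nat.prime_two).1 hE
  have h1 : D ⊔ zpowers x ≤ Y := sup_le hD (zpowers_le.2 hx)
  have h3 : Y ≤ 𝒩(Zc D) := (cent_comm.1 (hZY.trans inf_le_right)).trans cent_le_norm
  have h4 := (critical_extraspecial Nat.prime_two hE (h2.to_le h1) le_sup_left (e2 ▸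
    H1.commutator_sup_le_of_le_normalizer (hD.trans h3) ((zpowers_le.2 hx).trans h3) e2.le
      (GW.comm_zpowers_le (h3 hx) hxD))).sup_eq
  refine (sup_le_sup_left ((inf_le_inf_right _ h1).trans ?_) D) (h4.ge (mem_sup_right (mem_zpowers x)))
  have h5 : R ≤ 𝒩(Y ⊓ 𝒞(D)) := H1.le_normalizer_inf hY.nR (hn.trans (normalIn_cent_norm D).norm)
  have h6 := coprime_commGid h5 (hY.sub inf_le_left h5).cop
  have h7 : ⁅Y ⊓ 𝒞(D), R⁆ ≤ Y ⊓ 𝒞(D) := commutator_le_left h5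
  by_contra hne
  have h8 : ⁅Y ⊓ 𝒞(D), R⁆ ≠ ⊥ := fun e =>
    hne ((h.special hY h2 hc).2.2 ▸ le_inf inf_le_left (commutator_eq_bot_iff.1 e))
  have h9 : R ≤ 𝒩(⁅Y ⊓ 𝒞(D), R⁆) := le_norm_commutator_right
  generalize ⁅Y ⊓ 𝒞(D), R⁆ = D1 at *
  have k1 : D ⊔ D1 ≤ Y := sup_le hD (h7.trans inf_le_left)
  have k2 : R ≤ 𝒩(D ⊔ D1) := H1.le_normalizer_sup hn h9
  have k3 := hY.sub k1 k2
  have k4 : ⁅D ⊔ D1, R⁆ = D ⊔ D1 := le_antisymm (commutator_le_left k2) (sup_le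
    (hDc.ge.trans (commutator_mono le_sup_left le_rfl)) (h6.ge.trans (commutator_mono le_sup_right le_rfl)))
  obtain ⟨U, a1, U1, a2, a3, b1, b2, b3, b4, b5⟩ := h.exists_extra (L := D ⊔ D1 ⊔ R) k3 (h2.to_le k1) k4
    (sup_le k3.nV h.RV) (PiG.sup' ((piN_compl_singleton_iff h.hp).2 (h.not_dvd_two (h2.to_le k1)))
      h.piR k2) le_sup_left le_sup_right (cent_comm.1 (sup_le (cent_comm.1 inf_le_right)
      (cent_comm.1 ((h.special k3 (h2.to_le k1) k4).2.2.ge.trans inf_le_right)))) le_sup_right h8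
  have a4 := le_sup_left.trans a2
  obtain ⟨n, -, n1, n2⟩ := b1.hh b4 b3 b5
  obtain ⟨m, -, m1, m2⟩ := h.hh hE (hY.sub hD hn) (h.special (hY.sub hD hn) e1 hDc).2.2
  obtain rfl : n = m := Nat.pow_right_injective le_rfl (by
    have := n2.symm.trans (b2.trans m2); simpa using this)
  have k5 : 𝒞(U) ⊓ D = ⊥ := by_contra fun e => by
    have k6 := inf_Zc_ne_bot (nil_of_pgroup e1) (N := 𝒞(U) ⊓ D) ⟨inf_le_right, H1.le_normalizer_inf
      ((le_sup_left.trans a4).trans (normalIn_cent_norm U).norm) le_normalizer⟩ e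
    have k7 := eq_of_le_of_card_le (inf_le_right : 𝒞(U) ⊓ D ⊓ Zc D ≤ Zc D) (by
      rw [e3]; exact (one_lt_card_iff_ne_bot _).2 k6)
    exact U1 (eq_bot_iff.2 (hZ ▸ le_inf a1 (cent_comm.1 (k7.ge.trans (inf_le_left.trans inf_le_left)))))
  have k6 : holAct U D = holAct U (D ⊔ D1) := eq_of_le_of_card_le (mim_mono le_sup_left) (by
    rw [n1, ← m1, card_holAct (le_sup_left.trans a4), ← card_inf_mul 𝒞(U) D, k5, card_bot, one_mul])
  refine a3 ((holAct_eq_bot (le_sup_right.trans a4)).1 ?_)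
  rw [← h6, holAct, mim_commutator (le_sup_right.trans a4) (le_sup_right.trans a2),
    FT.commutator_eq_bot_iff]
  exact (le_inf (mim_mono le_sup_right) (k6 ▸ mim_le_cent (h7.trans inf_le_right))).trans
    (b5.ge.trans inf_le_right)

theorem comm_mul_le (hx : x ∈ 𝒩(V)) (hy : y ∈ 𝒩(V)) :
    ⁅V, zpowers ⁅x, y⁆⁆ ≤ ⁅V, zpowers x⁆ ⊔ cj y ⁅V, zpowers x⁆ := by
  have h1 : cj y ⁅V, zpowers x⁆ = ⁅V, zpowers (y * x * y⁻¹)⁆ := by
    rw [cj_commutator, cj_eq_self_iff.2 hy, cj_zpowers]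
  have h2 : y * x * y⁻¹ ∈ 𝒩(V) := mul_mem (mul_mem hy hx) (inv_mem hy)
  have h3 : ⁅V, zpowers x⁆ ⊔ ⁅V, zpowers (y * x * y⁻¹)⁆ ≤ V :=
    sup_le (commutator_le_left (zpowers_le.2 hx)) (commutator_le_left (zpowers_le.2 h2))
  rw [h1]
  refine (commutator_mono le_rfl (zpowers_le.2 ?_)).trans (H1.commutator_sup_le_of_le_normalizer
    (le_norm_of_commutator_le ((commutator_mono h3 le_rfl).trans le_sup_left))
    (le_norm_of_commutator_le ((commutator_mono h3 le_rfl).trans le_sup_right)) le_sup_left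
    le_sup_right)
  convert mul_mem (mem_sup_left (mem_zpowers x)) (inv_mem (mem_sup_right (mem_zpowers _))) using 1
  rw [commutatorElement_def]; group

/-- An elementary abelian 2-group normalised by an element transitive on `U^#` acts by `±1`. -/
theorem pm_one (hp : p.Prime) (h2 : p ≠ 2) (hU : IsElementaryAbelian p U) (hxU : x ∉ 𝒞(U))
    (htr : ∀ a ∈ U, ∀ b ∈ U, a ≠ 1 → b ≠ 1 → ∃ y ∈ zpowers x, y * a * y⁻¹ = b)
    (hZ : IsElementaryAbelian 2 Z) (h1 : x ∈ 𝒩(Z)) (h3 : Z ≤ 𝒩(U)) (hz : z ∈ Z) :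
    z ∈ 𝒞(U) ∨ ∀ u ∈ U, z * u * z⁻¹ = u⁻¹ := by
  have ho := GW.odd_of_pgroup hp h2 (elem_pgroup hU)
  obtain ⟨U0, a1, a2, a3, a4⟩ := exists_irr (N := zpowers x) hp hU h3 (fun e => by
    obtain ⟨k, hk⟩ := IsPGroup.iff_card.1 (elem_pgroup hZ)
    exact h2 ((Nat.prime_dvd_prime_iff_eq hp Nat.prime_two).1 (hp.dvd_of_dvd_pow (hk ▸ e))))
    fun e => hxU (zpowers_le.1 e)
  obtain ⟨a, ha, a5⟩ := U0.bot_or_exists_ne_one.resolve_left fun e =>
    a3 (by rw [e, cent_bot]; exact le_top)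
  have h4 : ∀ z ∈ Z, z * a * z⁻¹ = a ∨ z * a * z⁻¹ = a⁻¹ := fun z hz => by
    rcases a4 (U0 ⊓ 𝒞[z]) inf_le_left (H1.le_normalizer_inf a2
      (((comm_iff.1 hZ.1).trans (cent_le_cent1 hz)).trans le_normalizer)) with e | e
    · exact Or.inr (GW.inverts_of_fpf (by rw [← sq]; exact hZ.2 z hz) (GW.odd_of_le ho a1) (a2 hz) e ha)
    · exact Or.inl (by rw [← mem_cent1.1 (e.ge ha).2, mul_inv_cancel_right])
  have h5 : ∀ u ∈ U, z * u * z⁻¹ = u ∨ z * u * z⁻¹ = u⁻¹ := fun u hu => by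
    by_cases e : u = 1
    · simp [e]
    obtain ⟨y, hy, rfl⟩ := htr a (a1 ha) u hu a5 e
    have h6 : z * (y * a * y⁻¹) * z⁻¹ = y * (y⁻¹ * z * y⁻¹⁻¹ * a * (y⁻¹ * z * y⁻¹⁻¹)⁻¹) * y⁻¹ := by
      group
    rcases h4 _ (conj_mem_of_mem_normalizer (inv_mem (zpowers_le.2 h1 hy)) hz) with e | e <;>
      rw [h6, e]
    · exact Or.inl rfl
    · exact Or.inr (by group)
  refine or_iff_not_imp_left.2 fun e u hu => (h5 u hu).elim (fun e1 => ?_) id
  obtain ⟨b, hb, e2⟩ : ∃ b ∈ U, z * b * z⁻¹ ≠ b := by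
    by_contra e2
    push Not at e2
    exact e (mem_cent.2 fun b hb => (mul_inv_eq_iff_eq_mul.1 (e2 b hb)).symm)
  have e3 := (h5 b hb).resolve_left e2
  rcases h5 _ (mul_mem hu hb) with e4 | e4 <;> rw [← conj_mul, e1] at e4
  · exact absurd (mul_left_cancel e4) e2
  · rw [e3, mul_inv_rev, comm_mul hU.1 (inv_mem hb) (inv_mem hu)] at e4
    rw [e1, mul_right_cancel e4, inv_inv, ← mul_right_cancel e4]

/-- The torus lemma. -/
theorem Act.torus (h : Act p V R) (hX : Fa V R X) (hp : ¬ p ∣ Nat.card X) (hx : x ∈ X)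
    (h1 : x ≠ 1) (htr : ∀ a ∈ ⁅V, zpowers x⁆, ∀ b ∈ ⁅V, zpowers x⁆, a ≠ 1 → b ≠ 1 →
      ∃ y ∈ zpowers x, y * a * y⁻¹ = b) : False := by
  have cop : ∀ y ∈ X, (Nat.card V).Coprime (Nat.card (zpowers y)) := fun y hy =>
    coprime_of_pgroup_of_not_dvd h.hp (elem_pgroup h.hV) fun e =>
      hp (e.trans (card_dvd_of_le (zpowers_le.2 hy)))
  have f1 : ∀ y ∈ X, ⁅V, zpowers y⁆ ≤ 𝒞[y] → y = 1 := fun y hy e => mem_bot.1 (hX.ff ▸ ⟨hy,
    zpowers_le.1 (coprime_commGG1P (zpowers_le.2 (hX.nV hy)) (cop y hy)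
      (GW.comm_zpowers_eq_bot_iff.2 e))⟩)
  have xX := zpowers_le.2 hx
  have hUV : ⁅V, zpowers x⁆ ≤ V := commutator_le_left (xX.trans hX.nV)
  have xU : zpowers x ≤ 𝒩(⁅V, zpowers x⁆) := le_norm_commutator_right
  have u1 : ∀ y ∈ zpowers x, ⁅V, zpowers y⁆ ≤ ⁅V, zpowers x⁆ := fun y hy =>
    commutator_mono le_rfl (zpowers_le.2 hy)
  have u2 := fun y (hy : y ∈ X) => comm_mul_le (hX.nV hx) (hX.nV hy)
  generalize ⁅V, zpowers x⁆ = U at *
  have xc : ∀ y ∈ zpowers x, zpowers x ≤ 𝒞[y] := fun y hy =>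
    (comm_iff.1 (comm_of_cyclic inferInstance)).trans (cent_le_cent1 hy)
  have inv : ∀ W ≤ U, zpowers x ≤ 𝒩(W) → W ≠ ⊥ → W = U := fun W w1 w2 w3 => by
    obtain ⟨a, ha, a1⟩ := W.bot_or_exists_ne_one.resolve_left w3
    refine w1.antisymm fun b hb => by_cases (fun e : b = 1 => e ▸ one_mem W) fun e => ?_
    obtain ⟨y, hy, rfl⟩ := htr a (w1 ha) b hb a1 e
    exact conj_mem_of_mem_normalizer (w2 hy) ha
  have u3 : ∀ y ∈ zpowers x, y ≠ 1 → 𝒩(V) ⊓ 𝒞[y] ≤ 𝒩(U) := fun y hy y1 g hg => by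
    rw [← inv _ (u1 y hy) (fun g hg => GW.norm_comm_zpowers (hX.nV (xX hg)) (xc y hy hg)) fun e =>
      y1 (f1 y (xX hy) (e.le.trans bot_le))]
    exact GW.norm_comm_zpowers hg.1 hg.2
  have xU1 : x ∉ 𝒞(U) := fun e => h1 (f1 x hx ((u1 x (mem_zpowers x)).trans (le_cent1_iff.2 e)))
  obtain ⟨a, ha, a1⟩ := U.bot_or_exists_ne_one.resolve_left fun e =>
    xU1 (by rw [e, cent_bot]; exact mem_top x)
  have u4 : Nat.card U - 1 = orderOf x := by
    have e1 : (fun n => n * a * n⁻¹) '' (zpowers x : Set G) = (U : Set G) \ {1} :=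
      Set.Subset.antisymm (by
        rintro _ ⟨y, hy, rfl⟩
        exact ⟨conj_mem_of_mem_normalizer (xU hy) ha, fun e => a1 (conj_eq_one_iff.1 e)⟩)
        fun b hb => htr a ha b hb.1 a1 hb.2
    rw [← Nat.card_zpowers, ← SetLike.coe_sort_coe, ← SetLike.coe_sort_coe (zpowers x),
      Nat.card_coe_set_eq, Nat.card_coe_set_eq, ← Set.ncard_sdiff_singleton_of_mem (one_mem U), ← e1]
    refine Set.InjOn.ncard_image fun y hy y' hy' e => ?_
    have e2 := mul_mem (inv_mem hy') hy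
    refine (inv_mul_eq_one.1 (f1 _ (xX e2) ((u1 _ e2).trans ((inv (U ⊓ 𝒞[y'⁻¹ * y]) inf_le_left
      (H1.le_normalizer_inf xU ((xc _ e2).trans le_normalizer)) fun e3 => a1 (mem_bot.1 (e3.le
        ⟨ha, mem_cent1.2 ?_⟩))).ge.trans inf_le_right)))).symm
    calc a * (y'⁻¹ * y) = y'⁻¹ * (y' * a * y'⁻¹) * y := by group
      _ = _ := by rw [← show y * a * y⁻¹ = y' * a * y'⁻¹ from e]; group
  have rx : ∀ y ∈ X, ¬ Nat.card R ∣ orderOf y := fun y hy e => h.hr.one_lt.ne'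
    (Nat.eq_one_of_dvd_coprimes hX.cop (e.trans (orderOf_dvd_card_of_mem hy)) dvd_rfl)
  have xR : ∀ y ∈ zpowers x, y ∈ 𝒞(R) → y = 1 := fun y hy e => by_contra fun y1 =>
    rx x hx (u4 ▸ h.dvd_pred hUV ((le_inf h.RV (le_cent1_iff.2 e)).trans (u3 y hy y1)))
  have hQ := h.commutator_two hX hp
  have q1 : ⁅X, R⁆ ≤ X := commutator_le_left hX.nR
  have q2 : X ≤ 𝒩(⁅X, R⁆) := le_norm_commutator_left
  have q3 := coprime_commGid hX.nR hX.cop
  have q4 := coprime_cent_prod hX.nR hX.cop (Or.inl h.sol)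
  have q5 : X ⊓ 𝒞(⁅X, R⁆) ≤ 𝒞(R) := by
    have e1 : R ≤ 𝒩(X ⊓ 𝒞(⁅X, R⁆)) := H1.le_normalizer_inf hX.nR
      (le_norm_commutator_right.trans (normalIn_cent_norm _).norm)
    exact cent_comm.1 (coprime_commGG1P e1 (hX.sub inf_le_left e1).cop (FT.commutator_eq_bot_iff.2
      ((le_inf (commutator_mono inf_le_left le_rfl) ((FT.commutator_le_left e1).trans inf_le_right)).trans
        ((h.special (hX.sub q1 le_norm_commutator_right) hQ q3).2.2.ge.trans inf_le_right))))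
  have fQ := hX.sub q1 le_norm_commutator_right
  generalize ⁅X, R⁆ = Q at *
  obtain ⟨s1, s2, s3⟩ := h.special fQ hQ q3
  have hZ : IsElementaryAbelian 2 (Zc Q) := s2 ▸ elem_der_of_Phi_le_Zc s1.le
  have zX : Zc Q ≤ X := inf_le_left.trans q1
  have z1 : X ≤ 𝒩(Zc Q) := q2.trans (norm_le_norm_Zc Q)
  have zz : ∀ z ∈ Zc Q, z * z = 1 := fun z hz => by rw [← sq]; exact hZ.2 z hz
  have hE : ∀ y ∈ zpowers x, y ≠ 1 → ∀ z ∈ Zc Q, z ∈ 𝒞[y] → x ∈ 𝒞[z] := fun y hy y1 z hz zy => by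
    have e1 : Zc Q ⊓ 𝒞[y] ≤ 𝒩(U) := (inf_le_inf_right _ (zX.trans hX.nV)).trans (u3 y hy y1)
    have e2 := xU (mem_zpowers x)
    have e3 : ⁅x, z⁆ ∈ 𝒞(U) := by
      rcases pm_one h.hp h.p2 (elem_of_le h.hV hUV) xU1 htr (elem_of_le hZ inf_le_left)
        (H1.le_normalizer_inf (xX.trans z1) ((xc y hy).trans le_normalizer) (mem_zpowers x)) e1
        ⟨hz, zy⟩ with e | e
      · exact mul_mem ((normalIn_cent_norm U).conj_mem e2 e) (inv_mem e)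
      · rw [commutatorElement_def, inv_eq_of_mul_eq_one_right (zz z hz)]
        exact GW.mul_mem_cent_of_inverts (GW.inverts_conj e e2) e
    have e4 := u2 z (zX hz)
    rw [cj_eq_self_iff.2 (e1 ⟨hz, zy⟩), sup_idem] at e4
    exact mem_cent1.2 (commutatorElement_eq_one_iff_mul_comm.1 (f1 _
      (mul_mem (mul_mem (mul_mem hx (zX hz)) (inv_mem hx)) (inv_mem (zX hz)))
      (e4.trans (le_cent1_iff.2 e3))))
  obtain ⟨y, hy, w1, w2, x2⟩ : ∃ y ∈ X, ⁅x, y⁆ ≠ 1 ∧ ⁅x, y⁆ ∈ Zc Q ∧ x * x = 1 := by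
    by_cases e : x ∈ 𝒞(Zc Q)
    · obtain ⟨q, hq, c, hc, e1⟩ := (H1.mem_sup_of_le_normalizer (inf_le_left.trans q2)).1 (q4.ge hx)
      have e2 := h.lemC fQ hQ q3 (hX.nV hc.1) (q2 hc.1) hc.2 ((mul_mem_cancel_left
        (cent_comm.1 inf_le_right hq)).1 (e1 ▸ e)) (fun e => hp (e.trans
        (orderOf_dvd_card_of_mem hc.1))) (rx c hc.1)
      obtain ⟨y, hy, e3⟩ : ∃ y ∈ Q, ⁅x, y⁆ ≠ 1 := by
        by_contra e3
        push Not at e3
        exact h1 (xR x (mem_zpowers x) (q5 ⟨hx, mem_cent.2 fun y hy =>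
          (commutatorElement_eq_one_iff_mul_comm.1 (e3 y hy)).symm⟩))
      refine ⟨y, q1 hy, e3, ?_, xR _ (mul_mem (mem_zpowers x) (mem_zpowers x))
        (q5 ⟨mul_mem hx hx, ?_⟩)⟩
      · convert s2.le (commutator_mem_commutator hq hy) using 1
        rw [← e1, commutatorElement_def, commutatorElement_def, mul_assoc q, ← mem_cent.1 e2 y hy]
        group
      · rw [← e1, mul_assoc, ← mul_assoc c, ← mem_cent.1 e2 q hq, mul_assoc, ← mul_assoc, ← sq]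
        exact mul_mem (s1.le (H9.pow_mem_Phi hq)).2 (mul_mem e2 e2)
    obtain ⟨y, hy, e1⟩ : ∃ y ∈ Zc Q, x ∉ 𝒞[y] := by
      by_contra e1
      push Not at e1
      exact e (mem_cent.2 fun y hy => (mem_cent1.1 (e1 y hy)).symm)
    have k : ∀ g ∈ X, ⁅g, y⁆ ∈ Zc Q := fun g hg =>
      mul_mem (conj_mem_of_mem_normalizer (z1 hg) hy) (inv_mem hy)
    refine ⟨y, zX hy, fun e => e1 (mem_cent1.2 (commutatorElement_eq_one_iff_mul_comm.1 e)),
      k x hx, by_contra fun e2 => e1 (hE _ (mul_mem (mem_zpowers x) (mem_zpowers x)) e2 y hy ?_)⟩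
    obtain ⟨t, ht, t2⟩ : ∃ t ∈ zpowers x, orderOf t = 2 := exists_orderOf_eq_of_dvd_card (by
      rw [Nat.card_zpowers, ← u4, ← even_iff_two_dvd]
      exact Nat.Odd.sub_odd (GW.odd_of_pgroup h.hp h.p2 ((elem_pgroup h.hV).to_le hUV)) odd_one)
    have t1 := ne_one_of_orderOf_two t2
    have tt := mul_self_of_orderOf_two t2
    have tx := mem_cent1.1 (xc t ht (mem_zpowers x))
    have zc := fun a b (ha : a ∈ Zc Q) (hb : b ∈ Zc Q) => comm_mul hZ.1 ha hb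
    have k1 := k t (xX ht)
    have k2 := mem_cent1.1 (hE t ht t1 _ k1 (mem_cent1.2 (by
      have e3 : t * ⁅t, y⁆ * t⁻¹ = ⁅t, y⁆⁻¹ := by
        rw [commutatorElement_def, ← mul_assoc, ← mul_assoc, ← mul_assoc, tt]
        simp only [mul_assoc, one_mul, mul_inv_rev, inv_inv, inv_eq_of_mul_eq_one_right tt]
      rw [inv_eq_of_mul_eq_one_right (zz _ k1)] at e3
      exact (mul_inv_eq_iff_eq_mul.1 e3).symm)))
    have k3 := k x hx
    have k4 := mem_cent1.1 (hE t ht t1 _ k3 (mem_cent1.2 (by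
      have e3 : t * (⁅x, y⁆ * y) * t⁻¹ = ⁅t, y⁆ * (⁅x, y⁆ * y) := by
        calc t * (⁅x, y⁆ * y) * t⁻¹ = t * x * y * (t * x)⁻¹ := by
              rw [commutatorElement_def]; group
          _ = x * ⁅t, y⁆ * x⁻¹ * (⁅x, y⁆ * y) := by
              rw [← tx, commutatorElement_def, commutatorElement_def]; group
          _ = _ := by rw [k2, mul_inv_cancel_right]
      rw [← conj_mul, show t * y * t⁻¹ = ⁅t, y⁆ * y by rw [commutatorElement_def]; group,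
        ← mul_assoc, ← mul_assoc, zc _ _ k1 k3, mul_left_inj, mul_left_inj] at e3
      exact (mul_inv_eq_iff_eq_mul.1 e3).symm)))
    rw [mem_cent1]
    calc y * (x * x) = ⁅x, y⁆ * ⁅x, y⁆ * y * (x * x) := by rw [zz _ k3, one_mul]
      _ = ⁅x, y⁆ * x * y * x := by rw [commutatorElement_def x y]; group
      _ = x * (⁅x, y⁆ * y) * x := by rw [← k4]; group
      _ = _ := by rw [commutatorElement_def x y]; group
  have wX := zX w2
  have c1 : Nat.card U = 3 := by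
    have := orderOf_eq_two x2 h1
    omega
  have c2 : ⁅V, zpowers ⁅x, y⁆⁆ ≤ V := commutator_le_left (zpowers_le.2 (hX.nV wX))
  have c3 := h.dvd_pred c2 fun g hg =>
    GW.norm_comm_zpowers (h.RV hg) (mem_cent1_comm.1 (cent_le_cent1 hg (s3.ge w2).2))
  have c4 : Nat.card (⁅V, zpowers ⁅x, y⁆⁆ : Subgroup G) ∣ 3 ^ 2 := by
    refine (card_dvd_of_le (u2 y hy)).trans ⟨Nat.card (U ⊓ H6.cj y U : Subgroup G), ?_⟩
    have e1 : H6.cj y U ≤ V := (cj_mono y hUV).trans (cj_eq_self_iff.2 (hX.nV hy)).le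
    rw [card_mul_of_forall_mul le_sup_left le_sup_right fun m hm => by
      obtain ⟨a, ha, b, hb, e⟩ := (H1.mem_sup_of_le_normalizer (e1.trans ((comm_iff.1 h.hV.1).trans
        ((cent_le_cent hUV).trans cent_le_norm)))).1 hm
      exact ⟨a, ha, b, hb, e.symm⟩, card_cj, c1, sq]
  have c5 : Nat.card R ∣ 2 ^ 3 := by
    obtain ⟨i, hi, e⟩ := (Nat.dvd_prime_pow Nat.prime_three).1 c4
    rw [e] at c3
    interval_cases i
    · exact absurd (f1 _ wX ((card_eq_one.1 e).le.trans bot_le)) w1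
    · exact c3.trans (by decide)
    · exact c3
  exact h.r2 ((Nat.prime_dvd_prime_iff_eq h.hr Nat.prime_two).1 (h.hr.dvd_of_dvd_pow c5))

end Cfsg.Agent.FL
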