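import Cfsg.Agent.Lib.FT.BG03b
import Cfsg.Agent.Lib.FT.Hol
import Cfsg.Agent.Lib.FT.Wielandt
import Cfsg.Agent.Lib.FT.Main

/-!
# Coprime automorphisms of prime order without fixed points on a module: vocabulary

See `notes/FL.md` for the proof.  `R` is a group of odd prime order `r` acting without fixed points
on the elementary abelian `p`-group `V`; `Fa V R X` says that the `r'`-group `X` is `R`-invariant
and acts faithfully on `V`.
-/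

set_option autoImplicit false
set_option linter.unusedSectionVars false

namespace Cfsg.Agent.FL

open Subgroup Cfsg.Agent.H6 Cfsg.Agent.FT
open scoped commutatorElement

variable {G : Type*} [Group G] [Finite G] {p : ℕ} {V R X Y Γ W R' W' : Subgroup G} {g : G}

structure Act (p : ℕ) (V R : Subgroup G) : Prop where
  hp : p.Prime
  p2 : p ≠ 2
  hV : IsElementaryAbelian p V
  hr : (Nat.card R).Prime
  r2 : Nat.card R ≠ 2
  rp : Nat.card R ≠ p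
  RV : R ≤ 𝒩(V)
  fpf : V ⊓ 𝒞(R) = ⊥

structure Fa (V R X : Subgroup G) : Prop where
  nV : X ≤ 𝒩(V)
  nR : R ≤ 𝒩(X)
  ff : X ⊓ 𝒞(V) = ⊥
  cop : (Nat.card X).Coprime (Nat.card R)

/-- `X` is `p`-closed. -/
def PCl (p : ℕ) (X : Subgroup G) : Prop := Syl p (Op p X) X

/-- The quasisimple minimal counterexample. -/
structure QS (p : ℕ) (V R Γ : Subgroup G) : Prop extends Act p V R, Fa V R Γ where
  V1 : V ≠ ⊥
  irr : ∀ U, U ≤ V → Γ ≤ 𝒩(U) → R ≤ 𝒩(U) → U = ⊥ ∨ U = V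
  cp : ¬ p ∣ Nat.card (Γ ⊓ 𝒞(R) : Subgroup G)
  pc : ∀ X, X < Γ → R ≤ 𝒩(X) → PCl p X
  gen : ⁅Γ, R⁆ = Γ
  ne : Γ ≠ ⊥
  perf : ⁅Γ, Γ⁆ = Γ
  simple : ∀ N, NormalIn N Γ → N ≤ Zc Γ ∨ N = Γ

/-- A point: `W = [T, R]` for an `R`-invariant Sylow `2`-subgroup `T` of `Γ`. -/
structure Pt (p : ℕ) (V Γ R W : Subgroup G) : Prop extends QS p V R Γ where
  ex : ∃ T, Syl 2 T Γ ∧ R ≤ 𝒩(T) ∧ ⁅T, R⁆ = W

/-- Two different conjugate points. -/
structure Pair (p : ℕ) (V Γ R W R' W' : Subgroup G) : Prop where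
  a : Pt p V Γ R W
  b : Pt p V Γ R' W'
  conj : ∃ g ∈ Γ, cj g W = W'
  ne : W ≠ W'

theorem Fa.sub (h : Fa V R X) (hY : Y ≤ X) (hn : R ≤ 𝒩(Y)) : Fa V R Y :=
  ⟨hY.trans h.nV, hn, eq_bot_iff.2 (h.ff ▸ inf_le_inf_right _ hY),
    h.cop.coprime_dvd_left (card_dvd_of_le hY)⟩

theorem Act.sol (h : Act p V R) : Group.IsSolvable R :=
  sol_of_nil (nil_of_comm (comm_of_cyclic (cyclic_of_card_prime h.hr)))

theorem Act.odd (h : Act p V R) : Odd (Nat.card R) := h.hr.odd_of_ne_two h.r2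

theorem Act.copV (h : Act p V R) : (Nat.card V).Coprime (Nat.card R) :=
  coprime_of_pgroup_of_not_dvd h.hp (elem_pgroup h.hV) fun e =>
    h.rp ((Nat.prime_dvd_prime_iff_eq h.hp h.hr).1 e).symm

theorem Act.not_dvd_two (h : Act p V R) (hY : IsPGroup 2 Y) : ¬ p ∣ Nat.card Y := fun e => by
  obtain ⟨k, hk⟩ := IsPGroup.iff_card.1 hY
  exact h.p2 ((Nat.prime_dvd_prime_iff_eq h.hp Nat.prime_two).1 (h.hp.dvd_of_dvd_pow (hk ▸ e)))

theorem Act.sub {U : Subgroup G} (h : Act p V R) (hU : U ≤ V) (hn : R ≤ 𝒩(U)) : Act p U R :=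
  ⟨h.hp, h.p2, elem_of_le h.hV hU, h.hr, h.r2, h.rp, hn,
    eq_bot_iff.2 (h.fpf ▸ inf_le_inf_right _ hU)⟩

theorem cj_le_norm (g : G) (h : X ≤ 𝒩(Y)) : cj g X ≤ 𝒩(cj g Y) := by
  rw [← cj_normalizer]; exact cj_mono g h

theorem Act.cj (h : Act p V R) (g : G) : Act p (cj g V) (cj g R) :=
  ⟨h.hp, h.p2, elem_cj.2 h.hV, by rw [card_cj]; exact h.hr, by rw [card_cj]; exact h.r2,
    by rw [card_cj]; exact h.rp, cj_le_norm g h.RV, by
      rw [← cj_centralizer, ← cj_inf, h.fpf, cj_bot]⟩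

theorem Fa.cj (h : Fa V R X) (g : G) : Fa (cj g V) (cj g R) (cj g X) :=
  ⟨cj_le_norm g h.nV, cj_le_norm g h.nR, by rw [← cj_centralizer, ← cj_inf, h.ff, cj_bot],
    by rw [card_cj, card_cj]; exact h.cop⟩

theorem PCl.cj (h : PCl p X) (g : G) : PCl p (cj g X) := by
  have := Syl.cj h g
  rwa [cj_core] at this

theorem cj_Zc (g : G) (X : Subgroup G) : cj g (Zc X) = Zc (cj g X) := by
  rw [Zc, cj_inf, cj_centralizer]

theorem QS.cj' (h : QS p V R Γ) (g : G) : QS p (cj g V) (cj g R) (cj g Γ) where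
  toAct := h.toAct.cj g
  toFa := h.toFa.cj g
  V1 := fun e => h.V1 (by rw [← cj_inv_cj g V, e, cj_bot])
  irr := fun U hU h1 h2 => by
    have := h.irr (cj g⁻¹ U) (by rw [← cj_inv_cj g V]; exact cj_mono _ hU)
      (by rw [← cj_inv_cj g Γ]; exact cj_le_norm _ h1)
      (by rw [← cj_inv_cj g R]; exact cj_le_norm _ h2)
    rw [← cj_cj_inv g U]
    rcases this with e | e <;> rw [e]
    · exact Or.inl (cj_bot g)
    · exact Or.inr rfl
  cp := by rw [← cj_centralizer, ← cj_inf, card_cj]; exact h.cp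
  pc := fun X hX hn => by
    have := (h.pc (cj g⁻¹ X) (lt_of_le_of_ne (by rw [← cj_inv_cj g Γ]; exact cj_mono _ hX.le)
      fun e => hX.ne (by rw [← e, cj_cj_inv]))
      (by rw [← cj_inv_cj g R]; exact cj_le_norm _ hn)).cj g
    rwa [cj_cj_inv] at this
  gen := by rw [← cj_commutator, h.gen]
  ne := fun e => h.ne (by rw [← cj_inv_cj g Γ, e, cj_bot])
  perf := by rw [← cj_commutator, h.perf]
  simple := fun N hN => by
    have h1 := hN.cj g⁻¹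
    rw [cj_inv_cj] at h1
    rw [← cj_cj_inv g N, ← cj_Zc]
    rcases h.simple _ h1 with e | e
    · exact Or.inl (cj_mono g e)
    · exact Or.inr (by rw [e])

theorem QS.cj (h : QS p V R Γ) (h1 : g ∈ 𝒩(V)) (h2 : g ∈ 𝒩(Γ)) : QS p V (cj g R) Γ := by
  have := h.cj' g
  rwa [cj_eq_self_iff.2 h1, cj_eq_self_iff.2 h2] at this

theorem Pt.cj (h : Pt p V Γ R W) (h1 : g ∈ 𝒩(V)) (h2 : g ∈ 𝒩(Γ)) :
    Pt p V Γ (cj g R) (cj g W) := by
  obtain ⟨T, hT, hn, e⟩ := h.ex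
  exact ⟨h.toQS.cj h1 h2, H6.cj g T, hT.cj_of_mem h2, cj_le_norm g hn, by rw [← cj_commutator, e]⟩

theorem Pt.cj_mem (h : Pt p V Γ R W) (hg : g ∈ Γ) : Pt p V Γ (H6.cj g R) (H6.cj g W) :=
  h.cj (h.nV hg) (le_normalizer hg)

theorem Pt.cj_cent (h : Pt p V Γ R W) (hg : g ∈ Γ) (hc : g ∈ 𝒞(R)) : Pt p V Γ R (H6.cj g W) := by
  have := h.cj_mem hg
  rwa [cj_eq_self_iff.2 (cent_le_norm hc)] at this

theorem Pair.symm (h : Pair p V Γ R W R' W') : Pair p V Γ R' W' R W := by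
  obtain ⟨g, hg, e⟩ := h.conj
  exact ⟨h.b, h.a, ⟨g⁻¹, Γ.inv_mem hg, by rw [← e, cj_inv_cj]⟩, h.ne.symm⟩

theorem Pair.cj (h : Pair p V Γ R W R' W') (h1 : g ∈ 𝒩(V)) (h2 : g ∈ 𝒩(Γ)) :
    Pair p V Γ (cj g R) (cj g W) (cj g R') (cj g W') := by
  obtain ⟨x, hx, e⟩ := h.conj
  refine ⟨h.a.cj h1 h2, h.b.cj h1 h2, ⟨g * x * g⁻¹, conj_mem_of_mem_normalizer h2 hx, ?_⟩,
    fun e' => h.ne (by rw [← cj_inv_cj g W, e', cj_inv_cj])⟩
  rw [cj_cj, inv_mul_cancel_right, ← cj_cj, e]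

end Cfsg.Agent.FL
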