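import Cfsg.Agent.Lib.FL.L
import Cfsg.Agent.Lib.ZD.Main
import Cfsg.Agent.Lib.BD.Main
import Cfsg.Agent.Lib.SZ.Main

/-!
# Case I and the endgame (notes/FL.md, sections I and End)
-/

set_option autoImplicit false
set_option linter.unusedSectionVars false

namespace Cfsg.Agent.FL

open Subgroup Cfsg.Agent.H6 Cfsg.Agent.FT
open scoped commutatorElement

variable {G : Type*} [Group G] [Finite G] {p : ℕ} {V R X Y Γ W R' W' T D P L N : Subgroup G}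
  {g c x y u : G}

/-- An involution of `W` is isolated if normalisers of `2`-groups above `W` centralise `W`. -/
theorem isolated {w : G} (h2 : IsPGroup 2 W) (hw : w ∈ W)
    (hN : ∀ Y : Subgroup G, IsPGroup 2 Y → W ≤ Y → 𝒩(Y) ≤ 𝒞(W)) (hw2 : w * w = 1)
    (hc : g * w * g⁻¹ * w = w * (g * w * g⁻¹)) : g * w * g⁻¹ = w := by
  obtain ⟨T, hT, hWT⟩ := H1.exists_isSylowIn_ge h2 (le_top : W ≤ ⊤)
  have hTW : T ≤ 𝒞(W) := le_normalizer.trans (hN T hT.isPGroup hWT)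
  have s1 : ∀ D : Subgroup G, IsPGroup 2 D → w ∈ D → D ≤ 𝒞[w] → 𝒩(D) ≤ 𝒞[w] := fun D hD hwD hDw => by
    obtain ⟨k, hk, hle⟩ := Syl.exists_cj_le (hT.mono (hTW.trans (cent_le_cent1 hw)) le_top) hD hDw
    obtain ⟨S, hS, hWS⟩ := H1.exists_isSylowIn_ge h2 (cent_comm.1 (hle.trans hTW))
    have hwk : w ∈ cj k D := by
      have := conj_mem_cj (g := k) hwD
      rwa [mem_cent1.1 hk, mul_inv_cancel_right] at this
    intro x hx
    have h1 : k * x * k⁻¹ ∈ 𝒩(cj k D) := cj_normalizer k D ▸ conj_mem_cj hx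
    obtain ⟨m, hm, h3⟩ := hS.frattini_elt (H1.normalizer_le_normalizer_centralizer _ h1)
    have h4 := cent_le_cent1 hw (hN S hS.isPGroup hWS h3)
    rwa [Subgroup.mul_mem_cancel_left _ (cent_le_cent1 hwk hm),
      Subgroup.mul_mem_cancel_right _ (inv_mem hk), Subgroup.mul_mem_cancel_left _ hk] at h4
  have s2 : ∀ P : Subgroup G, IsPGroup 2 P → w ∈ P → P ≤ 𝒞[w] := fun P hP hwP => by
    by_contra hne
    have hlt : P ⊓ 𝒞[w] < P := lt_of_le_of_ne inf_le_left fun e => hne (e.ge.trans inf_le_right)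
    exact (H1.lt_inf_normalizer_of_isPGroup hP hlt).not_ge (inf_le_inf_left _
      (s1 _ (hP.to_le inf_le_left) ⟨hwP, mem_cent1.2 rfl⟩ inf_le_right))
  have hv2 : g * w * g⁻¹ * (g * w * g⁻¹) = 1 := by
    calc _ = g * (w * w) * g⁻¹ := by group
      _ = 1 := by rw [hw2]; group
  obtain ⟨P, hP, hle⟩ := H1.exists_isSylowIn_ge (isPGroup_sup_of_le_normalizer (two_zp hv2)
    (two_zp hw2) (zpowers_le.2 (cent1_le_norm_zpowers (mem_cent1.2 hc)))) le_top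
  have hwP := hle (mem_sup_right (mem_zpowers w))
  have h5 := s2 (cj g⁻¹ P) (isPGroup_cj _ hP.isPGroup)
    (mem_cj.2 (by simpa using hle (mem_sup_left (mem_zpowers _))))
  obtain ⟨n, hn, e⟩ := Burnside_fusion Nat.prime_two hP (mem_top g) (s2 P hP.isPGroup hwP)
    (by rw [← cj_centralizer_singleton, ← cj_cj_inv g P]; exact cj_mono g h5)
  rw [e, mem_cent1.1 (s1 P hP.isPGroup hwP (s2 P hP.isPGroup hwP) hn.2), mul_inv_cancel_right]

universe u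

theorem QS.exists_bar {G : Type u} [Group G] [Finite G] {V R Γ : Subgroup G} (h : QS p V R Γ) :
    ∃ (B : Type u) (_ : Group B) (_ : Finite B) (_ : IsSimpleGroup B) (π : Γ →* B),
      Function.Surjective π ∧ mpre π ⊥ = Zc Γ := by
  have := (Zc_normal Γ).subgroupOf
  let π := QuotientGroup.mk' ((Zc Γ).subgroupOf Γ)
  have hs : Function.Surjective π := QuotientGroup.mk'_surjective _
  have hr : π.range = ⊤ := MonoidHom.range_eq_top.2 hs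
  have hk : mpre π ⊥ = Zc Γ := by
    ext x
    rw [mem_mpre]
    exact ⟨fun ⟨_, h2⟩ => mem_subgroupOf.1 ((QuotientGroup.eq_one_iff _).1 h2),
      fun hx => ⟨hx.1, (QuotientGroup.eq_one_iff _).2 hx⟩⟩
  have hb : ∀ N : Subgroup (Γ ⧸ (Zc Γ).subgroupOf Γ), mpre π N ≤ Zc Γ → N = ⊥ := fun N hN => by
    rw [← mim_mpre (f := π) (hr ▸ le_top : N ≤ π.range), mim_eq_bot_iff (mpre_le _ _), hk]
    exact hN
  have ht : mpre π ⊤ = Γ := le_antisymm (mpre_le _ _) fun x hx => mem_mpre.2 ⟨hx, mem_top _⟩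
  have : Nontrivial (Γ ⧸ (Zc Γ).subgroupOf Γ) := by
    rw [← Subgroup.nontrivial_iff, nontrivial_iff_exists_ne ⊥]
    refine ⟨⊤, fun e => h.not_sol (sol_of_le (sol_of_nil (nil_of_comm (Zc_comm Γ))) ?_)⟩
    rw [← hk, ← e, ht]
  refine ⟨_, inferInstance, inferInstance, ⟨fun N hN => ?_⟩, π, hs, hk⟩
  rcases h.simple _ (ht ▸ (NormalIn.of_normal N).mpre π) with e | e
  · exact Or.inl (hb N e)
  · right
    rw [← mim_mpre (f := π) (hr ▸ le_top : N ≤ π.range), e, mim_dom, hr]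

section Bar

variable {B : Type*} [Group B] [Finite B] {π : Γ →* B}

theorem bar_one (hk : mpre π ⊥ = Zc Γ) (x : Γ) : π x = 1 ↔ (x : G) ∈ Zc Γ := by
  rw [← hk, mem_mpre]
  exact ⟨fun h => ⟨x.2, h⟩, fun ⟨_, h⟩ => h⟩

theorem bar_mem (hk : mpre π ⊥ = Zc Γ) (hX : X ≤ Γ) (x : Γ) :
    π x ∈ mim π X ↔ (x : G) ∈ Zc Γ ⊔ X := by
  rw [← hk, ← mpre_mim hX, mem_mpre]
  exact ⟨fun h => ⟨x.2, h⟩, fun ⟨_, h⟩ => h⟩

theorem Pt.Z_le (h : Pt p V Γ R W) : Zc Γ ≤ Γ ⊓ 𝒩(W) :=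
  le_inf inf_le_left ((inf_le_right.trans (cent_le_cent h.le)).trans cent_le_norm)

theorem Pt.bar_M (h : Pt p V Γ R W) (hk : mpre π ⊥ = Zc Γ) (x : Γ) :
    π x ∈ mim π (Γ ⊓ 𝒩(W)) ↔ (x : G) ∈ 𝒩(W) := by
  rw [bar_mem hk inf_le_left, sup_eq_right.2 h.Z_le]
  exact ⟨fun h => h.2, fun h => ⟨x.2, h⟩⟩

theorem Pt.bar_norm (h : Pt p V Γ R W) (hs : Function.Surjective π) (hk : mpre π ⊥ = Zc Γ)
    {Y : Subgroup B} (h2 : IsPGroup 2 Y) (hW : mim π W ≤ Y) : 𝒩(Y) ≤ mim π (Γ ⊓ 𝒩(W)) := by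
  obtain ⟨S, hS, hWS⟩ := H1.exists_isSylowIn_ge h.two ((mim_le_iff h.le).1 hW)
  have hSΓ := hS.le.trans (mpre_le π Y)
  have h1 := Syl.mim hS (mpre_le π Y) π
  rw [mim_mpre (MonoidHom.range_eq_top.2 hs ▸ le_top)] at h1
  have h3 : mpre π Y = Zc Γ ⊔ S := by
    rw [h1.eq_of_le h2 le_rfl h1.le, mpre_mim hSΓ, hk]
  have h4 : mpre π Y ≤ 𝒩(S) := h3 ▸ sup_le
    ((inf_le_right.trans (cent_le_cent hSΓ)).trans cent_le_norm) le_normalizer
  intro b hb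
  obtain ⟨x, rfl⟩ := hs b
  have h5 : (x : G) ∈ 𝒩(mpre π Y) := le_norm_mpre (zpowers_le.2 x.2)
    (by rw [mim_zpowers x.2]; exact zpowers_le.2 hb) (mem_zpowers _)
  have h6 : H6.cj (x : G) S ≤ mpre π Y := by
    rw [← cj_eq_self_iff.2 h5]; exact cj_mono _ hS.le
  exact (h.bar_M hk x).2 (h.norm_le hWS hSΓ hS.isPGroup ⟨x.2, mem_normalizer_of_cj_le
    (hS.le_of_le_normalizer' (isPGroup_cj _ hS.isPGroup) h6 (h6.trans h4))⟩)

end Bar

theorem QS.bar_odd (h : QS p V R Γ) {B : Type*} [Group B] [Finite B] [IsSimpleGroup B] {z : B}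
    (h1 : z ≠ 1) (h2 : z * z = 1) : Op' 2 (⊤ : Subgroup B) = ⊥ := by
  have _ := h
  rcases (core_normal _ (⊤ : Subgroup B)).normal.eq_bot_or_eq_top with e | e
  · exact e
  · have h3 := core_pi {2}ᶜ (⊤ : Subgroup B)
    rw [e] at h3
    exact absurd (card_zp2 h2 h1 ▸ card_dvd_of_le (le_top : zpowers z ≤ ⊤))
      ((piN_compl_singleton_iff Nat.prime_two).1 h3)

theorem QS.not_central (h : QS p V R Γ) (hx : x ∈ Γ) (hZ : x ∉ Zc Γ) :
    ¬ ∀ g ∈ Γ, x * g * x⁻¹ * g⁻¹ ∈ Zc Γ := fun H => by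
  have hle : zpowers x ⊔ Zc Γ ≤ Γ := sup_le (zpowers_le.2 hx) inf_le_left
  rcases h.simple _ ⟨hle, fun g hg => mem_normalizer_of_cj_le (by
    rw [cj_sup, (Zc_normal Γ).cj_eq hg, cj_zpowers]
    refine sup_le (zpowers_le.2 ?_) le_sup_right
    have : g * x * g⁻¹ = (x * g * x⁻¹ * g⁻¹)⁻¹ * x := by group
    rw [this]
    exact mul_mem (mem_sup_right (inv_mem (H g hg))) (mem_sup_left (mem_zpowers x)))⟩ with e' | e'
  · exact hZ (e' (mem_sup_left (mem_zpowers x)))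
  · exact h.not_sol (e' ▸ sol_of_nil (nil_of_comm (comm_sup (comm_of_cyclic inferInstance)
      (Zc_comm Γ) (cent_comm.1 (inf_le_right.trans (cent_le_cent (zpowers_le.2 hx)))))))

theorem Pt.dvd_idx (h : Pt p V Γ R W) : Nat.card R ∣ (Zc W).relIndex W - 1 := by
  have h1 := BD.ncard_modEq_cent h.hr (isPGroup_of_card_eq rfl) (S := (W : Set G))
    fun x hx s hs => conj_mem_of_mem_normalizer (h.nW hx) hs
  have e : {s ∈ (W : Set G) | R ≤ 𝒞[s]} = (Zc W : Set G) := by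
    rw [← h.cent]; ext s; exact and_congr_right fun _ => le_cent1_iff
  rw [e, ← Nat.card_coe_set_eq, ← Nat.card_coe_set_eq] at h1
  change Nat.card W ≡ Nat.card (Zc W) [MOD _] at h1
  rw [← H1.card_mul_relIndex (inf_le_left : Zc W ≤ W)] at h1
  refine (Nat.modEq_iff_dvd' (Nat.pos_of_ne_zero (relIndex_ne_zero' _ _))).1 (Nat.ModEq.symm
    (Nat.ModEq.cancel_left_of_coprime (c := Nat.card (Zc W)) ?_ (by simpa using h1)))
  exact (h.fa.cop.coprime_dvd_left (card_dvd_of_le inf_le_left)).symm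

/-- Case I. -/
theorem Pt.caseI (h : Pt p V Γ R W) : ¬ Zc W ≤ Zc Γ := by
  intro hA
  obtain ⟨B, _, _, _, π, hs, hk⟩ := h.toQS.exists_bar
  obtain ⟨w, hw, hwZ⟩ := SetLike.not_le_iff_exists.1 h.not_le
  have hwΓ := h.le hw
  have h1 : π ⟨w, hwΓ⟩ ≠ 1 := fun e => hwZ ((bar_one hk _).1 e)
  have h2 : π ⟨w, hwΓ⟩ * π ⟨w, hwΓ⟩ = 1 := by
    rw [← map_mul]; exact (bar_one hk _).2 (hA (h.sq_mem hw))
  have h3 : mim π (Γ ⊓ 𝒩(W)) ≤ 𝒞(mim π W) := by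
    rintro _ ⟨x, hx, rfl⟩ _ ⟨y, hy, rfl⟩
    obtain ⟨c, hc, t, ht, e⟩ := h.centA x.2 hx.2 fun a ha => ((hA ha).2 x x.2).symm
    refine commutatorElement_eq_one_iff_mul_comm.1 ?_
    rw [← map_commutatorElement, bar_one hk]
    change ⁅(y : G), (x : G)⁆ ∈ _
    have e1 : ⁅(y : G), c * t⁆ = c * ⁅(y : G), t⁆ * c⁻¹ := by
      simp only [commutatorElement_def, ← mul_assoc, hc.2 y hy, mul_inv_rev]
    rw [e, e1]
    exact (Zc_normal Γ).conj_mem hc.1.1 (hA (h.comm_mem hy ht))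
  have h4 : ∀ b : B, π ⟨w, hwΓ⟩ * b * (π ⟨w, hwΓ⟩)⁻¹ * b⁻¹ = 1 := fun b => by
    have := ZD.zstar_iso (N := ⊤) (mem_top _) h2 (fun g _ hc => isolated (mim_pgroup h.two)
      (mem_mim_of_mem hw hwΓ) (fun Y h5 h6 => (h.bar_norm hs hk h5 h6).trans h3) h2 hc) (mem_top b)
    rwa [h.toQS.bar_odd h1 h2, mem_bot] at this
  refine h.toQS.not_central hwΓ hwZ fun g hg => ?_
  have := h4 (π ⟨g, hg⟩)
  rw [← map_inv, ← map_inv, ← map_mul, ← map_mul, ← map_mul, bar_one hk] at this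
  exact this

/-- The endgame. -/
theorem Pt.endgame (h : Pt p V Γ R W)
    (hb : ∀ g ∈ Γ, g ∉ 𝒩(W) → H6.cj g (Zc W) ⊓ 𝒩(W) ≤ Zc Γ) : False := by
  obtain ⟨B, _, _, _, π, hs, hk⟩ := h.toQS.exists_bar
  have hAΓ : Zc W ≤ Γ := inf_le_left.trans h.le
  have hA1 : mim π (Zc W) ≠ ⊥ := fun e => h.caseI (hk ▸ (mim_eq_bot_iff hAΓ).1 e)
  have hA2 : IsPGroup 2 (mim π (Zc W)) := mim_pgroup (h.two.to_le inf_le_left)
  have hW2 : IsPGroup 2 (mim π W) := mim_pgroup h.two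
  have hMW : mim π (Γ ⊓ 𝒩(W)) ≤ 𝒩(mim π W) := mim_le_norm inf_le_right
  have hMA : mim π (Γ ⊓ 𝒩(W)) ≤ 𝒩(mim π (Zc W)) :=
    mim_le_norm (inf_le_right.trans (norm_le_norm_Zc W))
  have hWM : mim π W ≤ mim π (Γ ⊓ 𝒩(W)) := mim_mono (le_inf h.le le_normalizer)
  have hAW : mim π (Zc W) ≤ mim π W := mim_mono inf_le_left
  obtain ⟨T, hT, hWT⟩ := H1.exists_isSylowIn_ge hW2 le_top
  have hTM := le_normalizer.trans (h.bar_norm hs hk hT.isPGroup hWT)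
  obtain ⟨⟨z, hz⟩, hz1⟩ := ne_bot_iff_exists_ne_one.1
    (H1.inf_centralizer_ne_bot_of_isPGroup hA2 hT.isPGroup (hTM.trans hMA) hA1)
  have hz1' : z ≠ 1 := fun e => hz1 (Subtype.ext e)
  have sqA : ∀ a ∈ mim π (Zc W), a * a = 1 := by
    rintro _ ⟨a, ha, rfl⟩
    rw [← map_mul, show a * a = 1 from Subtype.ext (h.A_sq ha), map_one]
  have cA : ∀ a ∈ mim π (Zc W), a ≠ 1 → 𝒞[a] ≤ mim π (Γ ⊓ 𝒩(W)) := by
    rintro _ ⟨a, ha, rfl⟩ h1 b hb'
    obtain ⟨x, rfl⟩ := hs b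
    refine (h.bar_M hk x).2 (h.cstar ha (fun e => h1 ((bar_one hk a).2 e)) x.2 ?_)
    have := commutatorElement_eq_one_iff_mul_comm.2 (mem_cent1.1 hb')
    rw [← map_commutatorElement, bar_one hk] at this
    exact this
  have h2 : ∀ g : B, g * z * g⁻¹ ∈ mim π (Γ ⊓ 𝒩(W)) → g ∈ mim π (Γ ⊓ 𝒩(W)) := fun b hb' => by
    obtain ⟨g, rfl⟩ := hs b
    obtain ⟨a, ha, rfl⟩ := hz.1
    rw [← map_inv, ← map_mul, ← map_mul, h.bar_M hk] at hb'
    rw [h.bar_M hk]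
    by_contra hg
    exact hz1' ((bar_one hk a).2 (((Zc_normal Γ).conj_mem_iff g.2).1
      (hb g g.2 hg ⟨conj_mem_cj ha, hb'⟩)))
  have hM : mim π (Γ ⊓ 𝒩(W)) ≠ ⊤ := fun e => (h.norm_lt h.le h.two h.not_le).not_ge
    fun x hx => ⟨hx, (h.bar_M hk ⟨x, hx⟩).1 (e ▸ mem_top _)⟩
  have hse := ZD.aschbacher hM (orderOf_eq_prime (by rw [pow_two, sqA z hz.1]) hz1')
    (hWM (hAW hz.1)) (syl_iff_sylIn.1 hT) (le_cent1_iff.2 hz.2) h2 fun g hc hne => by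
      have h3 := conj_mem_of_mem_normalizer (hMA (h2 g (cA z hz.1 hz1' (mem_cent1.2 hc.symm)))) hz.1
      refine cA _ (mul_mem hz.1 h3) fun e => hne ?_
      rw [← inv_eq_of_mul_eq_one_right e, inv_eq_of_mul_eq_one_right (sqA z hz.1)]
  obtain ⟨Q, D, t, h3, -⟩ := BD.bender_simple hse
  have hWQ : mim π W ≤ Q := fun x hx => by
    obtain ⟨k, hk'⟩ := hW2 ⟨x, hx⟩
    exact h3.mem_Q_of_pow (hWM hx) (congrArg Subtype.val hk')
  have hK : SZ.KK D t ≤ mim π (Γ ⊓ 𝒩(W)) := h3.K_le.trans h3.D_le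
  have hA0 : mim π (Zc W) = SZ.Q0 Q := le_antisymm
    (fun a ha => h3.mem_Q0.2 ⟨hWQ (hAW ha), sqA a ha⟩)
    (h3.Q0_le (hAW.trans hWQ) (hK.trans hMA)
      (even_iff_two_dvd.2 (H9.dvd_card_of_ne_bot hA2 hA1)))
  have h4 := h3.card_K_dvd hWQ hAW (hK.trans hMW) (hK.trans hMA)
  have h5 : (mim π (Zc W)).relIndex (mim π W) = (Zc W).relIndex W := by
    rw [relIndex_mim hAΓ h.le, hk, ← inf_relIndex_right]
    congr 1
    refine le_antisymm (fun x hx => ⟨hx.2, ?_⟩) (le_inf le_sup_right inf_le_left)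
    exact (sup_le (inf_le_right.trans (cent_le_cent h.le)) inf_le_right : _ ≤ 𝒞(W)) hx.1
  have h6 := H1.card_mul_relIndex hAW
  have h7 := card_dvd_of_le hWQ
  rw [h5] at h4 h6
  rw [← h6, hA0] at h7
  obtain ⟨l, hl, e1⟩ := h3.exists_card_Q0
  obtain ⟨k, e2⟩ := (Nat.dvd_prime_pow Nat.prime_two).1 ((relIndex_dvd_card (Zc W) W).trans
    (IsPGroup.iff_card.1 h.two).choose_spec.dvd)
  have h8 := h.dvd_idx
  have h9 := h3.card_K
  have h10 : (Zc W).relIndex W ≠ 1 := fun e => h.not_le (h.comm.ge.trans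
    ((commutator_eq_bot_iff.2 ((relIndex_eq_one.1 e).trans h.A_cent)).le.trans bot_le))
  rw [e2.2] at h4 h7 h8 h10
  rw [e1] at h7 h9
  rw [show Nat.card (SZ.KK D t) = 2 ^ l - 1 by omega] at h4
  have hlk : l ∣ k := by
    have := Nat.pow_sub_one_gcd_pow_sub_one 2 l k
    rw [Nat.gcd_eq_left h4] at this
    have a1 : 0 < 2 ^ l := by positivity
    have a2 : 0 < 2 ^ l.gcd k := by positivity
    rw [Nat.pow_right_injective le_rfl (by omega : 2 ^ l = 2 ^ l.gcd k)]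
    exact Nat.gcd_dvd_right l k
  have hr : ∀ n, n ∣ Nat.card (⊤ : Subgroup B) → ¬ Nat.card R ∣ n := fun n h11 h12 =>
    (Nat.Prime.coprime_iff_not_dvd h.hr).1 h.cop.symm (h12.trans (h11.trans (by
      rw [← MonoidHom.range_eq_top.2 hs, ← mim_dom]; exact card_mim_dvd π Γ)))
  have hr1 : ¬ Nat.card R ∣ 2 ^ l - 1 := hr _ (by
    rw [show 2 ^ l - 1 = Nat.card (SZ.KK D t) by omega]; exact card_dvd_of_le le_top)
  obtain ⟨m, rfl⟩ := hlk
  have hm0 : m ≠ 0 := fun e => h10 (by rw [e, mul_zero, pow_zero])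
  have hm1 : m ≠ 1 := fun e => hr1 (by rwa [e, mul_one] at h8)
  have key : ∀ j, Nat.card Q = 2 ^ (l * j) → m + 1 ≤ j := fun j e => by
    rw [e, ← pow_add, Nat.pow_dvd_pow_iff_le_right (by norm_num)] at h7
    exact Nat.le_of_mul_le_mul_left (by linarith : l * (m + 1) ≤ l * j) (by omega)
  obtain ⟨-, s, -, ⟨e, -⟩ | ⟨-, e, -⟩ | ⟨-, e, -⟩⟩ := h3.concl
  · have := key 1 (by rw [mul_one, ← e1, ← e])
    omega
  · have := key 2 (by rw [e, e1, pow_mul])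
    omega
  · have := key 3 (by rw [e, e1, pow_mul])
    obtain rfl : m = 2 := by omega
    rw [pow_mul, show (2 ^ l) ^ 2 - 1 = (2 ^ l + 1) * (2 ^ l - 1) by
      rw [← Nat.sq_sub_sq, one_pow]] at h8
    refine hr (2 ^ l + 1) ?_ (((Nat.Prime.dvd_mul h.hr).1 h8).resolve_right hr1)
    refine Dvd.dvd.trans ?_ (relIndex_dvd_card (mim π (Γ ⊓ 𝒩(W))) ⊤)
    rw [h3.relIndex_eq, e, e1]
    exact Odd.nat_add_dvd_pow_add_pow (2 ^ l) 1 (by decide : Odd 3)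

end Cfsg.Agent.FL
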