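import Cfsg.Agent.Lib.FL.Main
import Cfsg.Agent.Lib.FL.C
import Cfsg.Agent.Lib.H1.WeakClosure4
import Cfsg.Agent.Lib.H1.QdFusion
import Cfsg.Agent.Lib.H8.Solv

/-!
# Fusion systems with a fixed point free automorphism of prime order (notes/FL.md, section Fus)
-/

set_option autoImplicit false
set_option linter.unusedSectionVars false

namespace Cfsg.Agent.FL

open Subgroup Cfsg.Agent.FT
open Cfsg.Agent.H6 hiding Op cent_sup
open scoped commutatorElement

namespace Fus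

section Abs

variable {A : Type*} [Group A] [Finite A] {p r : ℕ} {ρ ξ : MulAut A}
  {Γ P X : Subgroup (MulAut A)}

/-- The holomorph. -/
abbrev HH (A : Type*) [Group A] : Type _ := A ⋊[MonoidHom.id (MulAut A)] MulAut A

instance instFiniteHH : Finite (HH A) := Finite.of_equiv _ SemidirectProduct.equivProd.symm

def iL (A : Type*) [Group A] : A →* HH A := SemidirectProduct.inl
def iR (A : Type*) [Group A] : MulAut A →* HH A := SemidirectProduct.inr

theorem iL_inj : Function.Injective (iL A) := SemidirectProduct.inl_injective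
theorem iR_inj : Function.Injective (iR A) := SemidirectProduct.inr_injective

theorem iR_conj (g : MulAut A) (v : A) : iR A g * iL A v * (iR A g)⁻¹ = iL A (g v) := by
  have h := (SemidirectProduct.inl_aut (φ := MonoidHom.id (MulAut A)) g v).symm
  rw [map_inv] at h
  exact h

theorem iR_comm (g : MulAut A) (v : A) : iR A g * iL A v = iL A v * iR A g ↔ g v = v := by
  rw [← mul_inv_eq_iff_eq_mul, iR_conj, iL_inj.eq_iff]

theorem map_le_norm (Γ : Subgroup (MulAut A)) : Γ.map (iR A) ≤ 𝒩((iL A).range) := by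
  rintro _ ⟨g, -, rfl⟩
  refine FusionSystem.mem_normalizer_of_finite ?_
  rintro _ ⟨v, rfl⟩
  exact ⟨_, (iR_conj g v).symm⟩

theorem card_iR (Γ : Subgroup (MulAut A)) : Nat.card (Γ.map (iR A)) = Nat.card Γ :=
  card_map_of_injective iR_inj

theorem map_norm (h : X ≤ 𝒩(Γ)) : X.map (iR A) ≤ 𝒩(Γ.map (iR A)) :=
  (map_mono h).trans (le_normalizer_map _)

/-- A fixed point free automorphism of odd prime order of an elementary abelian group. -/
structure AA (p r : ℕ) (ρ : MulAut A) : Prop where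
  hp : p.Prime
  p2 : p ≠ 2
  hr : r.Prime
  r2 : r ≠ 2
  rp : r ≠ p
  comm : ∀ a b : A, a * b = b * a
  ex : ∀ a : A, a ^ p = 1
  nt : ∃ a : A, a ≠ 1
  pw : ρ ^ r = 1
  fpf : ∀ a, ρ a = a → a = 1

theorem AA.card (h : AA p r ρ) : Nat.card ((zpowers ρ).map (iR A)) = r := by
  have := Fact.mk h.hr
  rw [card_iR, Nat.card_zpowers]
  refine orderOf_eq_prime h.pw fun e => ?_
  obtain ⟨a, ha⟩ := h.nt
  exact ha (h.fpf a (by rw [e]; rfl))

theorem AA.act (h : AA p r ρ) : Act p (iL A).range ((zpowers ρ).map (iR A)) := by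
  refine ⟨h.hp, h.p2, elem_iff.2 ⟨?_, ?_⟩, h.card.symm ▸ h.hr, h.card.symm ▸ h.r2,
    h.card.symm ▸ h.rp, map_le_norm _, eq_bot_iff.2 ?_⟩
  · rintro _ ⟨a, rfl⟩ _ ⟨b, rfl⟩
    rw [← map_mul, ← map_mul, h.comm]
  · rintro _ ⟨a, rfl⟩
    rw [← map_pow, h.ex, map_one]
  · rintro _ ⟨⟨a, rfl⟩, ha⟩
    rw [h.fpf a ((iR_comm ρ a).1 (ha _ ⟨ρ, mem_zpowers ρ, rfl⟩)), map_one]
    exact one_mem _

theorem AA.fa (h : AA p r ρ) (hn : ρ ∈ 𝒩(Γ)) (hc : ¬ r ∣ Nat.card Γ) :
    Fa (iL A).range ((zpowers ρ).map (iR A)) (Γ.map (iR A)) := by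
  refine ⟨map_le_norm _, map_norm (zpowers_le.2 hn), eq_bot_iff.2 ?_, ?_⟩
  · rintro _ ⟨⟨g, -, rfl⟩, hg⟩
    have : g = 1 := MulEquiv.ext fun v => (iR_comm g v).1 (hg _ ⟨v, rfl⟩).symm
    rw [this, map_one]
    exact one_mem _
  · rw [h.card, card_iR]
    exact ((Nat.Prime.coprime_iff_not_dvd h.hr).2 hc).symm

theorem AA.normal (h : AA p r ρ) (hn : ρ ∈ 𝒩(Γ)) (hc : ¬ r ∣ Nat.card Γ) (hP : Syl p P Γ)
    (hnP : ρ ∈ 𝒩(P)) (hf : ∀ g ∈ P, ρ * g = g * ρ → g = 1) : Γ ≤ 𝒩(P) := by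
  have := Fact.mk h.hp
  have hΓ := h.fa hn hc
  have hP' : Syl p (P.map (iR A)) (Γ.map (iR A)) := hP.map _
  have h1 := hP'.inf_centralizer hΓ.nR hΓ.cop.symm (Or.inl h.act.sol)
    (map_norm (zpowers_le.2 hnP))
  have h2 : P.map (iR A) ⊓ 𝒞((zpowers ρ).map (iR A)) = ⊥ := by
    rw [eq_bot_iff]
    rintro _ ⟨⟨g, hg, rfl⟩, hc⟩
    have := hc _ ⟨ρ, mem_zpowers ρ, rfl⟩
    rw [← map_mul, ← map_mul] at this
    rw [hf g hg (iR_inj this), map_one]
    exact one_mem _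
  have h3 := thmG h.act hΓ fun e => (Syl.ne_bot_iff h1).2 e h2
  have h4 : Op p (Γ.map (iR A)) = P.map (iR A) :=
    (h3.eq_of_le hP'.isPGroup hP'.le (Op_le_syl h.hp hP')).symm
  have h5 : Γ.map (iR A) ≤ 𝒩(P.map (iR A)) := by
    rw [← h4]; exact (core_normal _ _).norm
  intro g hg
  refine FusionSystem.mem_normalizer_of_finite fun x hx => ?_
  obtain ⟨y, hy, e⟩ := conj_mem_of_mem_normalizer (h5 ⟨g, hg, rfl⟩) ⟨x, hx, rfl⟩
  rw [← map_inv, ← map_mul, ← map_mul] at e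
  exact iR_inj e ▸ hy

theorem AA.torus (h : AA p r ρ) (hn : ρ ∈ 𝒩(X)) (hc : ¬ r ∣ Nat.card X) (hp : ¬ p ∣ Nat.card X)
    (hξ : ξ ∈ X) (h1 : zpowers ξ ≠ ⊥)
    (htr : ∀ a b : A, a ∈ closure {y : A | ∃ ψ ∈ zpowers ξ, ∃ t : A, y = ψ t * t⁻¹} →
      b ∈ closure {y : A | ∃ ψ ∈ zpowers ξ, ∃ t : A, y = ψ t * t⁻¹} → a ≠ 1 → b ≠ 1 →
      ∃ ψ ∈ zpowers ξ, ψ a = b) : False := by
  have hle : ⁅(iL A).range, zpowers (iR A ξ)⁆ ≤
      (closure {y : A | ∃ ψ ∈ zpowers ξ, ∃ t : A, y = ψ t * t⁻¹}).map (iL A) := by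
    rw [commutator_comm, commutator_le, ← MonoidHom.map_zpowers]
    rintro _ ⟨ψ, hψ, rfl⟩ _ ⟨t, rfl⟩
    refine ⟨_, subset_closure ⟨ψ, hψ, t, rfl⟩, ?_⟩
    rw [commutatorElement_def, iR_conj, map_mul, map_inv]
  refine h.act.torus (h.fa hn hc) (by rwa [card_iR]) (x := iR A ξ) ⟨ξ, hξ, rfl⟩
    (fun e => h1 (zpowers_eq_bot.2 (iR_inj (e.trans (map_one _).symm)))) fun a ha b hb a1 b1 => ?_
  obtain ⟨a, ha', rfl⟩ := hle ha
  obtain ⟨b, hb', rfl⟩ := hle hb
  obtain ⟨ψ, hψ, e⟩ := htr a b ha' hb' (fun e => a1 (by rw [e, map_one]))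
    (fun e => b1 (by rw [e, map_one]))
  refine ⟨iR A ψ, ?_, by rw [iR_conj, e]⟩
  rw [← MonoidHom.map_zpowers]
  exact ⟨ψ, hψ, rfl⟩

end Abs

section Fusion

open Cfsg.FusionSystem Cfsg.Agent.H7

universe u

variable {Ω : Type u} [Group Ω] {S : Subgroup Ω} [Finite S] {p r : ℕ} {F : FusionSystem S}
  {α : MulAut S} {J V T : Subgroup Ω}

/-- The central elements of order dividing `p`. -/
def omZ (p : ℕ) (J : Subgroup Ω) : Subgroup Ω where
  carrier := {x | x ∈ J ∧ (∀ y ∈ J, y * x = x * y) ∧ x ^ p = 1}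
  mul_mem' := fun {a b} ha hb => ⟨J.mul_mem ha.1 hb.1, fun y hy => by
    rw [← mul_assoc, ha.2.1 y hy, mul_assoc, hb.2.1 y hy, mul_assoc], by
    rw [Commute.mul_pow (hb.2.1 a ha.1), ha.2.2, hb.2.2, one_mul]⟩
  one_mem' := ⟨J.one_mem, fun y _ => by simp, one_pow _⟩
  inv_mem' := fun {a} ha => ⟨J.inv_mem ha.1, fun y hy => (Commute.inv_right (ha.2.1 y hy)).eq, by
    rw [inv_pow, ha.2.2, inv_one]⟩

theorem omZ_le : omZ p J ≤ J := fun _ h => h.1

theorem map_omZ {f : Ω → Ω} (hf : IsHomOn J f) (hm : ∀ x ∈ J, f x ∈ J)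
    (hs : ∀ y ∈ J, ∃ x ∈ J, f x = y) : ∀ x ∈ omZ p J, f x ∈ omZ p J := by
  intro x hx
  refine ⟨hm x hx.1, fun y hy => ?_, by rw [← hf.map_pow hx.1, hx.2.2, hf.map_one]⟩
  obtain ⟨z, hz, rfl⟩ := hs y hy
  rw [← hf.map_mul hz hx.1, ← hf.map_mul hx.1 hz, hx.2.1 z hz]

theorem omZ_ne_bot [Fact p.Prime] (hS : IsPGroup p S) (h : S ≠ ⊥) : ∃ x ∈ omZ p S, x ≠ 1 := by
  have h1 := centralizerIn_self_ne_bot hS h
  have h2 := H9.dvd_card_of_ne_bot (hS.to_le (centralizerIn_le (S := S) (P := S))) h1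
  obtain ⟨x, hx⟩ := exists_prime_orderOf_dvd_card' p h2
  refine ⟨x, ⟨x.2.1, fun y hy => x.2.2 y hy, ?_⟩, fun e => ?_⟩
  · rw [← coe_pow, ← hx, pow_orderOf_eq_one, coe_one]
  · rw [(Subtype.ext e : x = 1), orderOf_one] at hx
    exact (Fact.out : p.Prime).one_lt.ne hx

/-- The inductive hypothesis. -/
structure Hyp (F : FusionSystem S) (r : ℕ) (α : MulAut S) : Prop where
  fpf : ∀ x ∈ S, equivFun α x = x → x = 1
  pw : α ^ r = 1
  mor : ∀ P f, F.IsMor P f → ∃ f', F.IsMor (img P (equivFun α)) f' ∧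
    ∀ x ∈ P, f' (equivFun α x) = equivFun α (f x)
  cop : ∀ R, ¬ r ∣ Nat.card (F.autGroup R)

theorem aut_inj (α : MulAut S) {x y : Ω} (hx : x ∈ S) (hy : y ∈ S)
    (e : equivFun α x = equivFun α y) : x = y := by
  rw [← equivFun_inv_apply α hx, e, equivFun_inv_apply α hy]

theorem exists_res (hV : V ≤ S) (hm : ∀ x ∈ V, equivFun α x ∈ V) :
    ∃ ρ : MulAut V, ∀ x ∈ V, equivFun ρ x = equivFun α x := by
  have := finite_of_le hV
  have hi : Function.Injective (((isHomOn_equivFun α).mono hV).toHom.codRestrict V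
      fun x => hm x x.2) := fun x y e =>
    Subtype.ext (aut_inj α (hV x.2) (hV y.2) (congrArg Subtype.val e))
  exact ⟨MulEquiv.ofBijective _ (Finite.injective_iff_bijective.1 hi), fun x hx => by
    rw [equivFun_of_mem _ hx]; rfl⟩

theorem res_pow (hV : V ≤ S) {ρ : MulAut V} (e : ∀ x ∈ V, equivFun ρ x = equivFun α x) (n : ℕ) :
    ∀ x ∈ V, equivFun (ρ ^ n) x = equivFun (α ^ n) x := by
  induction n with
  | zero => intro x hx; rw [pow_zero, pow_zero, equivFun_one hx, equivFun_one (hV hx)]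
  | succ n ih =>
    intro x hx
    rw [pow_succ, pow_succ, equivFun_mul _ _ hx, equivFun_mul _ _ (hV hx),
      ih _ (equivFun_mem ρ hx), e x hx]

theorem res_surj {ρ : MulAut V} (e : ∀ x ∈ V, equivFun ρ x = equivFun α x) :
    ∀ y ∈ V, ∃ x ∈ V, equivFun α x = y := fun y hy =>
  ⟨_, equivFun_mem ρ⁻¹ hy, by rw [← e _ (equivFun_mem ρ⁻¹ hy), equivFun_apply_inv ρ hy]⟩

theorem Hyp.surj (h : Hyp F r α) {s : Ω} (hs : s ∈ S) : ∃ t ∈ S, t⁻¹ * equivFun α t = s := by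
  have hi : Function.Injective fun t : S => t⁻¹ * α t := by
    intro a b e
    have e1 : α (b * a⁻¹) = b * a⁻¹ := by
      have e' : a⁻¹ * α a = b⁻¹ * α b := e
      rw [map_mul, map_inv, mul_inv_eq_iff_eq_mul, mul_assoc, e', mul_inv_cancel_left]
    have e2 := h.fpf _ (b * a⁻¹).2 (by rw [equivFun_coe, e1])
    exact (mul_inv_eq_one.1 (Subtype.ext e2)).symm
  obtain ⟨t, e⟩ := Finite.injective_iff_surjective.1 hi ⟨s, hs⟩
  exact ⟨t, t.2, by rw [equivFun_coe]; exact congrArg Subtype.val e⟩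

/-- `α` has no fixed points modulo an invariant subgroup. -/
theorem Hyp.fpf_mod (h : Hyp F r α) (hT : T ≤ S) (hm : ∀ x ∈ T, equivFun α x ∈ T) {s : Ω}
    (hs : s ∈ S) (e : s⁻¹ * equivFun α s ∈ T) : s ∈ T := by
  have := finite_of_le hT
  obtain ⟨ρ, hρ⟩ := exists_res hT hm
  have hi : Function.Injective fun t : T => t⁻¹ * ρ t := by
    intro a b e
    have e1 : ρ (b * a⁻¹) = b * a⁻¹ := by
      have e' : a⁻¹ * ρ a = b⁻¹ * ρ b := e
      rw [map_mul, map_inv, mul_inv_eq_iff_eq_mul, mul_assoc, e', mul_inv_cancel_left]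
    have e2 := h.fpf _ (hT (b * a⁻¹).2) (by rw [← hρ _ (b * a⁻¹).2, equivFun_coe, e1])
    exact (mul_inv_eq_one.1 (Subtype.ext e2)).symm
  obtain ⟨t, e'⟩ := Finite.injective_iff_surjective.1 hi ⟨_, e⟩
  have e2 : (t : Ω)⁻¹ * equivFun α t = s⁻¹ * equivFun α s := by
    rw [← hρ t t.2, equivFun_coe]; exact congrArg Subtype.val e'
  have hh := isHomOn_equivFun α
  have e3 := h.fpf (s * (t : Ω)⁻¹) (S.mul_mem hs (S.inv_mem (hT t.2))) (by
    rw [hh.map_mul hs (S.inv_mem (hT t.2)), hh.map_inv (hT t.2), mul_inv_eq_iff_eq_mul, mul_assoc,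
      e2, mul_inv_cancel_left])
  rw [mul_inv_eq_one.1 e3]
  exact t.2

theorem Hyp.mem_norm (h : Hyp F r α) (hV : V ≤ S) {ρ : MulAut V}
    (e : ∀ x ∈ V, equivFun ρ x = equivFun α x) : ρ ∈ 𝒩(F.autGroup V) := by
  have := F.finite_autGroup V
  refine mem_normalizer_of_finite fun β hβ => ?_
  obtain ⟨f', hf', e'⟩ := h.mor _ _ (isMor_of_mem_autGroup hV hβ)
  have hi : img V (equivFun α) = V := le_antisymm
    (img_le_iff.2 fun x hx => e x hx ▸ equivFun_mem ρ hx) fun y hy => by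
      obtain ⟨x, hx, rfl⟩ := res_surj e y hy
      exact mem_img_of_mem _ hx
  rw [hi] at hf'
  refine hf'.mem_autGroup fun y => ?_
  have hx := equivFun_mem ρ⁻¹ y.2
  rw [← equivFun_coe, equivFun_mul _ _ y.2, equivFun_mul _ _ hx, e _ (equivFun_mem β hx),
    ← e' _ hx, ← e _ hx, equivFun_apply_inv ρ y.2]

theorem Hyp.aa (h : Hyp F r α) (hp : p.Prime) (p2 : p ≠ 2) (hr : r.Prime) (r2 : r ≠ 2)
    (rp : r ≠ p) (hJ : J ≤ S) (h1 : ∃ x ∈ omZ p J, x ≠ 1) {ρ : MulAut (omZ p J)}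
    (e : ∀ x ∈ omZ p J, equivFun ρ x = equivFun α x) : AA p r ρ := by
  have hV := (omZ_le (p := p)).trans hJ
  obtain ⟨x, hx, x1⟩ := h1
  refine ⟨hp, p2, hr, r2, rp, fun a b => Subtype.ext (b.2.2.1 a a.2.1),
    fun a => Subtype.ext a.2.2.2, ⟨⟨x, hx⟩, fun e => x1 (congrArg Subtype.val e)⟩,
    mulEquiv_ext_equivFun fun y hy => ?_, fun a ha => Subtype.ext (h.fpf a (hV a.2) ?_)⟩
  · rw [res_pow hV e r y hy, h.pw, equivFun_one hy, equivFun_one (hV hy)]
  · rw [← e a a.2, equivFun_coe, ha]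

theorem aut_thompson (α : MulAut S) :
    ∀ x ∈ thompsonSubgroupAOf S, equivFun α x ∈ thompsonSubgroupAOf S := by
  rintro _ ⟨x, hx, rfl⟩
  exact ⟨α x, H1.map_thompsonSubgroupA_le α ⟨x, hx, rfl⟩, (equivFun_coe α x).symm⟩

theorem aut_omZ (hJ : J ≤ S) (hm : ∀ x ∈ J, equivFun α x ∈ J) :
    ∀ x ∈ omZ p J, equivFun α x ∈ omZ p J := by
  obtain ⟨ρ, hρ⟩ := exists_res hJ hm
  exact map_omZ ((isHomOn_equivFun α).mono hJ) hm (res_surj hρ)

variable [Fact p.Prime]

/-- `Ω₁(Z(S))` is invariant under `Aut_F(J(S))`. -/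
theorem Hyp.inv (h : Hyp F r α) (hF : F.IsSaturated p) (hS : IsPGroup p S) (p2 : p ≠ 2)
    (hr : r.Prime) (r2 : r ≠ 2) (rp : r ≠ p) (h1 : S ≠ ⊥) {f : Ω → Ω}
    (hf : F.IsIso (thompsonSubgroupAOf S) (thompsonSubgroupAOf S) f) :
    ∀ x ∈ omZ p S, f x ∈ omZ p S := by
  set J := thompsonSubgroupAOf S with hJ
  have hJS : J ≤ S := H1.thompson_le S
  have hV : omZ p J ≤ S := omZ_le.trans hJS
  have := finite_of_le hV
  have hTV : omZ p S ≤ omZ p J := fun x hx =>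
    ⟨H1.centralizerIn_le_thompson S ⟨hx.1, hx.2.1⟩, fun y hy => hx.2.1 y (hJS hy), hx.2.2⟩
  have hm := aut_omZ (p := p) hJS (aut_thompson α)
  obtain ⟨ρ, hρ⟩ := exists_res hV hm
  have haa := h.aa Fact.out p2 hr r2 rp hJS
    ((omZ_ne_bot hS h1).imp fun x hx => ⟨hTV hx.1, hx.2⟩) hρ
  have hn : S ≤ 𝒩(omZ p J) := fun s hs => mem_normalizer_of_finite
    (map_omZ (isHomOn_conj J s)
      (fun x hx => H6.conj_mem_of_mem_normalizer (H1.le_normalizer_thompson S hs) hx)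
      fun y hy => ⟨_, inv_conj_mem_of_mem_normalizer (H1.le_normalizer_thompson S hs) hy, by group⟩)
  have hsyl := H1.isSylowIn_of_sylowIn
    (hF.sylowIn hS (F.isFullyNormalized_of_le_normalizer hV hn))
  have hh := isHomOn_equivFun α
  have hcj : ∀ s (hs : s ∈ S), ρ * conjAut _ (hn hs) * ρ⁻¹ = conjAut _ (hn (equivFun_mem α hs)) :=
    fun s hs => H8.aut_conj_conjAut hh hV (fun x hx => (hρ x hx).symm) hs (hn hs) _
  have hex : ∀ g ∈ autInducedBy S (omZ p J), ∃ s, ∃ hs : s ∈ S, g = conjAut _ (hn hs) := by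
    intro g hg
    obtain ⟨s, hs, e⟩ := mem_autInducedBy_iff.1 hg
    exact ⟨s, hs, MulEquiv.ext fun x => Subtype.ext (e x)⟩
  have hN := haa.normal (h.mem_norm hV hρ) (h.cop _) hsyl
    (mem_normalizer_of_finite fun g hg => by
      obtain ⟨s, hs, rfl⟩ := hex g hg
      rw [hcj s hs]
      exact conjAut_mem_autInducedBy (equivFun_mem α hs) _)
    (fun g hg e => by
      obtain ⟨s, hs, rfl⟩ := hex g hg
      rw [H8.conjAut_eq_one_iff]
      refine (h.fpf_mod (T := centralizerIn S (omZ p J)) centralizerIn_le (fun x hx => ?_) hs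
        ⟨S.mul_mem (S.inv_mem hs) (equivFun_mem α hs), ?_⟩).2
      · refine ⟨equivFun_mem α hx.1, (H8.conjAut_eq_one_iff (hn (equivFun_mem α hx.1))).1 ?_⟩
        rw [← hcj x hx.1, (H8.conjAut_eq_one_iff (hn hx.1)).2 hx.2, mul_one, mul_inv_cancel]
      · refine (H8.conjAut_eq_one_iff (mul_mem (inv_mem (hn hs)) (hn (equivFun_mem α hs)))).1 ?_
        rw [H8.conjAut_mul (inv_mem (hn hs)) (hn (equivFun_mem α hs)), H8.conjAut_inv (hn hs),
          ← hcj s hs, e, mul_inv_cancel_right, inv_mul_cancel])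
  intro x hx
  have hfV : F.IsIso (omZ p J) (omZ p J) f := (hf.mor.mono omZ_le).isIso_self
    (map_omZ hf.mor.isHomOn hf.mapsTo hf.surj)
  obtain ⟨β, hβ, e⟩ := hfV.exists_aut
  have hx' := hfV.mapsTo x (hTV hx)
  refine ⟨hV hx', fun s hs => ?_, hx'.2.2⟩
  obtain ⟨s', hs', e'⟩ := hex _ (inv_conj_mem_of_mem_normalizer (hN hβ)
    (conjAut_mem_autInducedBy hs (hn hs)))
  have e1 : conjAut _ (hn hs) * β = β * conjAut _ (hn hs') := by rw [← e']; group
  have e2 := congrArg (fun γ => equivFun γ x) e1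
  simp only [equivFun_mul _ _ (hTV hx)] at e2
  rw [equivFun_conjAut _ (equivFun_mem β (hTV hx)), equivFun_conjAut _ (hTV hx), hx.2.1 s' hs',
    mul_inv_cancel_right, e x (hTV hx)] at e2
  exact mul_inv_eq_iff_eq_mul.1 e2

theorem Hyp.normal (h : Hyp F r α) (hF : F.IsSaturated p) (hS : IsPGroup p S) (p2 : p ≠ 2)
    (hr : r.Prime) (r2 : r ≠ 2) (rp : r ≠ p) (h1 : S ≠ ⊥) : F.IsNormal (omZ p S) := by
  have hT : omZ p S ≤ centralizerIn S S := fun x hx => ⟨hx.1, hx.2.1⟩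
  have hTS : omZ p S ≤ S := omZ_le
  have := finite_of_le hTS
  refine (H1.isNormal_or_torus hF hS p2 hT
    fun f hf => h.inv hF hS p2 hr r2 rp h1 hf).resolve_right ?_
  rintro ⟨ξ, hξ, C, c1, c2, c3⟩
  have hST : S ≤ 𝒞(omZ p S) := le_centralizer_iff.1 (hT.trans inf_le_right)
  have hsyl := hF.sylowIn hS (F.isFullyNormalized_of_le_normalizer hTS
    (H1.le_normalizer_of_le_centralizer hST))
  have hp' : ¬ p ∣ Nat.card (F.autGroup (omZ p S)) := fun hd => by
    refine hsyl.ne_bot hd ((eq_bot_iff_forall _).2 fun β hβ => ?_)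
    obtain ⟨a, ha, e⟩ := mem_autInducedBy_iff.1 hβ
    ext x
    rw [e x, ← hST ha x x.2, mul_inv_cancel_right]
    rfl
  obtain ⟨ρ, hρ⟩ := exists_res hTS (aut_omZ (α := α) le_rfl fun x hx => equivFun_mem α hx)
  have haa := h.aa Fact.out p2 hr r2 rp le_rfl (omZ_ne_bot hS h1) hρ
  obtain ⟨h4, h5⟩ := H1.transitive_of_torus haa.comm (hS.to_le hTS) p2
    (((Nat.Prime.coprime_iff_not_dvd Fact.out).2 fun d =>
      hp' (d.trans (card_dvd_of_le (zpowers_le.2 hξ)))).symm) c1 c2 c3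
  exact haa.torus (h.mem_norm hTS hρ) (h.cop _) hp' hξ h4 h5

theorem Hyp.factor (h : Hyp F r α) (hT : F.StronglyClosed T)
    (hm : ∀ x ∈ T, equivFun α x ∈ T) {Ω' : Type u} [Group Ω'] {S' : Subgroup Ω'} [Finite S']
    {θ : S →* Ω'} {E : FusionSystem S'} (hE : F.IsFactorSystem T θ E) :
    ∃ β : MulAut S', Hyp E r β := by
  have hθ := isHomOn_homFun θ
  have hmp : ∀ x ∈ S, homFun θ x ∈ S' := fun x hx => H8.factor_mem hE hx
  have hsj : ∀ y ∈ S', ∃ x ∈ S, homFun θ x = y := fun y hy => H8.factor_surj hE hy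
  obtain ⟨ρ, hρ⟩ := exists_res hT.le hm
  have hmi : ∀ x ∈ S, equivFun α x ∈ T → x ∈ T := fun x hx e => by
    obtain ⟨y, hy, e'⟩ := res_surj hρ _ e
    exact aut_inj α (hT.le hy) hx e' ▸ hy
  obtain ⟨β, hβ⟩ := H8.exists_ind hθ hmp hsj (α := α) fun x hx => by
    rw [H8.factor_ker hE (equivFun_mem α hx), H8.factor_ker hE hx]
    exact ⟨hmi x hx, hm x⟩
  refine ⟨β, fun y hy e => ?_, hβ.pow_eq_one hmp hsj h.pw, fun P' f' hf' => ?_, fun R' => ?_⟩
  · obtain ⟨x, hx, rfl⟩ := hsj y hy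
    rw [hβ x hx] at e
    exact (H8.factor_ker hE hx).2 (h.fpf_mod hT.le hm hx
      ((H8.factor_eq_iff hE hx (equivFun_mem α hx)).1 e.symm))
  · obtain ⟨hP', f, hf, e⟩ := (H8.factor_isMor_iff hE).1 hf'
    obtain ⟨g, hg, e'⟩ := h.mor _ _ hf
    obtain ⟨g', e''⟩ := H8.factor_exists_induced hE hT hg
    have hPS := H8.preimageAlong_le θ P'
    have hTP : T ≤ img (preimageAlong θ P') (equivFun α) := fun y hy => by
      obtain ⟨x, hx, rfl⟩ := res_surj hρ y hy
      exact mem_img_of_mem _ (H8.factor_le_preimage hE P' hx)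
    have h2 := H8.factor_isMor_of_le hE hg hTP e''
    refine ⟨g', h2.mono (img_le_iff.2 fun y hy => ?_), fun y hy => ?_⟩
    · obtain ⟨x, hx, rfl⟩ := H8.factor_exists_preimage hE hP' hy
      rw [hβ x (hPS hx)]
      exact mem_img_of_mem _ (mem_img_of_mem _ hx)
    · obtain ⟨x, hx, rfl⟩ := H8.factor_exists_preimage hE hP' hy
      rw [hβ x (hPS hx), e'' _ (mem_img_of_mem _ hx), e' x hx, e x hx, hβ _ (hf.mem hx)]
  · by_cases hR : R' ≤ S'
    · have hPS := H8.preimageAlong_le θ R'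
      rw [H8.factor_autGroup_eq hE hR, H8.indImg_eq_map (hθ.mono hPS) _
        fun y hy => H8.factor_exists_preimage hE hR hy]
      intro d
      refine h.cop (preimageAlong θ R') (d.trans ((card_map_dvd _ _).trans ?_))
      rw [← card_map_of_injective (subtype_injective _), subgroupOf_map_subtype]
      exact card_dvd_of_le inf_le_left
    · have := h.cop ⊥
      rw [autGroup_eq_bot_of_not_le hR, card_bot]
      exact fun d => this (d.trans (one_dvd _))

theorem isNormal_of_factor (hF : F.IsSaturated p) (hS : IsPGroup p S) (hT : F.StronglyClosed T)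
    (hc : ⁅T, S⁆ ≤ ⊥) {Ω' : Type u} [Group Ω'] {S' : Subgroup Ω'} [Finite S']
    {θ : S →* Ω'} {E : FusionSystem S'} (hE : F.IsFactorSystem T θ E) (hN : E.IsNormal S') :
    F.IsNormal S := by
  obtain ⟨n, hn⟩ := exists_zeta_eq (H8.factor_isPGroup hS hE)
  have hm := H8.factor_isMorphism hF hS hT hE
  refine hF.isNormal_of_series hS F.stronglyClosed_top
    (C := fun i => Nat.casesOn i ⊥ fun j => preimageAlong θ (zeta S' j))
    (monotone_nat_of_le_succ fun i => ?_) rfl (n := n + 1) ?_ (fun i _ => ?_) fun i _ => ?_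
  · cases i with
    | zero => exact bot_le
    | succ i => exact H8.preimageAlong_mono θ (zeta_monotone S' (Nat.le_succ i))
  · change preimageAlong θ (zeta S' n) = S
    rw [hn, H8.factor_preimage_top hE]
  · cases i with
    | zero =>
      change ⁅preimageAlong θ (zeta S' 0), S⁆ ≤ ⊥
      rwa [zeta_zero, H8.factor_preimage_bot hE]
    | succ i =>
      have := H8.commutator_preimage_le θ (commutator_zeta_le S' i)
      rwa [H8.factor_preimage_top hE] at this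
  · cases i with
    | zero => exact F.stronglyClosed_bot.weaklyClosed
    | succ i => exact (H8.stronglyClosed_preimageAlong hm (hN.zeta i).stronglyClosed).weaklyClosed

theorem main_aux (p2 : p ≠ 2) (hr : r.Prime) (r2 : r ≠ 2) (rp : r ≠ p) (n : ℕ) :
    ∀ (Ω : Type u) [Group Ω] (S : Subgroup Ω) [Finite S] (F : FusionSystem S) (α : MulAut S),
      Nat.card S < n → IsPGroup p S → F.IsSaturated p → Hyp F r α → F.IsNormal S := by
  induction n with
  | zero => intro Ω _ S _ F α hlt; exact absurd hlt (Nat.not_lt_zero _)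
  | succ n ih =>
    intro Ω _ S _ F α hlt hS hF h
    by_cases h1 : S = ⊥
    · exact hF.isNormal_top_of_abelian hS fun x hx y hy => by
        rw [h1, mem_bot] at hx; rw [hx, one_mul, mul_one]
    have hT := (h.normal hF hS p2 hr r2 rp h1).stronglyClosed
    have := hT.normal_subgroupOf
    obtain ⟨E, hE⟩ := H8.exists_factorSystem_quotient F hT
    obtain ⟨β, hβ⟩ := h.factor hT (aut_omZ le_rfl fun x hx => equivFun_mem α hx) hE
    refine isNormal_of_factor hF hS hT (commutator_le.2 fun x hx y hy => ?_) hE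
      (ih _ _ E β ?_ (H8.factor_isPGroup hS hE) (H8.factor_isSaturated hF hS hT hE) hβ)
    · rw [mem_bot, commutatorElement_eq_one_iff_mul_comm, hx.2.1 y hy]
    · obtain ⟨x, hx, x1⟩ := omZ_ne_bot hS h1
      have h2 : 1 < Nat.card ((omZ p S).subgroupOf S) := (one_lt_card_iff_ne_bot _).2 fun e =>
        x1 (congrArg Subtype.val (mem_bot.1 (e.le (show (⟨x, hx.1⟩ : S) ∈ _ from hx))))
      have h3 := card_eq_card_quotient_mul_card_subgroup ((omZ p S).subgroupOf S)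
      have h4 : 0 < Nat.card (S ⧸ (omZ p S).subgroupOf S) := Nat.card_pos
      rw [card_top]
      nlinarith

theorem upgrade (hF : F.IsSaturated p) (hS : IsPGroup p S) (hr : r.Prime)
    (hcr : ∀ R, F.IsCentric R → F.IsRadical p R → ¬ r ∣ Nat.card (F.autGroup R)) (R : Subgroup Ω) :
    ¬ r ∣ Nat.card (F.autGroup R) := by
  intro hR
  have := Fact.mk hr
  have hle : ∀ U, r ∣ Nat.card (F.autGroup U) → U ≤ S := fun U hU => by
    by_contra e
    rw [autGroup_eq_bot_of_not_le e, card_bot] at hU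
    exact hr.one_lt.ne' (Nat.dvd_one.1 hU)
  obtain ⟨U₀, hU₀, hmax⟩ := exists_max_card (S := S) (𝓒 := {U | r ∣ Nat.card (F.autGroup U)})
    hle ⟨R, hR⟩
  obtain ⟨U, φ, hU, -, hφ⟩ := hF.exists_isFullyNormalized hS (hle _ hU₀)
  have hs : r ∣ Nat.card (F.autGroup U) := hφ.card_autGroup ▸ hU₀
  set K := pCoreIn p (F.autGroup U)
  have hUK : U ≤ H8.autPre S U K := H8.le_autPre_of_inn_le hU.le (inn_le_pCoreIn hS F hU.le)
  have hs' : r ∣ Nat.card (F.autGroup (H8.autPre S U K)) := by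
    have := F.finite_autGroup U
    obtain ⟨β, hβ⟩ := exists_prime_orderOf_dvd_card' r hs
    obtain ⟨g, -, hg, e'⟩ := H1.exists_ext_autPre hF hS hU (hF.sylowIn hS hU).pCoreIn_le
      le_normalizer_pCoreIn (isIso_of_mem_autGroup hU.le β.2)
    obtain ⟨γ, hγ, e⟩ := hg.exists_aut
    have h1 : γ ^ Nat.card (F.autGroup (H8.autPre S U K)) = 1 :=
      congrArg Subtype.val (pow_card_eq_one' (x := (⟨γ, hγ⟩ : F.autGroup _)))
    have := finite_of_le hg.le_left
    have h2 := res_pow hUK (α := γ) (ρ := β) (fun x hx => by rw [e x (hUK hx), e' x hx])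
      (Nat.card (F.autGroup (H8.autPre S U K)))
    rw [← hβ]
    refine orderOf_dvd_of_pow_eq_one (Subtype.ext (mulEquiv_ext_equivFun fun x hx => ?_))
    rw [coe_pow, h2 x hx, h1, equivFun_one (hUK hx), coe_one, equivFun_one hx]
  have := finite_of_le (hle _ hs')
  have e : U = H8.autPre S U K := eq_of_le_of_card_ge hUK (hφ.card_eq ▸ hmax _ hs')
  refine hcr U ((hF.isFullyCentralized hS hU).isCentric
    (H8.centralizerIn_le_autPre.trans e.ge)) ((isRadical_iff_le hS).2 ⟨hU.le, ?_⟩) hs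
  rw [inn_eq_autInducedBy]
  have h2 := H8.autInducedBy_autPre (P := U) S K
  rw [← e] at h2
  rw [h2]
  exact le_inf (hF.sylowIn hS hU).pCoreIn_le le_rfl

theorem main (hS : IsPGroup p S) (hF : F.IsSaturated p) (p2 : p ≠ 2)
    (hfix : ∀ x, α x = x → x = 1) (hmor : F.IsMorphism F (S.subtype.comp α.toMonoidHom))
    (hr : r.Prime) (hord : orderOf α = r)
    (hcr : ∀ R, F.IsCentric R → F.IsRadical p R → ¬ r ∣ Nat.card (F.autGroup R)) :
    F.IsNormal S := by
  have hpw : α ^ r = 1 := hord ▸ pow_orderOf_eq_one α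
  by_cases r2 : r = 2
  · subst r2
    refine hF.isNormal_top_of_abelian hS fun x hx y hy => ?_
    have := MonoidHom.FixedPointFree.commute_all_of_involutive (φ := α) hfix
      (fun z => by rw [← MulAut.mul_apply, ← sq, hpw]; rfl) ⟨x, hx⟩ ⟨y, hy⟩
    exact congrArg Subtype.val this.eq
  by_cases rp : r = p
  · subst rp
    exfalso
    have hz : IsPGroup r (zpowers α) := IsPGroup.of_card (n := 1) (by
      rw [Nat.card_zpowers, hord, pow_one])
    have h1 : Nontrivial S := by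
      by_contra e
      rw [not_nontrivial_iff_subsingleton] at e
      rw [(MulEquiv.ext fun x => Subsingleton.elim _ _ : α = 1), orderOf_one] at hord
      exact hr.one_lt.ne hord
    obtain ⟨k, hk0, hk⟩ := hS.nontrivial_iff_card.1 h1
    obtain ⟨b, hb, b1⟩ := hz.exists_fixed_point_of_prime_dvd_card_of_fixed_point S
      (hk ▸ dvd_pow_self r hk0.ne') (a := 1) fun g => map_one (g : MulAut S)
    exact b1 (hfix b (hb ⟨α, mem_zpowers α⟩)).symm
  exact main_aux p2 hr r2 rp _ Ω S F α (Nat.lt_succ_self _) hS hF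
    ⟨fun x hx e => congrArg Subtype.val (hfix ⟨x, hx⟩ (Subtype.ext (by
      rw [← equivFun_of_mem α hx, e]))), hpw, (H8.isMorphism_iff.1 hmor).2, upgrade hF hS hr hcr⟩

end Fusion

end Fus

end Cfsg.Agent.FL
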