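import Cfsg.Agent.Lib.FL.A

/-!
# Hall-Higman-Shult for extraspecial 2-groups (notes/FL.md, section HH)
-/

set_option autoImplicit false
set_option linter.unusedSectionVars false

namespace Cfsg.Agent.FL

open Subgroup Cfsg.Agent.H6 Cfsg.Agent.FT
open scoped commutatorElement

variable {G : Type*} [Group G] [Finite G] {p : ℕ} {V R X Y Γ W R' W' T D P L N : Subgroup G}
  {g c x y u : G}

theorem hh_arith {r q m : ℕ} {s : ℤ} (hr : r.Prime) (hq1 : 1 < q) (hm : 0 < m)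
    (h1 : (r : ℤ) * q ^ 2 = m ^ 2 + q ^ 2 * s) (h2 : (m : ℤ) ^ 2 ≤ (r - 1) * s)
    (h3 : (r : ℤ) ∣ m ^ 2 + s) : r = q + 1 := by
  have hr1 : (1 : ℤ) < r := by exact_mod_cast hr.one_lt
  have hm' : (0 : ℤ) < m ^ 2 := by positivity
  have hq' : (1 : ℤ) < q := by exact_mod_cast hq1
  have hs : 0 < s := (pos_iff_pos_of_mul_pos (hm'.trans_le h2)).1 (by omega)
  have hsr : s < r := by
    by_contra h
    nlinarith [mul_le_mul_of_nonneg_left (not_lt.1 h) (sq_nonneg (q : ℤ))]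
  have h4 : (r : ℤ) ∣ (r - s) * ((q - 1) * (q + 1)) := by
    have : (r - s : ℤ) * ((q - 1) * (q + 1)) = (m ^ 2 + s) - r := by linear_combination h1
    rw [this]
    exact dvd_sub h3 dvd_rfl
  have hp := Nat.prime_iff_prime_int.1 hr
  have h6 : (q : ℤ) ^ 2 ≤ m ^ 2 := by nlinarith
  have h7 : (q : ℤ) ≤ r - 1 := by nlinarith
  rcases hp.dvd_or_dvd h4 with h | h
  · have := Int.le_of_dvd (by omega) h
    omega
  rcases hp.dvd_or_dvd h with h | h
  · have := Int.le_of_dvd (by omega) h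
    omega
  · have := Int.le_of_dvd (by omega) h
    omega

theorem hh_aux {k : ℕ} (hp : p.Prime) (hP : Extraspecial p P)
    (hn : R ≤ 𝒩(P)) (hR : (Nat.card R).Prime) (hRp : Nat.card R ≠ p)
    (hreg : P ⊓ 𝒞(R) = Zc P) (hk : k.Prime) (hV : IsElementaryAbelian k V) (hPV : P ≤ 𝒩(V))
    (hRV : R ≤ 𝒩(V)) (hkp : k ≠ p) (hkR : k ≠ Nat.card R) (hZ : ¬ Zc P ≤ 𝒞(V))
    (h0 : V ⊓ 𝒞(R) = ⊥) :
    ∃ n, 0 < n ∧ Nat.card P = p ^ (2 * n + 1) ∧ Nat.card R = p ^ n + 1 := by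
  classical
  obtain ⟨hP', -, h3, h4⟩ := (extraspecial_iff hp).1 hP
  obtain ⟨n, hn0, hcard⟩ := card_extraspecial hp hP
  have hco : (Nat.card P).Coprime (Nat.card R) :=
    hcard ▸ ((Nat.coprime_primes hp hR).2 hRp.symm).pow_left _
  have hs := SDP.of_norm hn (inf_eq_bot_of_coprime' hco)
  set L := P ⊔ R
  have hPL : P ≤ L := le_sup_left
  have hRL : R ≤ L := le_sup_right
  obtain ⟨χ, hχ, h5, -, h6⟩ := exists_brauer_lift hk hV (sup_le hPV hRV) fun h => by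
    rcases (Nat.Prime.dvd_mul hk).1 (hs.card_mul ▸ h.trans (relIndex_dvd_card _ _)) with h | h
    · exact hkp ((Nat.prime_dvd_prime_iff_eq hk hp).1 (hk.dvd_of_dvd_pow (hcard ▸ h)))
    · exact hkR ((Nat.prime_dvd_prime_iff_eq hk hR).1 h)
  obtain ⟨d, hd, hd'⟩ := h5 R hRL
  rw [h0, card_bot, eq_comm, Nat.pow_eq_one, or_iff_right hk.one_lt.ne'] at hd
  obtain ⟨ψ, hψ, hψ0, hψZ⟩ : ∃ ψ ∈ Irr L, ⟪χ, ψ⟫[L] ≠ 0 ∧ ¬ Zc P ≤ cfker L ψ := by
    by_contra H
    push Not at H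
    exact hZ ((hχ.le_cfker_of_forall_const (inf_le_left.trans hPL) H).trans (h6 ▸ inf_le_right))
  obtain ⟨e, he, he'⟩ := hχ.cfdot_cf1_const_le hψ hψ0 hRL hd'
  obtain rfl : e = 0 := by omega
  have hc := isChar_of_Irr hψ
  have hZL : Zc P ≤ Zc L := le_inf (inf_le_left.trans hPL)
    (cent_sup.ge.trans' (le_inf inf_le_right (hreg ▸ inf_le_right)))
  have hPZ : P ≤ 𝒩(Zc P) := (Zc_normal P).norm
  have hRZ : R ≤ 𝒩(Zc P) := hn.trans (norm_le_norm_Zc P)
  have hvan : ∀ y ∈ P, y ∉ Zc P → ψ y = 0 := fun y hy hyZ => by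
    obtain ⟨w, hw, hwy⟩ : ∃ w ∈ P, w * y ≠ y * w := by
      by_contra H
      push Not at H
      exact hyZ ⟨hy, H⟩
    have hz : ⁅w, y⁆ ∈ Zc P := h3 ▸ commutator_mem_commutator hw hy
    obtain ⟨ω, -, hω⟩ := Irr_exists_scalar hψ (hZL hz)
    have h7 := hω y (hPL hy)
    rw [commutatorElement_def, inv_mul_cancel_right, Irr_inv hψ w (hPL hw)] at h7
    by_contra hy0
    have hω1 : ω = 1 := mul_right_cancel₀ hy0 (h7.symm.trans (one_mul _).symm)
    refine hψZ (H9.le_of_card_prime hp h4 hz (mt commutatorElement_eq_one_iff_mul_comm.1 hwy)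
      (hc.mem_cfker.2 ⟨hPL hz.1, ?_⟩))
    simpa [hω1] using hω 1 L.one_mem
  have hcos : ∀ x ∈ nt R, ∀ y ∈ P, ‖ψ (y * x)‖ = ‖ψ x‖ := fun x hx y hy => by
    have h7 := quo_inf_cent1_of_coprime hPZ (hRZ hx.1) (hn hx.1)
      ((hco.symm.coprime_dvd_left (orderOf_dvd_natCard _ hx.1)).coprime_dvd_right
        (card_dvd_of_le inf_le_right))
    rw [← cent_zpowers, H9.zpowers_eq_of_card_prime hR rfl hx.1 hx.2, hreg,
      quo_eq_bot_of_le le_rfl] at h7
    obtain ⟨_, hw, e⟩ := exists_commutator_eq_of_cent1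
      (quo_le_norm hn (coset_mem_quo hx.1)) h7.symm (coset_mem_quo hy)
    obtain ⟨w, hw', -, rfl⟩ := mem_quo.1 hw
    rw [commutatorElement_def, ← coset_conj (hPZ hw') (hRZ hx.1), ← coset_inv (hRZ hx.1),
      ← coset_mul (mul_mem (mul_mem (hPZ hw') (hRZ hx.1)) (inv_mem (hPZ hw'))) (inv_mem (hRZ hx.1)),
      coset_eq_iff (mul_mem (mul_mem (mul_mem (hPZ hw') (hRZ hx.1)) (inv_mem (hPZ hw')))
        (inv_mem (hRZ hx.1))) (hPZ hy)] at e
    obtain ⟨ω, hω1, hω⟩ := Irr_exists_scalar hψ (hZL e)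
    have hL := L.mul_mem (L.mul_mem (L.mul_mem (hPL hw') (hRL hx.1)) (L.inv_mem (hPL hw')))
      (L.inv_mem (hRL hx.1))
    have h8 := hω _ (L.mul_mem hL (hRL hx.1))
    rw [← mul_assoc, ← (hZL e).2 _ hL, mul_inv_cancel_left, inv_mul_cancel_right,
      Irr_inv hψ w (hPL hw')] at h8
    rw [h8, norm_mul, hω1, one_mul]
  set S := ∑ x ∈ fs (nt R), ‖ψ x‖ ^ 2 with hS
  have h7 : (Nat.card L : ℝ) = p * deg ψ ^ 2 + Nat.card P * S := by
    have := cfnorm_Irr hψ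
    rw [cfnorm, inv_mul_eq_one₀ (cardR_pos L).ne', sum_fs_compl hs.compl, ← sum_fs_nt_add] at this
    rw [this, add_comm, hS, Finset.mul_sum]
    congr 1
    · rw [← sum_fs_subset (A := Zc P) inf_le_left fun x hx hx' => by simp [hvan x hx hx'],
        Finset.sum_congr rfl (g := fun _ => (deg ψ : ℝ) ^ 2), Finset.sum_const, card_fs_subgroup,
        h4, nsmul_eq_mul]
      intro z hz
      obtain ⟨ω, hω1, hω⟩ := Irr_exists_scalar hψ (hZL (mem_fs.1 hz))
      rw [hω 1 L.one_mem, norm_mul, hω1, one_mul, hc.norm_one]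
    · refine Finset.sum_congr rfl fun x hx => ?_
      rw [Finset.sum_congr rfl (g := fun _ => ‖ψ x‖ ^ 2), Finset.sum_const, card_fs_subgroup,
        nsmul_eq_mul]
      intro y hy
      rw [hcos x (mem_fs.1 hx) y (mem_fs.1 hy)]
  obtain ⟨N, hN⟩ := ZIrr_cfnorm (hc.res hRL).mem_ZIrr
  rw [cfnorm_Res, cfnorm, inv_mul_eq_iff_eq_mul₀ (cardR_pos R).ne', ← sum_fs_nt_add,
    hc.norm_one] at hN
  have h8 : (deg ψ : ℝ) ^ 2 ≤ (Nat.card R - 1) * S := by
    rw [cfdot_cf1, Nat.cast_zero, mul_eq_zero, or_iff_right (inv_ne_zero (cardC_ne_zero R)),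
      ← sum_fs_nt_add, add_eq_zero_iff_neg_eq] at he'
    have h9 : ((fs (nt R)).card : ℝ) = Nat.card R - 1 := by
      have := sum_fs_nt_add R fun _ => (1 : ℝ)
      simp only [Finset.sum_const, card_fs_subgroup, nsmul_eq_mul, mul_one] at this
      linarith
    rw [← hc.norm_one, ← he', norm_neg, ← h9]
    exact (pow_le_pow_left₀ (norm_nonneg _) (norm_sum_le _ _) 2).trans sq_sum_le_card_mul_sum_sq
  have hS' : S = ((Nat.card R * N - deg ψ ^ 2 : ℤ) : ℝ) := by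
    push_cast
    linarith
  refine ⟨n, hn0, hcard, hh_arith (q := p ^ n) (s := Nat.card R * N - deg ψ ^ 2) hR
    (Nat.one_lt_pow hn0.ne' hp.one_lt) (Irr_deg_pos hψ) ?_ ?_ ⟨N, by ring⟩⟩
  · rw [← hs.card_mul, hcard, hS'] at h7
    have hp0 : (p : ℝ) ≠ 0 := Nat.cast_ne_zero.2 hp.ne_zero
    apply Int.cast_injective (α := ℝ)
    apply mul_left_cancel₀ hp0
    push_cast at h7 ⊢
    linear_combination h7
  · rw [hS'] at h8
    exact_mod_cast h8

/-- (HH) the Fermat case. -/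
theorem Act.hh (h : Act p V R) (hP : Extraspecial 2 P) (hf : Fa V R P) (hc : P ⊓ 𝒞(R) = Zc P) :
    ∃ n, 0 < n ∧ Nat.card P = 2 ^ (2 * n + 1) ∧ Nat.card R = 2 ^ n + 1 :=
  hh_aux Nat.prime_two hP hf.nR h.hr h.r2 hc h.hp h.hV hf.nV h.RV h.p2 h.rp.symm (fun e => by
    have := ((extraspecial_iff Nat.prime_two).1 hP).2.2.2
    rw [show Zc P = ⊥ from eq_bot_iff.2 (hf.ff ▸ le_inf inf_le_left e), card_bot] at this
    omega) h.fpf

theorem dvd_ncard_of_no_fix {s : ℕ} {B : Set G} (hs : s.Prime) (hX : IsPGroup s X)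
    (h : ∀ x ∈ X, ∀ b ∈ B, x * b * x⁻¹ ∈ B) (h' : ∀ b ∈ B, ¬ X ≤ 𝒞[b]) : s ∣ B.ncard := by
  haveI : Fact s.Prime := ⟨hs⟩
  letI : MulAction X B :=
    { smul := fun x b => ⟨(x : G) * b * (x : G)⁻¹, h x x.2 b b.2⟩
      one_smul := fun b => Subtype.ext (show (1 : G) * b * (1 : G)⁻¹ = b by simp)
      mul_smul := fun x y b => Subtype.ext (show (x : G) * y * b * ((x : G) * y)⁻¹ =
        x * (y * b * (y : G)⁻¹) * (x : G)⁻¹ by group) }
  by_contra hd
  obtain ⟨b, hb⟩ := hX.nonempty_fixed_point_of_prime_not_dvd_card B hd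
  exact h' b b.2 fun x hx => mem_cent1.2 (mul_inv_eq_iff_eq_mul.1
    (congrArg Subtype.val (hb ⟨x, hx⟩)))

/-- `R` is irreducible on `P / Z(P)`. -/
theorem Act.hh_irr (h : Act p V R) (hP : Extraspecial 2 P) (hf : Fa V R P)
    (hc : P ⊓ 𝒞(R) = Zc P) (h1 : Zc P ≤ X) (h2 : X ≤ P) (hn : R ≤ 𝒩(X)) : X = Zc P ∨ X = P := by
  obtain ⟨n, hn0, h3, h4⟩ := h.hh hP hf hc
  have h5 := ((extraspecial_iff Nat.prime_two).1 hP).2.2.2
  haveI := Fact.mk h.hr
  have h6 := dvd_ncard_of_no_fix (B := (X : Set G) \ Zc P) h.hr (IsPGroup.of_card (pow_one _).symm)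
    (fun x hx b hb => ⟨conj_mem_of_mem_normalizer (hn hx) hb.1, fun e => hb.2 (by
      simpa [mul_assoc] using conj_mem_of_mem_normalizer
        (inv_mem (norm_le_norm_Zc P (hf.nR hx))) e)⟩)
    fun b hb e => hb.2 (hc.le ⟨h2 hb.1, le_cent1_iff.1 e⟩)
  obtain ⟨a, ha, h7⟩ := (Nat.dvd_prime_pow Nat.prime_two).1 (h3 ▸ card_dvd_of_le h2)
  rw [Set.ncard_diff h1, show (X : Set G).ncard = 2 ^ a from h7,
    show (Zc P : Set G).ncard = 2 from h5] at h6
  have h8 := card_le_of_le h1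
  obtain ⟨a, rfl⟩ : ∃ b, a = b + 1 := ⟨a - 1, by
    rcases a with _ | a
    · rw [h5, h7] at h8; omega
    · rfl⟩
  rcases Nat.eq_zero_or_pos a with rfl | ha0
  · exact Or.inl (eq_of_le_of_card_ge h1 (by rw [h5, h7]; rfl)).symm
  refine Or.inr (eq_of_le_of_card_ge h2 (by_contra fun h9 => ?_))
  rw [h3, h7, not_le, Nat.pow_lt_pow_iff_right one_lt_two] at h9
  have h10 : Nat.card R ∣ 2 ^ a - 1 := by
    refine (h.hr.dvd_mul.1 (?_ : _ ∣ 2 * _)).resolve_left fun e =>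
      h.r2 ((Nat.prime_dvd_prime_iff_eq h.hr Nat.prime_two).1 e)
    rwa [Nat.mul_sub, mul_one, ← pow_succ']
  have h11 := Nat.one_lt_two_pow ha0.ne'
  rcases le_or_gt a n with h12 | h12
  · have := Nat.le_of_dvd (by omega) h10
    have := Nat.pow_le_pow_right two_pos h12
    omega
  · obtain ⟨d, rfl⟩ := Nat.exists_eq_add_of_le h12.le
    have h13 : Nat.card R ∣ 2 ^ d + 1 := by
      refine (Nat.dvd_add_left h10).1 ?_
      rw [h4, show 2 ^ d + 1 + (2 ^ (n + d) - 1) = (2 ^ n + 1) * 2 ^ d by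
        rw [pow_add] at h11 ⊢; zify [h11.le]; ring]
      exact dvd_mul_right _ _
    have := Nat.le_of_dvd (by positivity) h13
    have := Nat.pow_lt_pow_right one_lt_two (show d < n by omega)
    omega

open Classical in
theorem gauss (hP : Extraspecial 2 P) :
    ((Nat.card P : ℤ) - 2 * {x | x ∈ P ∧ x * x ≠ 1}.ncard) ^ 2 = 2 * Nat.card P := by
  obtain ⟨-, h1, h2, h3⟩ := (extraspecial_iff Nat.prime_two).1 hP
  let σ : G → ℤ := fun z => if z = 1 then 1 else -1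
  have s1 : ∀ z ∈ Zc P, ∀ w ∈ Zc P, σ (z * w) = σ z * σ w := fun z hz w hw => by
    by_cases e : z = 1
    · simp [σ, e]
    by_cases e' : w = 1
    · simp [σ, e']
    rw [H9.eq_of_card_two h3 hz e hw e', ← pow_two, H9.pow_eq_one_of_card_eq h3 hw]
    simp [σ, e']
  have s2 : ∀ x ∈ P, x * x ∈ Zc P := fun x hx => pow_two x ▸ h1 ▸ H9.pow_mem_Phi hx
  have s3 : ∀ x ∈ P, ∀ y ∈ P, ⁅x, y⁆ ∈ Zc P := fun x hx y hy =>
    h2 ▸ commutator_mem_commutator hx hy
  have s4 : ∀ z, σ z * σ z = 1 := fun z => by by_cases e : z = 1 <;> simp [σ, e]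
  have e1 : ∑ x ∈ fs (P : Set G), σ (x * x) =
      (Nat.card P : ℤ) - 2 * {x | x ∈ P ∧ x * x ≠ 1}.ncard := by
    rw [← card_fs, ← card_fs_subgroup, show fs {x | x ∈ P ∧ x * x ≠ 1} =
      (fs (P : Set G)).filter fun x => x * x ≠ 1 by ext; simp, Finset.card_filter,
      Finset.card_eq_sum_ones]
    push_cast
    rw [Finset.mul_sum, ← Finset.sum_sub_distrib]
    exact Finset.sum_congr rfl fun x _ => by by_cases e : x * x = 1 <;> simp [σ, e]
  have e2 : ∀ y ∈ P, y ∉ Zc P → ∑ x ∈ fs (P : Set G), σ ⁅y, x⁆ = 0 := fun y hy hy' => by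
    obtain ⟨w, hw, hwy⟩ : ∃ w ∈ P, ⁅y, w⁆ ≠ 1 := by
      by_contra! H
      exact hy' ⟨hy, fun w hw => (commutatorElement_eq_one_iff_mul_comm.1 (H w hw)).symm⟩
    have := sum_fs_mul_left hw fun x => σ ⁅y, x⁆
    rw [Finset.sum_congr rfl (g := fun x => -σ ⁅y, x⁆) fun x hx => by
      rw [H9.commutator_mul_right_of_commute ((s3 y hy x (mem_fs.1 hx)).2 w hw),
        s1 _ (s3 y hy w hw) _ (s3 y hy x (mem_fs.1 hx))]
      rw [show σ ⁅y, w⁆ = -1 from if_neg hwy, neg_one_mul], Finset.sum_neg_distrib] at this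
    omega
  rw [← e1, pow_two, Finset.sum_mul_sum, Finset.sum_congr rfl (g := fun x =>
    ∑ y ∈ fs (P : Set G), σ (y * y) * σ ⁅y, x⁆) fun x hx => by
      have hx := mem_fs.1 hx
      rw [← sum_fs_mul_left hx]
      refine Finset.sum_congr rfl fun y hy => ?_
      have hy := mem_fs.1 hy
      have : x * y * (x * y) = x * x * (y * y * ⁅y, x⁆) := by
        calc x * y * (x * y) = x * ⁅y, x⁆ * (x * (y * y)) := by
              rw [commutatorElement_def]; group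
          _ = _ := by
            rw [mul_assoc, ← (s3 y hy x hx).2 _ (mul_mem hx (mul_mem hy hy))]; group
      rw [this, s1 _ (s2 x hx) _ (mul_mem (s2 y hy) (s3 y hy x hx)), ← mul_assoc, s4, one_mul,
        s1 _ (s2 y hy) _ (s3 y hy x hx)], Finset.sum_comm,
    ← sum_fs_subset (A := Zc P) inf_le_left fun y hy hy' => by
      rw [← Finset.mul_sum, e2 y hy hy', mul_zero],
    Finset.sum_congr rfl (g := fun _ => (Nat.card P : ℤ)) fun y hy => by
      have hy := mem_fs.1 hy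
      rw [Finset.sum_congr rfl (g := fun _ => (1 : ℤ)) fun x hx => by
        rw [commutatorElement_eq_one_iff_mul_comm.2 (hy.2 x (mem_fs.1 hx)).symm, ← pow_two,
          H9.pow_eq_one_of_card_eq h3 hy]
        simp [σ]]
      simp [card_fs_subgroup], Finset.sum_const, card_fs_subgroup, h3]
  simp

theorem Act.hh_cent' {s : ℕ} (h : Act p V R) (hP : Extraspecial 2 P) (hf : Fa V R P)
    (hc : P ⊓ 𝒞(R) = Zc P) (h1 : c ∈ 𝒩(P)) (h2 : c ∈ 𝒞(R)) (hs : s.Prime)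
    (h3 : IsPGroup s (zpowers c)) (h4 : s ≠ Nat.card R) : c ∈ 𝒞(P) := by
  obtain ⟨n, hn0, h5, h6⟩ := h.hh hP hf hc
  obtain ⟨hP2, k1, k2, k3⟩ := (extraspecial_iff Nat.prime_two).1 hP
  have hZ := norm_le_norm_Zc P
  have cR : ∀ g ∈ R, ∀ x, ⁅g * x * g⁻¹, c⁆ = g * ⁅x, c⁆ * g⁻¹ := fun g hg x => by
    rw [conjugate_commutatorElement, mem_cent.1 h2 g hg, mul_inv_cancel_right]
  let U : Subgroup G :=
    { carrier := {x | x ∈ P ∧ ⁅x, c⁆ ∈ Zc P}
      one_mem' := ⟨one_mem _, by simpa using one_mem _⟩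
      mul_mem' := fun {x y} hx hy => ⟨mul_mem hx.1 hy.1, by
        convert mul_mem (conj_mem_of_mem_normalizer ((Zc_normal P).norm hx.1) hy.2) hx.2 using 1
        simp only [commutatorElement_def]; group⟩
      inv_mem' := fun {x} hx => ⟨inv_mem hx.1, by
        convert inv_mem (conj_mem_of_mem_normalizer ((Zc_normal P).norm (inv_mem hx.1)) hx.2)
          using 1
        simp only [commutatorElement_def]; group⟩ }
  rcases h.hh_irr hP hf hc (X := U) (fun z hz => ⟨hz.1, by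
      simpa only [commutatorElement_def, mul_assoc] using
        mul_mem hz (conj_mem_of_mem_normalizer (hZ h1) (inv_mem hz))⟩) (fun _ hx => hx.1)
    (fun g hg => H9.mem_normalizer_of_conj_mem fun x hx =>
      ⟨conj_mem_of_mem_normalizer (hf.nR hg) hx.1,
        cR g hg x ▸ conj_mem_of_mem_normalizer (hZ (hf.nR hg)) hx.2⟩) with e | e
  · exfalso
    by_cases hs2 : s = 2
    · subst hs2
      have hn : P ⊔ zpowers c ≤ 𝒩(P) := sup_le le_normalizer (zpowers_le.2 h1)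
      obtain ⟨z, z1, z2, -, z3⟩ := H9.exists_mem_commutator_mem_of_lt
        (IsPGroup.to_sup_of_normal_left' hP2 h3 (zpowers_le.2 h1)) le_sup_left (hn.trans hZ) hn
        (lt_of_le_of_ne inf_le_left fun e' : Zc P = P =>
          Extraspecial_not_comm Nat.prime_two hP (e' ▸ Zc_comm P))
      exact z2 (e.le ⟨z1, by
        rw [← commutatorElement_inv]; exact inv_mem (z3 c (mem_sup_right (mem_zpowers c)))⟩)
    have k : ∀ {t : ℕ} {X : Subgroup G}, t.Prime → IsPGroup t X → X ≤ 𝒩(P) → P ⊓ 𝒞(X) ≤ Zc P →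
        t ∣ {x | x ∈ P ∧ x * x ≠ 1}.ncard := fun ht hX hn hc =>
      dvd_ncard_of_no_fix ht hX (fun g hg b hb => ⟨conj_mem_of_mem_normalizer (hn hg) hb.1,
        fun e => hb.2 (by simpa [conj_mul] using e)⟩) fun b hb e =>
        hb.2 (pow_two b ▸ H9.pow_eq_one_of_card_eq k3 (hc ⟨hb.1, le_cent1_iff.1 e⟩))
    haveI := Fact.mk h.hr
    have d1 := k h.hr (IsPGroup.of_card (pow_one _).symm) hf.nR hc.le
    have d2 := k hs h3 (zpowers_le.2 h1) fun x hx => e.le ⟨hx.1, by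
      rw [commutatorElement_eq_one_iff_mul_comm.2 (mem_cent.1 hx.2 c (mem_zpowers c)).symm]
      exact one_mem _⟩
    have d3 := gauss hP
    generalize {x | x ∈ P ∧ x * x ≠ 1}.ncard = b at d1 d2 d3
    have d4 : 1 < 2 ^ n := Nat.one_lt_two_pow hn0.ne'
    have d5 : Nat.card P = 2 * (2 ^ n) ^ 2 := by rw [h5]; ring
    have d6 : ¬ s ∣ 2 ^ n := fun e =>
      hs2 ((Nat.prime_dvd_prime_iff_eq hs Nat.prime_two).1 (hs.dvd_of_dvd_pow e))
    generalize 2 ^ n = q at *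
    rw [d5] at d3
    push_cast at d3
    have d7 : ((b : ℤ) - q * (q + 1)) * (b + q - q * q) = 0 := by linarith
    rcases mul_eq_zero.1 d7 with d | d
    · obtain rfl : b = q * (q + 1) := by zify; linarith
      exact h4 ((Nat.prime_dvd_prime_iff_eq hs h.hr).1 (h6 ▸ (hs.dvd_mul.1 d2).resolve_left d6))
    · have d8 : ((q + 1 : ℕ) : ℤ) ∣ 2 := by
        have : (2 : ℤ) = b - (q + 1 : ℕ) * (q - 2) := by push_cast; linarith
        rw [this]
        exact dvd_sub (Int.natCast_dvd_natCast.2 (h6 ▸ d1)) (dvd_mul_right _ _)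
      have := Int.le_of_dvd two_pos d8
      omega
  · have hU : ∀ x ∈ P, ⁅x, c⁆ ∈ Zc P := fun x hx => (e.ge hx).2
    refine le_cent1_iff.1 ((coprime_cent_prod hf.nR hf.cop (Or.inl h.sol)).ge.trans
      (sup_le (commutator_le.2 fun x hx g hg => ?_) fun z hz => ?_))
    · have hy := conj_mem_of_mem_normalizer (hf.nR hg) (inv_mem hx)
      have e1 := hU _ (inv_mem hx)
      rw [mem_cent1, ← commutatorElement_eq_one_iff_mul_comm, commutatorElement_def x g,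
        mul_assoc, mul_assoc, ← mul_assoc g,
        H9.commutator_mul_left_of_commute ((hU _ hy).2 x hx), cR g hg,
        mem_cent.1 (hc.ge e1).2 g hg, mul_inv_cancel_right,
        ← H9.commutator_mul_left_of_commute (e1.2 x hx), mul_inv_cancel, commutatorElement_one_left]
    · by_cases e1 : z = 1
      · exact e1 ▸ one_mem _
      exact mem_cent1_comm.1 (mem_cent1.2 (mul_inv_eq_iff_eq_mul.1 (H9.eq_of_card_two k3
        (conj_mem_of_mem_normalizer (hZ h1) (hc.le hz)) (by simpa using e1) (hc.le hz) e1)))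

/-- (C0) an `r'`-element centralising `R` and normalising `P` centralises `P`. -/
theorem Act.hh_cent (h : Act p V R) (hP : Extraspecial 2 P) (hf : Fa V R P)
    (hc : P ⊓ 𝒞(R) = Zc P) (h1 : c ∈ 𝒩(P)) (h2 : c ∈ 𝒞(R)) (h3 : ¬ Nat.card R ∣ orderOf c) :
    c ∈ 𝒞(P) := by
  induction hn : orderOf c using Nat.strong_induction_on generalizing c with | _ n ih => ?_
  by_cases h0 : n = 1
  · rw [orderOf_eq_one_iff.1 (hn.trans h0)]; exact one_mem _
  obtain ⟨s, hs, hd⟩ := Nat.exists_prime_and_dvd h0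
  obtain ⟨a, ha, b, hb, p1, p2, e⟩ := exists_pi_parts {s} c
  have hb' := orderOf_dvd_of_mem_zpowers hb
  rw [e]
  refine mul_mem (h.hh_cent' hP hf hc (zpowers_le.2 h1 ha) (zpowers_le.2 h2 ha) hs
    ((piG_singleton hs).1 (piG_zpowers.2 p1)) fun e => h3 (e ▸ hn ▸ hd))
    (ih _ (lt_of_le_of_ne (hn ▸ Nat.le_of_dvd (orderOf_pos c) hb') fun e => ?_)
      (zpowers_le.2 h1 hb) (zpowers_le.2 h2 hb) (fun e => h3 (e.trans hb')) rfl)
  exact p2 s hs (e ▸ hd) rfl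

end Cfsg.Agent.FL
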