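import Cfsg.Agent.Lib.FL.L

/-!
# Lemma K, the elements u_g, transvections (notes/FL.md, section K)
-/

set_option autoImplicit false
set_option linter.unusedSectionVars false

namespace Cfsg.Agent.FL

open Subgroup Cfsg.Agent.FT
open Cfsg.Agent.H6 hiding Op cent_sup
open scoped commutatorElement

variable {G : Type*} [Group G] [Finite G] {p : ℕ} {V R X Y Γ W R' W' T D P L N : Subgroup G}
  {g c x y u : G}

theorem cm_mul (x y g : G) : ⁅x * y, g⁆ = x * ⁅y, g⁆ * x⁻¹ * ⁅x, g⁆ := by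
  simp only [commutatorElement_def]; group

theorem cm_mul' (g x y : G) : ⁅g, x * y⁆ = ⁅g, x⁆ * (x * ⁅g, y⁆ * x⁻¹) := by
  simp only [commutatorElement_def]; group

theorem cm_inv (x g : G) : ⁅x⁻¹, g⁆ = x⁻¹ * ⁅x, g⁆⁻¹ * x := by
  simp only [commutatorElement_def]; group

theorem cm_conj (k x g : G) : k * ⁅x, g⁆ * k⁻¹ = ⁅k * x * k⁻¹, k * g * k⁻¹⁆ := by
  simp only [commutatorElement_def]; group

theorem conj_eq_cm (x y : G) : x * y * x⁻¹ = ⁅x, y⁆ * y := by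
  simp only [commutatorElement_def]; group

theorem cm_one (h : x * y = y * x) : ⁅x, y⁆ = 1 := commutatorElement_eq_one_iff_mul_comm.2 h

theorem conj_of_comm (h : x * y = y * x) : x * y * x⁻¹ = y := by rw [h, mul_inv_cancel_right]

/-- `{x ∈ W | [x, g] ∈ N}`. -/
def cm (W N : Subgroup G) (g : G) : Subgroup G where
  carrier := {x | x ∈ W ∧ x ∈ 𝒩(N) ∧ ⁅x, g⁆ ∈ N}
  one_mem' := ⟨W.one_mem, Subgroup.one_mem _, by simp⟩
  mul_mem' := fun {x y} hx hy => ⟨W.mul_mem hx.1 hy.1, Subgroup.mul_mem _ hx.2.1 hy.2.1, by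
    rw [cm_mul]; exact N.mul_mem (conj_mem_of_mem_normalizer hx.2.1 hy.2.2) hx.2.2⟩
  inv_mem' := fun {x} hx => ⟨W.inv_mem hx.1, Subgroup.inv_mem _ hx.2.1, by
    rw [cm_inv]
    simpa using conj_mem_of_mem_normalizer (Subgroup.inv_mem _ hx.2.1) (N.inv_mem hx.2.2)⟩

theorem mem_cm (h : W ≤ 𝒩(N)) : x ∈ cm W N g ↔ x ∈ W ∧ ⁅x, g⁆ ∈ N :=
  ⟨fun hx => ⟨hx.1, hx.2.2⟩, fun hx => ⟨hx.1, h hx.1, hx.2⟩⟩

theorem cm_le : cm W N g ≤ W := fun _ hx => hx.1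

/-- An equivariant cocycle with values in a trivial section kills `[X, R]`. -/
theorem kill {A : Subgroup G} (hX : R ≤ 𝒩(X)) (hN : X ≤ 𝒩(N)) (hRN : R ≤ 𝒩(N)) (hu : u ∈ 𝒞(R))
    (h1 : A ≤ 𝒞(R)) (h2 : A ≤ 𝒞(X)) (h3 : A ≤ 𝒩(N))
    (hδ : ∀ x ∈ X, ∃ d ∈ N, ∃ a ∈ A, ⁅x, u⁆ = d * a) : ⁅X, R⁆ ≤ cm X N u := by
  refine commutator_le.2 fun x hx g hg => (mem_cm hN).2
    ⟨commutator_le_left hX (commutator_mem_commutator hx hg), ?_⟩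
  obtain ⟨d, hd, a, ha, e⟩ := hδ x hx
  have e1 : ⁅x, g⁆ = x * (g * x⁻¹ * g⁻¹) := by rw [commutatorElement_def]; group
  have e2 : ⁅g * x⁻¹ * g⁻¹, u⁆ = g * ⁅x⁻¹, u⁆ * g⁻¹ := by
    rw [cm_conj, conj_of_comm (mem_cent.1 hu g hg)]
  have e3 := conj_of_comm (mem_cent.1 (inv_mem (h1 ha)) g hg)
  have e4 := conj_of_comm (mem_cent.1 (inv_mem (h2 ha)) x hx)
  have e5 := conj_of_comm (mem_cent.1 (inv_mem (h2 ha)) x⁻¹ (X.inv_mem hx))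
  have : ⁅⁅x, g⁆, u⁆ = a⁻¹ * ((x * (g * (x⁻¹ * d⁻¹ * x⁻¹⁻¹) * g⁻¹) * x⁻¹) * d) * a⁻¹⁻¹ := by
    rw [e1, cm_mul, e2, cm_inv, e]
    calc x * (g * (x⁻¹ * (d * a)⁻¹ * x) * g⁻¹) * x⁻¹ * (d * a)
        = (x * (g * (x⁻¹ * a⁻¹ * x⁻¹⁻¹) * g⁻¹) * x⁻¹) *
          ((x * (g * (x⁻¹ * d⁻¹ * x⁻¹⁻¹) * g⁻¹) * x⁻¹) * d) * a⁻¹⁻¹ := by group
      _ = _ := by rw [e5, e3, e4]
  rw [this]
  exact conj_mem_of_mem_normalizer (inv_mem (h3 ha)) (N.mul_mem (conj_mem_of_mem_normalizer (hN hx)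
    (conj_mem_of_mem_normalizer (hRN hg)
      (conj_mem_of_mem_normalizer (inv_mem (hN hx)) (N.inv_mem hd)))) hd)

namespace Pt

theorem cml (h : Pt p V Γ R W) {z : G} (hx : x ∈ W) (hy : y ∈ W) (hz : z ∈ W) :
    ⁅x * y, z⁆ = ⁅x, z⁆ * ⁅y, z⁆ := by
  rw [cm_mul, conj_of_comm ((h.comm_mem hy hz).2 x hx),
    (h.comm_mem hx hz).2 _ (h.comm_mem hy hz).1]

theorem cmr (h : Pt p V Γ R W) {z : G} (hx : x ∈ W) (hy : y ∈ W) (hz : z ∈ W) :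
    ⁅x, y * z⁆ = ⁅x, y⁆ * ⁅x, z⁆ := by
  rw [cm_mul', conj_of_comm ((h.comm_mem hx hz).2 y hy)]

theorem WA (_h : Pt p V Γ R W) : W ≤ 𝒩(Zc W) := (Zc_normal W).norm

theorem nA (_h : Pt p V Γ R W) (hg : g ∈ 𝒩(W)) : g ∈ 𝒩(Zc W) := norm_le_norm_Zc W hg

theorem not_le_A (h : Pt p V Γ R W) : ¬ W ≤ Zc W := fun e =>
  h.ne_bot (by rw [← h.comm]; exact commutator_eq_bot_iff.2 (e.trans h.A_cent))

/-- An invariant `A ≤ X ≤ W` is `[X, R] A`. -/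
theorem sup_eq (h : Pt p V Γ R W) (h1 : Zc W ≤ X) (h2 : X ≤ W) (hn : R ≤ 𝒩(X)) :
    ⁅X, R⁆ ⊔ Zc W = X := by
  have := coprime_cent_prod hn (h.fa.sub h2 hn).cop (Or.inl h.toAct.sol)
  rwa [show X ⊓ 𝒞(R) = Zc W from le_antisymm (h.cent ▸ inf_le_inf_right _ h2)
    (le_inf h1 h.A_cent)] at this

theorem mem_sup_A (_h : Pt p V Γ R W) (hD : D ≤ W) :
    x ∈ D ⊔ Zc W ↔ ∃ d ∈ D, ∃ a ∈ Zc W, d * a = x :=
  H1.mem_sup_of_le_normalizer' (hD.trans (Zc_normal W).norm)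

theorem cm_mem (_h : Pt p V Γ R W) (hx : x ∈ W) (hg : g ∈ 𝒩(W)) : ⁅x, g⁆ ∈ W := by
  rw [commutatorElement_def, mul_assoc, mul_assoc, ← mul_assoc g]
  exact W.mul_mem hx (conj_mem_of_mem_normalizer hg (W.inv_mem hx))

/-- `[[x, u], u] ∈ A` when `u²` acts trivially on `W / A`. -/
theorem cm_cm (h : Pt p V Γ R W) (hx : x ∈ W) (hg : g ∈ 𝒩(W)) (h2 : ⁅x, g * g⁆ ∈ Zc W) :
    ⁅⁅x, g⁆, g⁆ ∈ Zc W := by
  have hy := h.cm_mem hx hg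
  have : ⁅⁅x, g⁆, g⁆ = ⁅x, g⁆ * ⁅x, g * g⁆⁻¹ * ⁅x, g⁆ := by
    simp only [commutatorElement_def]; group
  rw [this, (inv_mem h2 : _ ∈ Zc W).2 _ hy, mul_assoc]
  exact mul_mem (inv_mem h2) (h.sq_mem hy)

theorem cm_inv_R (h : Pt p V Γ R W) (hc : c ∈ 𝒞(R)) : R ≤ 𝒩(cm W (Zc W) c) := fun r hr =>
  mem_normalizer_of_cj_le (cj_le_iff.2 fun x hx => (mem_cm h.WA).2
    ⟨conj_mem_of_mem_normalizer (h.nW hr) hx.1, by
      rw [← conj_of_comm (mem_cent.1 hc r hr), ← cm_conj]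
      exact conj_mem_of_mem_normalizer (h.nA (h.nW hr)) hx.2.2⟩)

theorem A_le_cm (h : Pt p V Γ R W) (hg : g ∈ 𝒩(W)) : Zc W ≤ cm W (Zc W) g := fun a ha =>
  (mem_cm h.WA).2 ⟨ha.1, by
    rw [commutatorElement_def, mul_assoc, mul_assoc, ← mul_assoc g]
    exact mul_mem ha (conj_mem_of_mem_normalizer (h.nA hg) (inv_mem ha))⟩

end Pt

theorem Pair.K1 (h : Pair p V Γ R W R W') (hu : u ∈ Zc W') (hn : u ∈ 𝒩(W)) (hZ : u ∉ Zc Γ)
    (hD : ⁅W ⊓ W', R⁆ = D) :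
    (∀ x ∈ W, ⁅x, u⁆ ∈ D ⊔ ⁅D, W⁆) ∧ ⁅D, W⁆ ≤ 𝒩(W') ∧ ¬ ⁅D, W⁆ ≤ Zc Γ := by
  have ha := h.a
  have huR := h.b.A_cent hu
  have hu2 := h.b.A_sq hu
  have hRI := H1.le_normalizer_inf ha.nW h.b.nW
  have hDI : D ≤ W ⊓ W' := hD ▸ commutator_le_left hRI
  have hDW := hDI.trans inf_le_left
  have hRD : R ≤ 𝒩(D) := hD ▸ le_norm_commutator_right
  have hDc : ⁅D, R⁆ = D := hD ▸ coprime_commGid hRI (ha.fa.sub inf_le_left hRI).cop
  have hRU := ha.cm_inv_R huR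
  have hU : D ⊔ Zc W = cm W (Zc W) u := by
    rw [← ha.sup_eq (ha.A_le_cm hn) cm_le hRU]
    congr 1
    have h1 := kill (N := ⊥) hRU (norm_bot.ge.trans' le_top) (norm_bot.ge.trans' le_top) huR ha.A_cent
      (inf_le_right.trans (cent_le_cent cm_le)) (norm_bot.ge.trans' le_top)
      fun x hx => ⟨1, one_mem _, _, hx.2.2, (one_mul _).symm⟩
    have h2 : ⁅cm W (Zc W) u, R⁆ ≤ Γ ⊓ 𝒩(W') := fun x hx =>
      ⟨ha.le (h1 hx).1.1, h.b.cstar hu hZ (ha.le (h1 hx).1.1) (by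
        rw [mem_bot.1 (h1 hx).2.2]; exact one_mem _)⟩
    have h3 := coprime_commGid hRU (ha.fa.sub cm_le hRU).cop
    refine le_antisymm ?_ ?_
    · rw [← hD]
      refine commutator_mono (fun x hx => (mem_cm ha.WA).2 ⟨hx.1, ?_⟩) le_rfl
      rw [cm_one (hu.2 x hx.2)]; exact one_mem _
    · rw [← h3, ← hD]
      refine commutator_mono (le_inf ((commutator_le_left hRU).trans cm_le) ?_) le_rfl
      rw [← h3, ← h.b.M_comm]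
      exact commutator_mono h2 le_rfl
  have hy : ∀ x ∈ W, ⁅x, u⁆ ∈ D ⊔ Zc W := fun x hx => hU ▸ (mem_cm ha.WA).2
    ⟨ha.cm_mem hx hn, ha.cm_cm hx hn (by rw [hu2, commutatorElement_one_right]; exact one_mem _)⟩
  have hA1 : ⁅D, W⁆ ≤ Zc W := ha.der ▸ commutator_mono hDW le_rfl
  have hDZ : ⁅D, D⁆ ≤ Zc Γ := le_trans (le_inf (ha.der ▸ commutator_mono hDW hDW)
    (h.b.der ▸ commutator_mono (hDI.trans inf_le_right) (hDI.trans inf_le_right))) h.inf_le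
  have hWN : W ≤ 𝒩(D ⊔ ⁅D, W⁆) := le_norm_of_commutator_le (commutator_le.2 fun x hx w hw => by
    obtain ⟨d, hd, a, ha', rfl⟩ := (H1.mem_sup_of_le_normalizer' le_norm_commutator_left).1 hx
    rw [ha.cml (hDW hd) (hA1 ha').1 hw, cm_one ((hA1 ha').2 w hw).symm, mul_one]
    exact mem_sup_right (commutator_mem_commutator hd hw))
  have h4 : ∀ x ∈ W, ⁅x, u⁆ ∈ D ⊔ ⁅D, W⁆ := fun x hx => by
    refine (kill ha.nW hWN (H1.le_normalizer_sup hRD (H1.le_normalizer_commutator hRD ha.nW)) huR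
      ha.A_cent inf_le_right (inf_le_left.trans hWN) (fun x hx => ?_) (ha.comm.ge hx)).2.2
    obtain ⟨d, hd, a, ha', e⟩ := (ha.mem_sup_A hDW).1 (hy x hx)
    exact ⟨d, mem_sup_left hd, a, ha', e.symm⟩
  refine ⟨h4, commutator_le.2 fun d hd x hx => ?_, fun hle => ?_⟩
  · have h5 := ha.comm_mem (hDW hd) hx
    refine h.b.cstar hu hZ (ha.le h5.1) ?_
    obtain ⟨d', hd', a, ha', e⟩ := (ha.mem_sup_A hDW).1 (inv_mem (hy x hx))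
    have e1 : u * ⁅d, x⁆ * u⁻¹ = ⁅d, d'⁆ * ⁅d, x⁆ := by
      rw [cm_conj, conj_of_comm (hu.2 d (hDI hd).2).symm, conj_eq_cm, ← commutatorElement_inv x u, ← e,
        ha.cmr (hDW hd) (W.mul_mem (hDW hd') ha'.1) hx, ha.cmr (hDW hd) (hDW hd') ha'.1,
        cm_one (ha'.2 d (hDW hd)), mul_one]
    rw [← commutatorElement_inv, commutatorElement_def u, e1, mul_inv_cancel_right]
    exact inv_mem (hDZ (commutator_mem_commutator hd hd'))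
  · have hW : W ≤ D ⊔ Zc W := by
      by_cases h0 : D = ⊥
      · obtain ⟨x, hx, hxA⟩ := SetLike.not_le_iff_exists.1 ha.not_le_A
        rw [h0, bot_sup_eq] at hU hy
        exact absurd (hU.ge ((mem_cm ha.WA).2 ⟨hx, hy x hx⟩)) hxA
      exact fun x hx => (ha.diag hDW hRD hDc h0 hDZ).2.2 x hx fun d hd =>
        hle (commutator_mem_commutator hd hx)
    have h6 : ⁅W, R⁆ = ⁅D, R⁆ := commutator_eq_of_mul hDW hRD fun x hx => by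
      obtain ⟨d, hd, a, ha', rfl⟩ := (ha.mem_sup_A hDW).1 (hW hx)
      exact ⟨a, ha.A_cent ha', d, hd, ha'.2 d (hDW hd)⟩
    rw [ha.comm, hDc] at h6
    exact h.symm.not_le (h6.le.trans (hDI.trans (inf_le_right.trans le_normalizer)))

theorem Pair.K2 (h : Pair p V Γ R W R W') (hD : ⁅W ⊓ W', R⁆ = D) (hC : ⁅D, W'⁆ ≤ 𝒩(W)) :
    W ≤ 𝒩(D ⊔ (⁅D, W⁆ ⊔ ⁅D, W'⁆)) := by
  have hDI : D ≤ W ⊓ W' := hD ▸ commutator_le_left (H1.le_normalizer_inf h.a.nW h.b.nW)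
  have hA1 : ⁅D, W⁆ ≤ Zc W := h.a.der ▸ commutator_mono (hDI.trans inf_le_left) le_rfl
  have hC1 : ⁅D, W'⁆ ≤ Zc W' := h.b.der ▸ commutator_mono (hDI.trans inf_le_right) le_rfl
  refine fun x hx => mem_normalizer_of_cj_le ?_
  rw [cj_sup, cj_sup]
  refine sup_le (cj_le_iff.2 fun d hd => ?_)
    (sup_le (cj_le_iff.2 fun a ha => ?_) (cj_le_iff.2 fun c hc => ?_))
  · rw [conj_eq_cm, ← commutatorElement_inv]
    exact mul_mem (mem_sup_right (mem_sup_left (inv_mem (commutator_mem_commutator hd hx))))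
      (mem_sup_left hd)
  · rw [conj_of_comm ((hA1 ha).2 x hx)]
    exact mem_sup_right (mem_sup_left ha)
  · by_cases hZ : c ∈ Zc Γ
    · rw [conj_of_comm (hZ.2 x (h.a.le hx))]
      exact mem_sup_right (mem_sup_right hc)
    · rw [conj_eq_cm]
      exact mul_mem (SetLike.le_def.1 (sup_le_sup_left le_sup_left _)
        ((h.K1 (hC1 hc) (hC hc) hZ hD).1 x hx)) (mem_sup_right (mem_sup_right hc))

/-- Lemma K: two points of the same `R`. -/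
theorem Pair.K (h : Pair p V Γ R W R W') : Zc W' ⊓ 𝒩(W) ≤ Zc Γ := by
  intro u hu
  by_contra hZ
  obtain ⟨D, hD⟩ : ∃ D, ⁅W ⊓ W', R⁆ = D := ⟨_, rfl⟩
  have hD' : ⁅W' ⊓ W, R⁆ = D := by rw [inf_comm, hD]
  have hRI := H1.le_normalizer_inf h.a.nW h.b.nW
  have hDI : D ≤ W ⊓ W' := hD ▸ commutator_le_left hRI
  have hRD : R ≤ 𝒩(D) := hD ▸ le_norm_commutator_right
  have hA1 : ⁅D, W⁆ ≤ Zc W := h.a.der ▸ commutator_mono (hDI.trans inf_le_left) le_rfl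
  have hC1 : ⁅D, W'⁆ ≤ Zc W' := h.b.der ▸ commutator_mono (hDI.trans inf_le_right) le_rfl
  obtain ⟨-, h1, h2⟩ := h.K1 hu.1 hu.2 hZ hD
  obtain ⟨y, hy, hyZ⟩ := SetLike.not_le_iff_exists.1 h2
  have h3 := (h.symm.K1 (hA1 hy) (h1 hy) hyZ hD').2.1
  have h4 := h.K2 hD h3
  have h5 := h.symm.K2 hD' h1
  rw [sup_comm ⁅D, W'⁆] at h5
  have h6 : D ⊔ (⁅D, W⁆ ⊔ ⁅D, W'⁆) ≤ ⁅D, W'⁆ ⊔ W := sup_le (hDI.trans (inf_le_left.trans le_sup_right))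
    (sup_le (hA1.trans (inf_le_left.trans le_sup_right)) le_sup_left)
  have h7 := (isPGroup_sup_of_le_normalizer (h.b.two.to_le (hC1.trans inf_le_left)) h.a.two h3).to_le
    h6
  exact h.not_le (le_trans (le_inf h.b.le h5) (h.a.sub (h.a.norm_lt
    (h6.trans (sup_le (hC1.trans (inf_le_left.trans h.b.le)) h.a.le)) h7
    fun e => h2 ((le_sup_left.trans le_sup_right).trans e))
    (H1.le_normalizer_inf h.a.nR (H1.le_normalizer_normalizer (H1.le_normalizer_sup hRD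
      (H1.le_normalizer_sup (H1.le_normalizer_commutator hRD h.a.nW)
        (H1.le_normalizer_commutator hRD h.b.nW))))) (le_inf h.a.le h4)).1)

theorem Pair.K0 (h : Pair p V Γ R W R' W') (hu : u ∈ Zc W') (hn : u ∈ 𝒩(W)) (hZ : u ∉ Zc Γ) :
    u ∉ 𝒞(R) := by
  intro hc
  obtain ⟨k, hk, e⟩ := h.conj
  have h1 : R ≤ 𝒩(W') := fun r hr => by
    by_contra hne
    have h2 : Pair p V Γ R' W' (H6.cj r R') (H6.cj r W') := ⟨h.b, h.b.cj (h.a.RV hr) (h.a.nR hr),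
      ⟨r * k * r⁻¹ * k⁻¹, Γ.mul_mem (conj_mem_of_mem_normalizer (h.a.nR hr) hk) (Γ.inv_mem hk), by
        rw [← e, cj_cj, cj_cj, inv_mul_cancel_right]
        conv_lhs => rw [← cj_eq_self_iff.2 (h.a.nW hr)]
        rw [cj_cj, inv_mul_cancel_right]⟩, fun e' => hne (cj_eq_self_iff.1 e'.symm)⟩
    refine hZ (h2.inf_le ⟨hu, ?_⟩)
    rw [← cj_Zc, ← conj_of_comm (mem_cent.1 hc r hr)]
    exact conj_mem_cj hu
  have h3 : Pair p V Γ R W R W' := ⟨h.a, e ▸ h.a.of_inv hk (e ▸ h1), h.conj, h.ne⟩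
  exact hZ (h3.K ⟨hu, hn⟩)

/-- No `W`-conjugate of a bad element is centralised by `R`. -/
theorem Pair.K' (h : Pair p V Γ R W R' W') (hu : u ∈ Zc W') (hn : u ∈ 𝒩(W)) (hZ : u ∉ Zc Γ)
    (hx : x ∈ W) : x * u * x⁻¹ ∉ 𝒞(R) := by
  intro hc
  have hx' := h.a.le hx
  have h1 := h.cj (h.a.nV hx') (le_normalizer hx')
  rw [cj_eq_self_of_mem hx] at h1
  have h2 : Pair p V Γ R W (H6.cj x R') (H6.cj x W') := ⟨h.a, h1.b, h1.conj, h1.ne⟩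
  refine h2.K0 (cj_Zc x W' ▸ conj_mem_cj hu)
    (mul_mem (mul_mem (le_normalizer hx) hn) (inv_mem (le_normalizer hx))) (fun e => hZ ?_) hc
  rwa [(Zc_normal Γ).conj_mem_iff hx'] at e

/-- (κ1) -/
theorem Pt.k1 (h : Pt p V Γ R W) (hu : u ∈ Γ) (hn : u ∈ 𝒩(W)) (h2 : u * u = 1) (hg : g ∈ R) :
    u * (g * u * g⁻¹) ∈ W := by
  have : u * (g * u * g⁻¹) = ⁅u, g⁆ := by
    rw [commutatorElement_def, eq_inv_of_mul_eq_one_left h2, inv_inv, ← eq_inv_of_mul_eq_one_left h2]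
    group
  rw [this, ← h.M_comm]
  exact commutator_mem_commutator ⟨hu, hn⟩ hg

/-- (κ2) -/
theorem Pt.k2 (h : Pt p V Γ R W) (hu : u ∈ Γ) (hn : u ∈ 𝒩(W)) (h2 : u * u = 1) (hg : g ∈ R) :
    (g * u * g⁻¹) * (g⁻¹ * u * g) ∈ W ⊓ 𝒞[u] ∧
      ((g * u * g⁻¹) * (g⁻¹ * u * g)) * ((g * u * g⁻¹) * (g⁻¹ * u * g)) =
        ⁅u, (g * g) * u * (g * g)⁻¹⁆ := by
  have hu' : u⁻¹ = u := inv_eq_of_mul_eq_one_right h2
  have sq : ∀ k, ⁅u, k * u * k⁻¹⁆ = (u * (k * u * k⁻¹)) * (u * (k * u * k⁻¹)) := fun k => by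
    rw [commutatorElement_def, mul_inv_rev, mul_inv_rev, hu', inv_inv]; group
  have hA : ∀ k ∈ R, ⁅u, k * u * k⁻¹⁆ ∈ Zc W := fun k hk => sq k ▸ h.sq_mem (h.k1 hu hn h2 hk)
  have sym : ∀ k ∈ R, ⁅u, k⁻¹ * u * k⁻¹⁻¹⁆ = ⁅u, k * u * k⁻¹⁆ := fun k hk => by
    have e1 := conj_of_comm (mem_cent.1 (h.A_cent (hA _ (R.inv_mem hk))) k hk)
    rw [← e1, cm_conj, ← inv_eq_of_mul_eq_one_right (h.A_sq (hA k hk)), commutatorElement_inv]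
    congr 1
    group
  have hgg := R.mul_mem hg hg
  have e1 : (g * u * g⁻¹) * (g⁻¹ * u * g) = g * (u * ((g * g)⁻¹ * u * (g * g)⁻¹⁻¹)) * g⁻¹ := by group
  refine ⟨⟨e1 ▸ conj_mem_of_mem_normalizer (h.nW hg) (h.k1 hu hn h2 (R.inv_mem hgg)), ?_⟩, ?_⟩
  · have e2 := sym g hg
    rw [sq, sq, inv_inv] at e2
    refine mem_cent1.2 ?_
    set a := g * u * g⁻¹
    set b := g⁻¹ * u * g
    have ha : a * a = 1 := by
      calc a * a = g * (u * u) * g⁻¹ := by simp only [a]; group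
        _ = 1 := by rw [h2]; group
    have hb : b * b = 1 := by
      calc b * b = g⁻¹ * (u * u) * g := by simp only [b]; group
        _ = 1 := by rw [h2]; group
    have e4 : b * u * b = a * u * a := by
      apply mul_left_cancel (a := u)
      simpa only [mul_assoc] using e2
    calc a * b * u = a * (b * u * (b * b)) := by rw [hb, mul_one, mul_assoc]
      _ = a * (b * u * b) * b := by group
      _ = (a * a) * (u * (a * b)) := by rw [e4]; group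
      _ = u * (a * b) := by rw [ha, one_mul]
  · rw [e1, ← sym _ hgg, ← conj_of_comm (mem_cent.1 (h.A_cent (hA _ (R.inv_mem hgg))) g hg), sq]
    group

theorem Act.exists_sq (h : Act p V R) (hg : g ∈ R) : ∃ k ∈ R, k * k = g := by
  obtain ⟨m, hm⟩ := h.odd
  refine ⟨g ^ (m + 1), R.pow_mem hg _, ?_⟩
  rw [← pow_add, show m + 1 + (m + 1) = Nat.card R + 1 by omega, pow_succ,
    orderOf_dvd_iff_pow_eq_one.1 (orderOf_dvd_natCard R hg), one_mul]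

/-- (κ3) -/
theorem Pair.k3 (h : Pair p V Γ R W R' W') (hu : u ∈ Zc W') (hn : u ∈ 𝒩(W)) (hZ : u ∉ Zc Γ) :
    ∃ g ∈ R, ⁅u, g * u * g⁻¹⁆ ≠ 1 := by
  by_contra H
  push Not at H
  have ha := h.a
  have hu2 := h.b.A_sq hu
  have huΓ := h.b.le hu.1
  let E := closure {x | ∃ g ∈ R, x = g * u * g⁻¹}
  have hle : E ≤ zpowers u ⊔ W := (closure_le _).2 (by
    rintro _ ⟨g, hg, rfl⟩
    have : g * u * g⁻¹ = u * (u * (g * u * g⁻¹)) := by rw [← mul_assoc, hu2, one_mul]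
    rw [this]
    exact mul_mem (mem_sup_left (mem_zpowers u)) (mem_sup_right (ha.k1 huΓ hn hu2 hg)))
  have hRE : R ≤ 𝒩(E) := fun r hr => mem_normalizer_of_cj_le (by
    rw [H6.cj, MonoidHom.map_closure, closure_le]
    rintro _ ⟨_, ⟨g, hg, rfl⟩, rfl⟩
    exact subset_closure ⟨r * g, R.mul_mem hr hg, by simp [mul_assoc]⟩)
  have hab : IsMulCommutative E := isMulCommutative_closure (by
    rintro _ ⟨g, hg, rfl⟩ _ ⟨k, hk, rfl⟩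
    have := commutatorElement_eq_one_iff_mul_comm.1 (H _ (R.mul_mem (R.inv_mem hg) hk))
    calc g * u * g⁻¹ * (k * u * k⁻¹) = g * (u * (g⁻¹ * k * u * (g⁻¹ * k)⁻¹)) * g⁻¹ := by group
      _ = _ := by rw [this]; group)
  have h1 := ha.toAct.cent_of_comm (ha.toFa.sub (hle.trans (sup_le (zpowers_le.2 huΓ) ha.le)) hRE)
    (ha.toAct.not_dvd_two ((isPGroup_sup_of_le_normalizer (two_zp hu2) ha.two
      (zpowers_le.2 hn)).to_le hle)) hab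
  exact h.K' hu hn hZ W.one_mem (h1 (subset_closure ⟨1, R.one_mem, rfl⟩))

/-- The transvection lemma. -/
theorem Pt.transv (h : Pt p V Γ R W) (hg : g ∈ Γ) (hn : g ∈ 𝒩(W))
    (h1 : ∀ a ∈ Zc W, ⁅a, g⁆ ∈ Zc Γ) (h2 : g ∉ 𝒞(Zc W)) (h3 : ∀ w ∈ W, ⁅w, g * g⁆ ∈ Zc W) :
    ∃ D, D ≤ W ∧ R ≤ 𝒩(D) ∧ ⁅D, R⁆ = D ∧ Extraspecial 2 D ∧ Zc D = Zc W ⊓ Zc Γ ∧
      (∀ x ∈ W, ⁅x, g⁆ ∈ Zc W ↔ x ∈ D ⊔ Zc W) ∧ (∀ w ∈ W, ⁅w, g⁆ ∈ D ⊔ Zc W) ∧
      ∀ x ∈ D ⊔ Zc W, ∃ w ∈ W, ∃ a ∈ Zc W, x = ⁅w, g⁆ * a := by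
  obtain ⟨c, hc, t, ht, e⟩ := h.dec hg hn
  have hcW := hc.1.2
  have hcg : ∀ w ∈ W, ∃ a ∈ Zc W, ⁅w, g⁆ = ⁅w, c⁆ * a := fun w hw =>
    ⟨_, conj_mem_of_mem_normalizer (h.nA hcW) (h.comm_mem hw ht), by rw [e, cm_mul']⟩
  have hU : cm W (Zc W) g = cm W (Zc W) c := by
    ext x
    rw [mem_cm h.WA, mem_cm h.WA]
    refine and_congr_right fun hx => ?_
    obtain ⟨a, ha, e'⟩ := hcg x hx
    rw [e', Subgroup.mul_mem_cancel_right _ ha]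
  let U1 : Subgroup G :=
    { carrier := {x | ∃ w ∈ W, ∃ a ∈ Zc W, x = ⁅w, g⁆ * a}
      one_mem' := ⟨1, W.one_mem, 1, Subgroup.one_mem _, by simp⟩
      mul_mem' := by
        rintro _ _ ⟨w, hw, a, ha, rfl⟩ ⟨w', hw', a', ha', rfl⟩
        have h4 := h.cm_mem hw hn
        have h5 := h.comm_mem hw' h4
        refine ⟨w' * w, W.mul_mem hw' hw, ⁅w', ⁅w, g⁆⁆⁻¹ * a * a',
          Subgroup.mul_mem _ (Subgroup.mul_mem _ (Subgroup.inv_mem _ h5) ha) ha', ?_⟩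
        have h6 := h.cm_mem hw' hn
        rw [cm_mul, conj_eq_cm, mul_assoc _ ⁅w, g⁆, ← h5.2 _ (W.mul_mem h4 h6), mul_assoc _ a,
          ← mul_assoc a, ← ha.2 _ h6]
        group
      inv_mem' := by
        rintro _ ⟨w, hw, a, ha, rfl⟩
        have h4 := h.cm_mem hw hn
        refine ⟨w, hw, (⁅w, g⁆ * ⁅w, g⁆)⁻¹ * a⁻¹, Subgroup.mul_mem _
          (Subgroup.inv_mem _ (h.sq_mem h4)) (Subgroup.inv_mem _ ha), ?_⟩
        rw [mul_inv_rev, ← (Subgroup.inv_mem _ ha : a⁻¹ ∈ Zc W).2 _ (W.inv_mem h4)]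
        group }
  have hU1W : U1 ≤ W := by
    rintro _ ⟨w, hw, a, ha, rfl⟩
    exact W.mul_mem (h.cm_mem hw hn) ha.1
  have hAU : Zc W ≤ U1 := fun a ha => ⟨1, W.one_mem, a, ha, by simp⟩
  have hU1 : U1 ≤ cm W (Zc W) g := by
    rintro _ ⟨w, hw, a, ha, rfl⟩
    exact mul_mem ((mem_cm h.WA).2 ⟨h.cm_mem hw hn, h.cm_cm hw hn (h3 w hw)⟩) (h.A_le_cm hn ha)
  have hRU : R ≤ 𝒩(U1) := fun r hr => mem_normalizer_of_cj_le (cj_le_iff.2 (by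
    rintro _ ⟨w, hw, a, ha, rfl⟩
    have hw' := conj_mem_of_mem_normalizer (h.nW hr) hw
    obtain ⟨a1, ha1, e1⟩ := hcg w hw
    obtain ⟨a2, ha2, e2⟩ := hcg _ hw'
    refine ⟨_, hw', a2⁻¹ * (r * (a1 * a) * r⁻¹), mul_mem (inv_mem ha2)
      (conj_mem_of_mem_normalizer (h.nA (h.nW hr)) (mul_mem ha1 ha)), ?_⟩
    rw [e1, e2, ← conj_of_comm (mem_cent.1 hc.2 r hr), ← cm_conj,
      conj_of_comm (mem_cent.1 hc.2 r hr)]
    group))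
  have hZ : ∀ x ∈ U1, ∀ y ∈ cm W (Zc W) g, ⁅x, y⁆ ∈ Zc Γ := by
    rintro _ ⟨w, hw, a, ha, rfl⟩ y hy
    have h4 := h.cm_mem hw hn
    have h5 := h1 _ (h.comm_mem hw hy.1)
    have e1 : g * ⁅w, y⁆ * g⁻¹ = ⁅⁅w, g⁆, y⁆⁻¹ * ⁅w, y⁆ := by
      rw [cm_conj, conj_eq_cm g w, conj_eq_cm g y, ← commutatorElement_inv w g,
        ← commutatorElement_inv y g, h.cmr (W.mul_mem (W.inv_mem h4) hw) (W.inv_mem hy.2.2.1) hy.1,
        cm_one ((inv_mem hy.2.2 : _ ∈ Zc W).2 _ (W.mul_mem (W.inv_mem h4) hw)), one_mul,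
        h.cml (W.inv_mem h4) hw hy.1, cm_inv, mul_assoc ⁅w, g⁆⁻¹,
        ← (inv_mem (h.comm_mem h4 hy.1) : _ ∈ Zc W).2 _ h4, inv_mul_cancel_left]
    rw [← commutatorElement_inv, commutatorElement_def g, e1, mul_inv_cancel_right, inv_inv] at h5
    rwa [h.cml h4 ha.1 hy.1, cm_one (ha.2 y hy.1).symm, mul_one]
  have hs := h.sup_eq hAU hU1W hRU
  have hDU : ⁅U1, R⁆ ≤ U1 := commutator_le_left hRU
  have hD0 : ⁅U1, R⁆ ≠ ⊥ := fun e0 => by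
    rw [e0, bot_sup_eq] at hs
    refine h2 (cent_comm.1 (?_ : Zc W ≤ 𝒞(zpowers g)) (mem_zpowers g))
    rw [← h.der, cent_zpowers]
    refine commutator_le.2 fun x hx y hy => mem_cent1.2 (eq_comm.1 (mul_inv_eq_iff_eq_mul.1 ?_))
    have hx' : ⁅g, x⁆ ∈ Zc W := by
      rw [← commutatorElement_inv]; exact inv_mem (hs.ge ⟨x, hx, 1, one_mem _, (mul_one _).symm⟩)
    have hy' : ⁅g, y⁆ ∈ Zc W := by
      rw [← commutatorElement_inv]; exact inv_mem (hs.ge ⟨y, hy, 1, one_mem _, (mul_one _).symm⟩)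
    rw [cm_conj, conj_eq_cm g x, conj_eq_cm g y, h.cml hx'.1 hx (W.mul_mem hy'.1 hy),
      cm_one (hx'.2 _ (W.mul_mem hy'.1 hy)).symm, one_mul, h.cmr hx hy'.1 hy, cm_one (hy'.2 x hx),
      one_mul]
  obtain ⟨h4, h5, h6⟩ := h.diag (hDU.trans hU1W) le_norm_commutator_right
    (coprime_commGid hRU (h.fa.sub hU1W hRU).cop) hD0
    (commutator_le.2 fun x hx y hy => hZ x (hDU hx) y (hU1 (hDU hy)))
  refine ⟨_, hDU.trans hU1W, le_norm_commutator_right,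
    coprime_commGid hRU (h.fa.sub hU1W hRU).cop, h4, h5, fun x hx => ⟨fun hx' => h6 x hx
      fun d hd => hZ d (hDU hd) x ((mem_cm h.WA).2 ⟨hx, hx'⟩), fun hx' => (hU1 (hs.le hx')).2.2⟩,
    fun w hw => hs.ge ⟨w, hw, 1, one_mem _, (mul_one _).symm⟩, fun x hx => hs.le hx⟩

end Cfsg.Agent.FL
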