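import Cfsg.Agent.Lib.FL.C

/-!
# Local facts about points (notes/FL.md, section L)
-/

set_option autoImplicit false
set_option linter.unusedSectionVars false

namespace Cfsg.Agent.FL

open Subgroup Cfsg.Agent.FT
open Cfsg.Agent.H6 hiding Op cent_sup
open scoped commutatorElement

variable {G : Type*} [Group G] [Finite G] {p : ℕ} {V R X Y Γ W R' W' T D P L N : Subgroup G}
  {g c x y u : G}

theorem Finite.exists_maximal' {α : Type*} [Finite α] [PartialOrder α] (P : α → Prop)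
    (h : ∃ a, P a) : ∃ a, Maximal P a :=
  let ⟨_, ha⟩ := h
  let ⟨b, _, hb⟩ := Finite.exists_le_maximal ha
  ⟨b, hb⟩

theorem Finite.exists_minimal' {α : Type*} [Finite α] [PartialOrder α] (P : α → Prop)
    (h : ∃ a, P a) : ∃ a, Minimal P a :=
  let ⟨_, ha⟩ := h
  let ⟨b, _, hb⟩ := Finite.exists_le_minimal ha
  ⟨b, hb⟩

theorem mem_zp2 (hy : y * y = 1) (hx : x ∈ zpowers y) : x = 1 ∨ x = y := by
  obtain ⟨k, rfl⟩ := mem_zpowers_iff.1 hx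
  have h2 : y ^ (2 : ℤ) = 1 := by rw [zpow_two, hy]
  rcases Int.even_or_odd' k with ⟨m, rfl | rfl⟩
  · left; rw [zpow_mul, h2, one_zpow]
  · right; rw [zpow_add, zpow_mul, h2, one_zpow, one_mul, zpow_one]

theorem card_zp2 (hy : y * y = 1) (h1 : y ≠ 1) : Nat.card (zpowers y) = 2 := by
  rw [Nat.card_zpowers, orderOf_eq_prime (by rw [pow_two, hy]) h1]

theorem two_zp (hy : y * y = 1) : IsPGroup 2 (zpowers y) :=
  elem_pgroup (elem_zpowers (by rw [pow_two, hy]))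

namespace QS

theorem Op_eq (h : QS p V R Γ) : Op p Γ = ⊥ := by
  have := Fact.mk h.hp
  have hn := core_normal {p} Γ
  have h1 := H1.inf_centralizer_ne_bot_of_isPGroup (elem_pgroup h.hV) (Op_pgroup h.hp Γ)
    (hn.le.trans h.nV) h.V1
  have h2 := (h.irr _ inf_le_left (H1.le_normalizer_inf h.nV (H1.le_normalizer_centralizer hn.norm))
    (H1.le_normalizer_inf h.RV (H1.le_normalizer_centralizer
      (h.nR.trans (norm_le_norm_core _ _))))).resolve_left h1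
  exact eq_bot_iff.2 (h.ff ▸ le_inf hn.le (cent_comm.1 (h2.ge.trans inf_le_right)))

theorem Z_cent (h : QS p V R Γ) : Zc Γ ≤ 𝒞(R) := by
  refine h.toAct.cent_of_comm (h.toFa.sub inf_le_left (h.nR.trans (norm_le_norm_Zc Γ)))
    (fun e => ?_) (Zc_comm Γ)
  obtain ⟨X, hX, hc⟩ := exists_card_eq_prime h.hp e
  have := le_Op h.hp (NormalIn.of_le_Zc hX) (isPGroup_of_card_eq hc)
  rw [h.Op_eq, le_bot_iff] at this
  exact ne_bot_of_card_prime (hc ▸ h.hp) this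

theorem Z_cyc (h : QS p V R Γ) : IsCyclic (Zc Γ) ∧ SemiReg V (Zc Γ) :=
  cyclic_of_central_irr (L := Γ ⊔ R) h.V1 (sup_le h.nV h.RV)
    (le_inf (inf_le_left.trans le_sup_left) (by rw [cent_sup]; exact le_inf inf_le_right h.Z_cent))
    (eq_bot_iff.2 (h.ff ▸ inf_le_inf_right _ inf_le_left))
    fun U hU hn => h.irr U hU (le_sup_left.trans hn) (le_sup_right.trans hn)

theorem Z_reg (h : QS p V R Γ) (hx : x ∈ Zc Γ) (h1 : x ≠ 1) : V ⊓ 𝒞[x] = ⊥ := by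
  exact h.Z_cyc.2 x hx h1

/-- `Z(Γ)` has at most one involution. -/
theorem Z_inv (h : QS p V R Γ) (hx : x ∈ Zc Γ) (hy : y ∈ Zc Γ) (x1 : x ≠ 1) (y1 : y ≠ 1)
    (x2 : x * x = 1) (y2 : y * y = 1) : x = y := by
  have := eq_of_cyclic_of_card_eq h.Z_cyc.1 (zpowers_le.2 hx) (zpowers_le.2 hy)
    (by rw [card_zp2 x2 x1, card_zp2 y2 y1])
  exact (mem_zp2 y2 (this ▸ mem_zpowers x)).resolve_left x1

theorem not_sol (h : QS p V R Γ) : ¬ Group.IsSolvable Γ := by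
  exact fun hs => (der_lt_of_sol hs h.ne).ne h.perf

theorem norm_lt (h : QS p V R Γ) (hY : Y ≤ Γ) (h2 : IsPGroup 2 Y) (hZ : ¬ Y ≤ Zc Γ) :
    Γ ⊓ 𝒩(Y) < Γ := by
  refine lt_of_le_of_ne inf_le_left fun e => ?_
  rcases h.simple Y ⟨hY, e.ge.trans inf_le_right⟩ with e' | e'
  · exact hZ e'
  · exact h.not_sol (e' ▸ sol_of_pgroup h2)

theorem exists_pt (h : QS p V R Γ) : ∃ W, Pt p V Γ R W := by
  obtain ⟨T, hT, hn⟩ := coprime_Syl_exists Nat.prime_two h.nR h.cop (Or.inl h.toAct.sol)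
  exact ⟨_, h, T, hT, hn, rfl⟩

end QS

namespace Pt

theorem le (h : Pt p V Γ R W) : W ≤ Γ := by
  obtain ⟨T, hT, hn, rfl⟩ := h.ex
  exact (commutator_le_left hn).trans hT.le

theorem two (h : Pt p V Γ R W) : IsPGroup 2 W := by
  obtain ⟨T, hT, hn, rfl⟩ := h.ex
  exact hT.isPGroup.to_le (commutator_le_left hn)

theorem nW (h : Pt p V Γ R W) : R ≤ 𝒩(W) := by
  obtain ⟨T, -, -, rfl⟩ := h.ex
  exact le_norm_commutator_right

theorem comm (h : Pt p V Γ R W) : ⁅W, R⁆ = W := by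
  obtain ⟨T, hT, hn, rfl⟩ := h.ex
  exact coprime_commGid hn (h.toFa.sub hT.le hn).cop

theorem fa (h : Pt p V Γ R W) : Fa V R W := h.toFa.sub h.le h.nW

theorem der (h : Pt p V Γ R W) : ⁅W, W⁆ = Zc W := (h.toAct.special h.fa h.two h.comm).2.1

theorem cent (h : Pt p V Γ R W) : W ⊓ 𝒞(R) = Zc W := (h.toAct.special h.fa h.two h.comm).2.2

theorem A_cent (h : Pt p V Γ R W) : Zc W ≤ 𝒞(R) := h.cent.ge.trans inf_le_right

theorem comm_mem (h : Pt p V Γ R W) (hx : x ∈ W) (hy : y ∈ W) : ⁅x, y⁆ ∈ Zc W :=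
  h.der ▸ commutator_mem_commutator hx hy

theorem sq_mem (h : Pt p V Γ R W) (hx : x ∈ W) : x * x ∈ Zc W := by
  rw [← pow_two, ← (h.toAct.special h.fa h.two h.comm).1]
  exact H9.pow_mem_Phi hx

theorem A_sq (h : Pt p V Γ R W) (hx : x ∈ Zc W) : x * x = 1 := by
  have := elem_der_of_Phi_le_Zc (h.toAct.special h.fa h.two h.comm).1.le
  rw [h.der] at this
  rw [← pow_two]
  exact (elem_iff.1 this).2 x hx

/-- `W` does not normalise an invariant Sylow `p`-subgroup. -/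
theorem no_syl (h : Pt p V Γ R W) (hP : Syl p P Γ) (hn : R ≤ 𝒩(P)) (hW : W ≤ 𝒩(P)) : False := by
  have := Fact.mk h.hp
  obtain ⟨T, hT, hnT, e⟩ := h.ex
  have hX : P ⊔ W ≤ Γ := sup_le hP.le h.le
  have hRX := H1.le_normalizer_sup hn h.nW
  have hf := h.toFa.sub hX hRX
  have hsol := h.toAct.sol
  have h1 := mul_of_fact (R := R) hX fun s hs => by
    by_cases h2 : s = 2
    · subst h2
      have hW2 : Syl 2 W (P ⊔ W) := ⟨le_sup_right, h.two, fun hd => by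
        have h3 : Nat.card (P ⊓ W : Subgroup G) = 1 := by
          rw [inf_eq_bot_of_coprime' (coprime_of_pgroup_of_not_dvd h.hp hP.isPGroup
            (h.toAct.not_dvd_two h.two)), card_bot]
        have h4 := (SDP.of_norm hW (card_eq_one.1 h3)).card_mul
        have h5 := H1.card_mul_relIndex (le_sup_right : W ≤ P ⊔ W)
        rw [← h4, mul_comm (Nat.card P)] at h5
        rw [Nat.eq_of_mul_eq_mul_left Nat.card_pos h5] at hd
        obtain ⟨k, hk⟩ := IsPGroup.iff_card.1 hP.isPGroup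
        exact h.p2 ((Nat.prime_dvd_prime_iff_eq hs h.hp).1 (hs.dvd_of_dvd_pow (hk ▸ hd))).symm⟩
      rw [fact_relIndex hs hsol h.nR h.cop hT hnT, fact_relIndex hs hsol hRX hf.cop hW2 h.nW]
      have h6 := coprime_cent_prod hnT (h.toFa.sub hT.le hnT).cop (Or.inl hsol)
      rw [e] at h6
      have hWT : W ≤ T := le_sup_left.trans h6.le
      have h7 := card_mul_of_forall_mul hWT (inf_le_left : T ⊓ 𝒞(R) ≤ T) fun m hm => by
        obtain ⟨a, ha, b, hb, e'⟩ := (H1.mem_sup_of_le_normalizer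
          (inf_le_left.trans (e ▸ le_norm_commutator_left))).1 (h6.ge hm)
        exact ⟨a, ha, b, hb, e'.symm⟩
      rw [← inf_assoc, inf_eq_left.2 hWT, ← card_inf_mul 𝒞(R) T, ← card_inf_mul 𝒞(R) W,
        inf_comm T, inf_comm W] at h7
      have h8 : (𝒞(R)).relIndex T = (𝒞(R)).relIndex W := by
        have a1 : 0 < Nat.card (𝒞(R) ⊓ T : Subgroup G) := Nat.card_pos
        have a2 : 0 < Nat.card (𝒞(R) ⊓ W : Subgroup G) := Nat.card_pos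
        apply Nat.eq_of_mul_eq_mul_left (Nat.mul_pos a1 a2)
        linear_combination h7
      rw [h8]
    by_cases h3 : s = p
    · subst h3
      rw [fact_relIndex hs hsol h.nR h.cop hP hn,
        fact_relIndex hs hsol hRX hf.cop (hP.mono le_sup_left hX) hn]
    · rw [h.toAct.fact_eq_zero h.toFa hs h2 (Or.inl h3)]
      exact Nat.zero_le _
  have h2 := commutator_eq_of_mul hX hRX fun x hx =>
    let ⟨c, hc, t, ht, e⟩ := h1 x hx
    ⟨c, hc.2, t, ht, e⟩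
  rw [h.gen] at h2
  have := sol_of_pgroup hP.isPGroup
  have := sol_of_pgroup h.two
  exact h.not_sol (sol_of_le (H1.isSolvable_sup_of_le_normalizer hW)
    (h2.le.trans ((commutator_le_left hRX).trans (sup_comm _ _).le)))

theorem ne_bot (h : Pt p V Γ R W) : W ≠ ⊥ := by
  intro e
  obtain ⟨P, hP, hn⟩ := coprime_Syl_exists h.hp h.nR h.cop (Or.inl h.toAct.sol)
  exact h.no_syl hP hn (e ▸ bot_le)

theorem not_le (h : Pt p V Γ R W) : ¬ W ≤ Zc Γ := by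
  exact fun e => h.ne_bot (by rw [← h.comm]; exact commutator_eq_bot_iff.2 (e.trans h.Z_cent))

theorem comm_eq (h : Pt p V Γ R W) (hX : X ≤ Γ) (hn : R ≤ 𝒩(X)) (hW : W ≤ X)
    (hp : ¬ p ∣ Nat.card X) : ⁅X, R⁆ = W := by
  have hf := h.toFa.sub hX hn
  obtain ⟨T, hT, hnT, e⟩ := h.ex
  obtain ⟨T1, hT1, hn1, hle1⟩ := coprime_Syl_subset Nat.prime_two hn hf.cop (Or.inl h.toAct.sol)
    hW h.two h.nW
  obtain ⟨T', hT', hn', hle⟩ := coprime_Syl_subset Nat.prime_two h.nR h.cop (Or.inl h.toAct.sol)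
    (hT1.le.trans hX) hT1.isPGroup hn1
  obtain ⟨c, hc0, hc, e'⟩ := H1.IsSylowIn.exists_conj_centralizer h.nR h.cop.symm (Or.inl h.toAct.sol)
    hT hT' hnT hn'
  rw [h.toAct.commutator_eq hf hp hT1 hn1]
  have h1 : W ≤ ⁅T1, R⁆ := h.comm.ge.trans (commutator_mono hle1 le_rfl)
  refine (eq_of_le_of_card_le h1 ((card_le_of_le (commutator_mono hle (le_refl R))).trans ?_)).symm
  rw [← e', ← e, ← card_cj c ⁅T, R⁆, cj_commutator, cj_eq_self_iff.2 (cent_le_norm hc)]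
  rfl

theorem M_inv (h : Pt p V Γ R W) : R ≤ 𝒩(Γ ⊓ 𝒩(W)) :=
  H1.le_normalizer_inf h.nR (H1.le_normalizer_normalizer h.nW)

/-- (L2) a proper invariant overgroup of `W` is a `p'`-group normalising `W`. -/
theorem sub (h : Pt p V Γ R W) (hX : X < Γ) (hn : R ≤ 𝒩(X)) (hW : W ≤ X) :
    X ≤ 𝒩(W) ∧ ¬ p ∣ Nat.card X := by
  have := Fact.mk h.hp
  have hp : ¬ p ∣ Nat.card X := fun hd => by
    have h0 : Op p X ≠ ⊥ := (h.pc X hX hn).ne_bot_iff.2 hd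
    obtain ⟨P, ⟨h1, h2, h3, h4, h5⟩, hmax⟩ := Finite.exists_maximal'
      (fun P : Subgroup G => P ≤ Γ ∧ IsPGroup p P ∧ P ≠ ⊥ ∧ R ≤ 𝒩(P) ∧ W ≤ 𝒩(P))
      ⟨_, (core_le _ _).trans hX.le, Op_pgroup h.hp X, h0, hn.trans (norm_le_norm_core _ _),
        hW.trans (core_normal _ _).norm⟩
    have hlt : Γ ⊓ 𝒩(P) < Γ := lt_of_le_of_ne inf_le_left fun e => h3 (le_bot_iff.1
      (h.Op_eq ▸ le_Op h.hp ⟨h1, e.ge.trans inf_le_right⟩ h2))
    have hRN := H1.le_normalizer_inf h.nR (H1.le_normalizer_normalizer h4)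
    have h6 := h.pc _ hlt hRN
    have h7 : P ≤ Op p (Γ ⊓ 𝒩(P)) := le_Op h.hp ⟨le_inf h1 le_normalizer, inf_le_right⟩ h2
    have h8 := hmax ⟨(core_le _ _).trans inf_le_left, Op_pgroup h.hp _,
      fun e => h3 (le_bot_iff.1 (e ▸ h7)), hRN.trans (norm_le_norm_core _ _),
      (le_inf h.le h5).trans (core_normal _ _).norm⟩ h7
    have h9 : Syl p P (Γ ⊓ 𝒩(P)) := by
      have h10 : Syl p (Op p (Γ ⊓ 𝒩(P))) (Γ ⊓ 𝒩(P)) := h6
      rwa [show Op p (Γ ⊓ 𝒩(P)) = P from le_antisymm h8 h7] at h10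
    exact h.no_syl (H1.isSylowIn_of_isSylowIn_normalizer h9) h4 h5
  refine ⟨?_, hp⟩
  rw [← h.comm_eq hX.le hn hW hp]
  exact le_norm_commutator_left

theorem M_p (h : Pt p V Γ R W) : ¬ p ∣ Nat.card (Γ ⊓ 𝒩(W) : Subgroup G) := by
  exact (h.sub (h.norm_lt h.le h.two h.not_le) h.M_inv (le_inf h.le le_normalizer)).2

theorem M_comm (h : Pt p V Γ R W) : ⁅Γ ⊓ 𝒩(W), R⁆ = W := by
  exact h.comm_eq inf_le_left h.M_inv (le_inf h.le le_normalizer) h.M_p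

theorem dec (h : Pt p V Γ R W) (hx : x ∈ Γ) (hn : x ∈ 𝒩(W)) :
    ∃ c ∈ Γ ⊓ 𝒩(W) ⊓ 𝒞(R), ∃ t ∈ W, x = c * t := by
  have h1 := coprime_cent_prod h.M_inv (h.toFa.sub inf_le_left h.M_inv).cop (Or.inl h.toAct.sol)
  rw [h.M_comm, sup_comm] at h1
  obtain ⟨c, hc, t, ht, e⟩ := (H1.mem_sup_of_le_normalizer'
    (inf_le_left.trans inf_le_right)).1 (h1.ge (⟨hx, hn⟩ : x ∈ Γ ⊓ 𝒩(W)))
  exact ⟨c, hc, t, ht, e.symm⟩

theorem inv (h : Pt p V Γ R W) (h1 : W ≤ Y) (h2 : Y ≤ Γ ⊓ 𝒩(W)) : R ≤ 𝒩(Y) := by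
  exact le_norm_of_commutator_le ((commutator_mono h2 le_rfl).trans (h.M_comm.le.trans h1))

theorem norm_le' (h : Pt p V Γ R W) (h1 : W ≤ Y) (h2 : Y ≤ Γ ⊓ 𝒩(W)) (h3 : IsPGroup 2 Y) :
    Γ ⊓ 𝒩(Y) ≤ 𝒩(W) :=
  (h.sub (h.norm_lt (h2.trans inf_le_left) h3 fun e => h.not_le (h1.trans e))
    (H1.le_normalizer_inf h.nR (H1.le_normalizer_normalizer (h.inv h1 h2)))
    (le_inf h.le (h1.trans le_normalizer))).1

/-- `2`-subgroups above `W` normalise `W`. -/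
theorem two_le (h : Pt p V Γ R W) (h1 : W ≤ Y) (h2 : Y ≤ Γ) (h3 : IsPGroup 2 Y) : Y ≤ 𝒩(W) := by
  by_contra hne
  have hlt : Y ⊓ 𝒩(W) < Y := lt_of_le_of_ne inf_le_left fun e => hne (e.ge.trans inf_le_right)
  have h4 := H1.lt_inf_normalizer_of_isPGroup h3 hlt
  have h5 : W ≤ Y ⊓ 𝒩(W) := le_inf h1 le_normalizer
  have h6 := h.norm_le' h5 (inf_le_inf_right _ h2) (h3.to_le inf_le_left)
  exact h4.not_ge (le_inf inf_le_left ((inf_le_inf_right _ h2).trans h6))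

theorem norm_le (h : Pt p V Γ R W) (h1 : W ≤ Y) (h2 : Y ≤ Γ) (h3 : IsPGroup 2 Y) :
    Γ ⊓ 𝒩(Y) ≤ 𝒩(W) := by
  exact h.norm_le' h1 (le_inf h2 (h.two_le h1 h2 h3)) h3

/-- (L7) `C*(y) ≤ M`. -/
theorem cstar (h : Pt p V Γ R W) (hy : y ∈ Zc W) (hZ : y ∉ Zc Γ) (hg : g ∈ Γ)
    (hc : ⁅g, y⁆ ∈ Zc Γ) : g ∈ 𝒩(W) := by
  have hyΓ := h.le hy.1
  have hZn : ∀ g ∈ Γ, g ∈ 𝒩(Zc Γ) := fun g hg => (Zc_normal Γ).norm hg
  have key : ∀ g ∈ 𝒩(Zc Γ), ⁅g, y⁆ ∈ Zc Γ → g ∈ 𝒩(zpowers y ⊔ Zc Γ) := fun g hg hc => by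
    refine mem_normalizer_of_cj_le ?_
    rw [cj_sup, cj_eq_self_iff.2 hg, cj_zpowers]
    refine sup_le (zpowers_le.2 ?_) le_sup_right
    have : g * y * g⁻¹ = ⁅g, y⁆ * y := by rw [commutatorElement_def, inv_mul_cancel_right]
    rw [this]
    exact mul_mem (mem_sup_right hc) (mem_sup_left (mem_zpowers y))
  have hle : zpowers y ⊔ Zc Γ ≤ Γ := sup_le (zpowers_le.2 hyΓ) inf_le_left
  refine (h.sub (X := Γ ⊓ 𝒩(zpowers y ⊔ Zc Γ)) (lt_of_le_of_ne inf_le_left fun e => ?_)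
    (H1.le_normalizer_inf h.nR (H1.le_normalizer_normalizer fun r hr => key r
      (norm_le_norm_Zc Γ (h.nR hr)) ?_)) (fun w hw => ⟨h.le hw, key w (hZn w (h.le hw)) ?_⟩)).1
    ⟨hg, key g (hZn g hg) hc⟩
  · rcases h.simple _ ⟨hle, e.ge.trans inf_le_right⟩ with e' | e'
    · exact hZ (e' (mem_sup_left (mem_zpowers y)))
    · exact h.not_sol (e' ▸ sol_of_nil (nil_of_comm (comm_sup (comm_of_cyclic inferInstance)
        (Zc_comm Γ) (cent_comm.1 (inf_le_right.trans (cent_le_cent (zpowers_le.2 hyΓ)))))))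
  · rw [commutatorElement_eq_one_iff_mul_comm.2 (mem_cent.1 (h.A_cent hy) r hr)]
    exact one_mem _
  · rw [commutatorElement_eq_one_iff_mul_comm.2 (hy.2 w hw)]
    exact one_mem _

/-- (L10) `C(A) = W C(W)`. -/
theorem centA (h : Pt p V Γ R W) (hx : x ∈ Γ) (hn : x ∈ 𝒩(W)) (hc : x ∈ 𝒞(Zc W)) :
    ∃ c ∈ Γ ⊓ 𝒞(R) ⊓ 𝒞(W), ∃ t ∈ W, x = c * t := by
  obtain ⟨c, h1, t, ht, rfl⟩ := h.dec hx hn
  refine ⟨c, ⟨⟨h1.1.1, h1.2⟩, h.toAct.lemC h.fa h.two h.comm (h.nV h1.1.1) h1.1.2 h1.2 ?_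
    (fun e => h.M_p (e.trans (orderOf_dvd_natCard _ h1.1))) fun e => ?_⟩, t, ht, rfl⟩
  · rwa [← Subgroup.mul_mem_cancel_right _ (cent_comm.1 inf_le_right ht)]
  · exact (Nat.Prime.coprime_iff_not_dvd h.hr).1 h.cop.symm (e.trans (orderOf_dvd_natCard _ h1.1.1))

/-- (L12) invariant `2`-subgroups lie in the stabiliser of an `R`-point. -/
theorem two_inv (h : Pt p V Γ R W) (h1 : Y ≤ Γ) (h2 : IsPGroup 2 Y) (hn : R ≤ 𝒩(Y)) :
    ∃ c ∈ Γ ⊓ 𝒞(R), Y ≤ 𝒩(H6.cj c W) := by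
  obtain ⟨T, hT, hnT, e⟩ := h.ex
  obtain ⟨T', hT', hn', hle⟩ := coprime_Syl_subset Nat.prime_two h.nR h.cop (Or.inl h.toAct.sol)
    h1 h2 hn
  obtain ⟨c, hc0, hc, e'⟩ := H1.IsSylowIn.exists_conj_centralizer h.nR h.cop.symm (Or.inl h.toAct.sol)
    hT hT' hnT hn'
  refine ⟨c, ⟨hc0, hc⟩, hle.trans (e' ▸ cj_le_norm c ?_)⟩
  rw [← e]
  exact le_norm_commutator_left

/-- (L6) -/
theorem mem_of_cj_le (h : Pt p V Γ R W) (hg : g ∈ Γ) (hle : H6.cj g W ≤ 𝒩(W)) : g ∈ 𝒩(W) := by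
  have h' := h.cj_mem hg
  obtain ⟨T, hT, hle'⟩ := H1.exists_isSylowIn_ge
    (isPGroup_sup_of_le_normalizer h'.two h.two hle) (sup_le h'.le h.le)
  have h1 := h.two_le (le_sup_right.trans hle') hT.le hT.isPGroup
  have h2 := h'.two_le (le_sup_left.trans hle') hT.le hT.isPGroup
  have h3 : H6.cj g⁻¹ T ≤ 𝒩(W) := by
    rw [← cj_inv_cj g W]; exact cj_le_norm _ h2
  have h4 : Syl 2 (H6.cj g⁻¹ T) Γ := Syl.cj_of_mem hT (le_normalizer (Γ.inv_mem hg))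
  obtain ⟨m, hm, e⟩ := Syl.exists_cj_eq (h4.mono (le_inf h4.le h3) inf_le_left)
    (hT.mono (le_inf hT.le h1) inf_le_left)
  rw [cj_cj, cj_eq_self_iff] at e
  have h5 := h.norm_le (le_sup_right.trans hle') hT.le hT.isPGroup
    ⟨Γ.mul_mem hm.1 (Γ.inv_mem hg), e⟩
  rwa [Subgroup.mul_mem_cancel_left _ hm.2, Subgroup.inv_mem_iff] at h5

/-- (L11) an `R`-invariant conjugate is an `R`-point. -/
theorem of_inv (h : Pt p V Γ R W) (hg : g ∈ Γ) (hn : R ≤ 𝒩(H6.cj g W)) :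
    Pt p V Γ R (H6.cj g W) := by
  have h' := h.cj_mem hg
  obtain ⟨c, hc, hle⟩ := h.two_inv h'.le h'.two hn
  have h1 := h.cj_cent hc.1 hc.2
  have h2 := h1.mem_of_cj_le (Γ.mul_mem hg (Γ.inv_mem hc.1))
    (by rwa [cj_cj, inv_mul_cancel_right])
  rw [← cj_eq_self_iff, cj_cj, inv_mul_cancel_right] at h2
  rwa [h2]

/-- The diagonal lemma for points. -/
theorem diag (h : Pt p V Γ R W) (hD : D ≤ W) (hn : R ≤ 𝒩(D)) (hc : ⁅D, R⁆ = D) (h1 : D ≠ ⊥)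
    (hZ : ⁅D, D⁆ ≤ Zc Γ) : Extraspecial 2 D ∧ Zc D = Zc W ⊓ Zc Γ ∧
      ∀ x ∈ W, (∀ d ∈ D, ⁅d, x⁆ ∈ Zc Γ) → x ∈ D ⊔ Zc W := by
  have hf := h.fa.sub hD hn
  have h2 := h.two.to_le hD
  obtain ⟨-, h4, h5⟩ := h.toAct.special hf h2 hc
  have h6 : Zc D ≤ Zc W ⊓ Zc Γ := le_inf (by rw [← h5, ← h.cent]; exact inf_le_inf_right _ hD)
    (h4 ▸ hZ)
  obtain ⟨⟨z, hz⟩, hz1⟩ := ne_bot_iff_exists_ne_one.1 (Zc_ne_bot (nil_of_pgroup h2) h1)
  have hz1' : z ≠ 1 := fun e => hz1 (Subtype.ext e)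
  have hz2 := h.A_sq (h6 hz).1
  have h7 : Zc W ⊓ Zc Γ ≤ zpowers z := fun a ha => by
    by_cases e : a = 1
    · rw [e]; exact one_mem _
    · rw [h.Z_inv ha.2 (h6 hz).2 e hz1' (h.A_sq ha.1) hz2]; exact mem_zpowers z
  have h8 : Zc D = Zc W ⊓ Zc Γ := le_antisymm h6 (h7.trans (zpowers_le.2 hz))
  have h9 : Zc D = zpowers z := le_antisymm (h6.trans h7) (zpowers_le.2 hz)
  have hE := extraspecial_of_der_eq_Zc Nat.prime_two h2 h4 (by rw [h9, card_zp2 hz2 hz1'])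
  refine ⟨hE, h8, fun x hx hd => h.toAct.diag h.fa h.two h.comm hD hn hc hE ?_
    (h6.trans inf_le_left) hx fun d hd' => ?_⟩
  · rw [h9, cent_zpowers]; exact h.Z_reg (h6 hz).2 hz1'
  · rw [h8]; exact ⟨h.comm_mem (hD hd') hx, hd d hd'⟩

end Pt

namespace Pair

theorem not_le (h : Pair p V Γ R W R' W') : ¬ W' ≤ 𝒩(W) := by
  obtain ⟨g, hg, e⟩ := h.conj
  exact fun hle => h.ne (e ▸ (cj_eq_self_iff.2 (h.a.mem_of_cj_le hg (e ▸ hle))).symm)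

theorem inf_le (h : Pair p V Γ R W R' W') : Zc W ⊓ Zc W' ≤ Zc Γ := by
  intro y hy
  by_contra hZ
  refine h.not_le fun w hw => h.a.cstar hy.1 hZ (h.b.le hw) ?_
  rw [commutatorElement_eq_one_iff_mul_comm.2 (hy.2.2 w hw)]
  exact one_mem _

theorem Z1 (h : Pair p V Γ R W R' W') : Zc W ⊓ Zc Γ = Zc W' ⊓ Zc Γ := by
  obtain ⟨g, hg, e⟩ := h.conj
  have h1 : H6.cj g (Zc W ⊓ Zc Γ) = Zc W ⊓ Zc Γ := cj_eq_self_iff.2
    (cent_le_norm (cent_comm.1 (inf_le_right.trans inf_le_right) hg))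
  rw [← h1, cj_inf, cj_Zc, e, (Zc_normal Γ).cj_eq hg]

end Pair

end Cfsg.Agent.FL
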