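import Cfsg.Agent.Lib.FL.HH

/-!
# Reduction to the quasisimple case (notes/FL.md, section Red)
-/

set_option autoImplicit false
set_option linter.unusedSectionVars false

namespace Cfsg.Agent.FL

open Subgroup Cfsg.Agent.H6 Cfsg.Agent.FT
open scoped commutatorElement

variable {G : Type*} [Group G] [Finite G] {p : ℕ} {V R X Y Γ W R' W' T D P L N : Subgroup G}
  {g c x y u : G}

universe u

namespace Red

/-- `N` is normal of `p'`-index and its `p'`-subgroups of prime power order lie in `K`. -/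
def Res (p : ℕ) (Γ K : Subgroup G) : Prop := ∃ N, NormalIn N Γ ∧ ¬ p ∣ N.relIndex Γ ∧
  ∀ q : ℕ, q.Prime → q ≠ p → ∀ Q, Q ≤ N → IsPGroup q Q → Q ≤ K

theorem Res.pull {G' : Type*} [Group G'] [Finite G'] {f : D →* G'} {K' : Subgroup G'}
    (hΓ : Γ ≤ D) (h : Res p (mim f Γ) K') : Res p Γ (mpre f K') := by
  obtain ⟨N, h1, h2, h3⟩ := h
  refine ⟨mpre f N ⊓ Γ, ⟨inf_le_right, H1.le_normalizer_inf (le_norm_mpre hΓ h1.norm)
    le_normalizer⟩, ?_, fun q hq hqp Q hQ hq' => ?_⟩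
  · rwa [inf_relIndex_right, relIndex_mpre_left hΓ]
  · have hQD : Q ≤ D := (hQ.trans inf_le_right).trans hΓ
    exact (mim_le_iff hQD).1 (h3 q hq hqp _ ((mim_le_iff hQD).2 (hQ.trans inf_le_left))
      (mim_pgroup hq'))

theorem Res.of_pcl (hp : p.Prime) (h : PCl p Γ) : Res p Γ ⊥ :=
  ⟨Op p Γ, core_normal _ _, h.not_dvd, fun q hq hqp Q hQ hq' =>
    (PiG.eq_bot ((core_pi _ _).of_le hQ) (piG_of_pgroup hq hq' hqp)).le⟩

theorem pcl_of_normal (hp : p.Prime) (h : Syl p P Γ) (hn : Γ ≤ 𝒩(P)) : PCl p Γ := by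
  rw [PCl, Op_eq_of_normal hp h hn]; exact h

theorem cp_mim {G' : Type*} [Group G'] (f : D →* G') (hR : Group.IsSolvable R) (hΓ : Γ ≤ D)
    (hRD : R ≤ D) (hn : R ≤ 𝒩(Γ)) (hc : (Nat.card Γ).Coprime (Nat.card R))
    (cp : ¬ p ∣ Nat.card (Γ ⊓ 𝒞(R) : Subgroup G)) :
    ¬ p ∣ Nat.card (mim f Γ ⊓ 𝒞(mim f R) : Subgroup G') := by
  rw [← mim_inf_cent_of_coprime hΓ hRD hn
    (hc.symm.coprime_dvd_right (card_dvd_of_le inf_le_right)) (Or.inl hR)]
  exact fun e => cp (e.trans (card_mim_dvd f _))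

/-- the induction hypothesis -/
def IH (p n : ℕ) : Prop := ∀ (G : Type u) [Group G] [Finite G] (V R Γ : Subgroup G),
  Nat.card Γ * Nat.card V < n → Act p V R → Fa V R Γ →
    ¬ p ∣ Nat.card (Γ ⊓ 𝒞(R) : Subgroup G) → PCl p Γ

theorem IH.res {n : ℕ} (ih : IH.{u} p n) {G : Type u} [Group G] [Finite G] {V R Γ : Subgroup G}
    (hlt : Nat.card Γ * Nat.card V < n) (h : Act p V R) (h1 : V ≠ ⊥) (hV : Γ ≤ 𝒩(V))
    (hn : R ≤ 𝒩(Γ)) (hc : (Nat.card Γ).Coprime (Nat.card R))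
    (cp : ¬ p ∣ Nat.card (Γ ⊓ 𝒞(R) : Subgroup G)) : Res p Γ 𝒞(V) := by
  have := ih (Hol V) (holSub V V) (holAct V R) (holAct V Γ) (by
    rw [card_holSub le_rfl]
    exact lt_of_le_of_lt (Nat.mul_le_mul_right _
      (Nat.le_of_dvd Nat.card_pos (card_mim_dvd _ _))) hlt) (h.hol h1).1 (h.hol_fa h1 hV hn hc)
    (cp_mim _ h.sol hV h.RV hn hc cp)
  have := (Res.of_pcl h.hp this).pull hV
  rwa [mpre_holA_bot] at this

/-- the reducible case -/
theorem IH.reducible {G : Type u} [Group G] [Finite G] {U V R Γ : Subgroup G}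
    (ih : IH.{u} p (Nat.card Γ * Nat.card V)) (h : Act p V R) (hΓ : Fa V R Γ)
    (cp : ¬ p ∣ Nat.card (Γ ⊓ 𝒞(R) : Subgroup G)) (hU : U ≤ V) (n1 : Γ ≤ 𝒩(U)) (n2 : R ≤ 𝒩(U))
    (u1 : U ≠ ⊥) (u2 : U ≠ V) : PCl p Γ := by
  have hp := h.hp
  have hVU : V ≤ 𝒩(U) := (((elem_iff.1 h.hV).1).trans (cent_le_cent hU)).trans cent_le_norm
  have hpos : 0 < Nat.card Γ := Nat.card_pos
  obtain ⟨N1, a1, a2, a3⟩ := ih.res (Nat.mul_lt_mul_of_pos_left
    (lt_of_le_of_ne (card_le_of_le hU) fun e => u2 (eq_of_le_of_card_le hU e.ge)) hpos)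
    (h.sub hU n2) u1 n1 hΓ.nR hΓ.cop cp
  have hRU : U ⊓ R = ⊥ := inf_eq_bot_of_coprime' (h.sub hU n2).copV
  have hcR : Nat.card (quo U R) = Nat.card R := card_quo_of_inf_eq_bot n2 hRU
  have h' : Act p (quo U V) (quo U R) :=
    ⟨hp, h.p2, quo_elem h.hV, by rw [hcR]; exact h.hr, by rw [hcR]; exact h.r2,
      by rw [hcR]; exact h.rp, quo_le_norm h.RV, by
        rw [← quo_inf_cent_of_coprime hVU n2 h.RV
          (h.copV.symm.coprime_dvd_right (card_dvd_of_le inf_le_right)) (Or.inl h.sol), h.fpf,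
          quo_bot]⟩
  obtain ⟨N2, b1, b2, b3⟩ := (ih.res (Γ := quo U Γ) (Nat.mul_lt_mul_of_le_of_lt
    (Nat.le_of_dvd hpos (card_quo_dvd _ _)) (card_quo_lt ⟨hU, hVU⟩ u1) hpos) h'
    (fun e => u2 (le_antisymm hU ((quo_eq_bot_iff hVU).1 e))) (quo_le_norm hΓ.nV)
    (quo_le_norm hΓ.nR) (by rw [hcR]; exact hΓ.cop.coprime_dvd_left (card_quo_dvd _ _))
    (cp_mim _ h.sol n1 n2 hΓ.nR hΓ.cop cp)).pull n1
  have hN : NormalIn (N1 ⊓ N2) Γ := a1.inf b1
  have hi : ¬ p ∣ (N1 ⊓ N2).relIndex Γ := (piN_compl_singleton_iff hp).1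
    (PiN.relIndex_inf a1.norm ((piN_compl_singleton_iff hp).2 a2)
      ((piN_compl_singleton_iff hp).2 b2))
  have hpg : IsPGroup p (N1 ⊓ N2 : Subgroup G) := by
    rw [← piG_singleton hp]
    refine piG_of_relIndex piG_bot (piN_relIndex_of_forall fun q hq hqp Q hQ hq' => ?_)
    have hQΓ : Q ≤ Γ := hQ.trans hN.le
    have c1 := a3 q hq hqp Q (hQ.trans inf_le_left) hq'
    have c2 := (mim_le_iff (hQΓ.trans n1)).2 (b3 q hq hqp Q (hQ.trans inf_le_right) hq')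
    have c3 : ⁅V, Q⁆ ≤ U := by
      rw [commutator_comm]
      exact (quo_le_cent_iff (hQΓ.trans n1) hVU).1 c2
    have c4 := stable_factor_cent c1 hU c3
      (PiN.coprime (π := {p}) ((piG_singleton hp).2 (elem_pgroup h.hV)) (piG_of_pgroup hq hq' hqp))
    rw [← hΓ.ff]
    exact le_inf hQΓ c4
  exact pcl_of_normal hp ⟨hN.le, hpg, hi⟩ hN.norm

theorem two_pow_arith {a n m : ℕ} (hn : 0 < n) (h1 : a * (2 ^ n + 1) = 2 * n + a)
    (h2 : 2 * m = 2 * n + a) : False := by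
  have h3 : n < 2 ^ n := Nat.lt_two_pow_self
  have h4 : a * 2 ^ n = 2 * n := by linarith
  rcases Nat.eq_zero_or_pos a with rfl | ha
  · omega
  · have : 2 ≤ a := by omega
    nlinarith

/-- the irreducible minimal counterexample -/
structure Min (p : ℕ) (V R Γ S : Subgroup G) : Prop extends Act p V R, Fa V R Γ where
  V1 : V ≠ ⊥
  irr : ∀ U, U ≤ V → Γ ≤ 𝒩(U) → R ≤ 𝒩(U) → U = ⊥ ∨ U = V
  cp : ¬ p ∣ Nat.card (Γ ⊓ 𝒞(R) : Subgroup G)
  pc : ∀ X, X < Γ → R ≤ 𝒩(X) → PCl p X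
  npc : ¬ PCl p Γ
  syl : Syl p S Γ
  nS : R ≤ 𝒩(S)

namespace Min

variable {S K B : Subgroup G} (h : Min p V R Γ S)
include h

theorem op : Op p Γ = ⊥ := by
  have := Fact.mk h.hp
  have hn : ∀ X : Subgroup G, X ≤ 𝒩(V) → X ≤ 𝒩(Γ) → X ≤ 𝒩(V ⊓ 𝒞(Op p Γ)) := fun X a b =>
    H1.le_normalizer_inf a (H1.le_normalizer_centralizer (b.trans (norm_le_norm_core _ _)))
  have h1 := (h.irr _ inf_le_left (hn Γ h.nV le_normalizer) (hn R h.RV h.nR)).resolve_left
    (H1.inf_centralizer_ne_bot_of_isPGroup (elem_pgroup h.hV) (Op_pgroup h.hp Γ)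
      ((core_le _ _).trans h.nV) h.V1)
  rw [eq_bot_iff, ← h.ff]
  exact le_inf (core_le _ _) (cent_comm.1 (inf_eq_left.1 h1))

theorem S1 : S ≠ ⊥ := fun e => h.npc (pcl_of_normal h.hp h.syl (by rw [e, norm_bot]; exact le_top))

theorem not_dvd (hN : NormalIn N Γ) (hne : N ≠ Γ) (hn : R ≤ 𝒩(N)) : ¬ p ∣ Nat.card N := by
  have := Fact.mk h.hp
  have h1 := h.pc N (lt_of_le_of_ne hN.le hne) hn
  have h2 : Op p N = ⊥ := eq_bot_iff.2 (h.op ▸ core_le_of_normal hN)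
  intro e
  exact (Syl.ne_bot_iff h1).2 e h2

theorem eq_of_le (hN : NormalIn N Γ) (hn : R ≤ 𝒩(N)) (hS : S ≤ N) : N = Γ := by
  have := Fact.mk h.hp
  by_contra hne
  exact h.not_dvd hN hne hn ((H9.dvd_card_of_ne_bot h.syl.isPGroup h.S1).trans (card_dvd_of_le hS))

theorem copS : (Nat.card S).Coprime (Nat.card R) := h.cop.coprime_dvd_left (card_dvd_of_le h.syl.le)

theorem Sfpf : S ⊓ 𝒞(R) = ⊥ := by
  have := Fact.mk h.hp
  by_contra hne
  exact h.cp ((H9.dvd_card_of_ne_bot (h.syl.isPGroup.to_inf_left) hne).trans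
    (card_dvd_of_le (inf_le_inf_right _ h.syl.le)))

theorem SR : ⁅S, R⁆ = S := by
  have := coprime_cent_prod h.nS h.copS (Or.inl h.toAct.sol)
  rwa [h.Sfpf, sup_bot_eq] at this

theorem gen : ⁅Γ, R⁆ = Γ :=
  h.eq_of_le ⟨commutator_le_left h.nR, le_norm_commutator_left⟩ le_norm_commutator_right
    (h.SR ▸ commutator_mono h.syl.le le_rfl)

theorem cent_of_ne (hB : B ≤ Γ) (hp' : ¬ p ∣ Nat.card B) (n1 : S ≤ 𝒩(B)) (n2 : R ≤ 𝒩(B))
    (hne : B ⊔ S ≠ Γ) : S ≤ 𝒞(B) := by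
  have := Fact.mk h.hp
  have hle : B ⊔ S ≤ Γ := sup_le hB h.syl.le
  have h1 := h.pc _ (lt_of_le_of_ne hle hne) (H1.le_normalizer_sup n2 h.nS)
  have h2 : Syl p S (B ⊔ S) := h.syl.mono le_sup_right hle
  have h3 : Op p (B ⊔ S) = S := (h1.eq_of_le h2.isPGroup h2.le (Op_le_syl h.hp h2)).symm
  have h4 : NormalIn S (B ⊔ S) := by
    have : NormalIn (Op p (B ⊔ S)) (B ⊔ S) := core_normal _ _
    rwa [h3] at this
  exact cent_of_normal_of_inf h4 (normalIn_sup_left n1)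
    (inf_eq_bot_of_coprime' (coprime_of_pgroup_of_not_dvd h.hp h2.isPGroup hp'))

theorem irr' : ∀ U, U ≤ V → Γ ⊔ R ≤ 𝒩(U) → U = ⊥ ∨ U = V := fun U a b =>
  h.irr U a (le_sup_left.trans b) (le_sup_right.trans b)

theorem sup_ne : Op' p Γ ⊔ S ≠ Γ := by
  have := Fact.mk h.hp
  intro e
  set K := Op' p Γ with hK
  have hKn : NormalIn K Γ := core_normal _ _
  have hKp : ¬ p ∣ Nat.card K := (piN_compl_singleton_iff h.hp).1 (core_pi _ _)
  have hRK : R ≤ 𝒩(K) := h.nR.trans (norm_le_norm_core _ _)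
  have hSK : S ≤ 𝒩(K) := h.syl.le.trans hKn.norm
  have hfK : Fa V R K := h.toFa.sub hKn.le hRK
  have hns : ¬ S ≤ 𝒞(K) := by
    intro hc
    refine h.npc (pcl_of_normal h.hp h.syl ?_)
    rw [← e]
    exact sup_le ((cent_comm.1 hc).trans cent_le_norm) le_normalizer
  have hcop : (Nat.card K).Coprime (Nat.card (S ⊔ R : Subgroup G)) := by
    rw [sup_comm]
    refine Nat.Coprime.coprime_dvd_right (H1.card_sup_dvd h.nS) (Nat.Coprime.mul_right hfK.cop ?_)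
    exact (coprime_of_pgroup_of_not_dvd h.hp h.syl.isPGroup hKp).symm
  have hsol : Group.IsSolvable (S ⊔ R : Subgroup G) := by
    refine sol_of_quo (normalIn_sup_left h.nS) (sol_of_pgroup h.syl.isPGroup) ?_
    rw [quo_sup_ker h.nS]
    exact quo_sol h.toAct.sol
  obtain ⟨-, q, hq, hqK, hcase⟩ := coprime_minimal_nontrivial (normalIn_sup_left h.nS)
    (sup_le hSK hRK) hcop (Or.inl hsol) hns (fun B hB hn => by
      refine h.cent_of_ne (hB.le.trans hKn.le) (fun d => hKp (d.trans (card_dvd_of_le hB.le)))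
        (le_sup_left.trans hn) (le_sup_right.trans hn) fun e' => hB.ne ?_
      have e1 := H1.sup_inf_assoc_of_le' (C := K) (le_sup_left.trans hn) hB.le
      rw [sup_comm S B, e', inf_eq_right.2 hKn.le, inf_eq_bot_of_coprime'
        (coprime_of_pgroup_of_not_dvd h.hp h.syl.isPGroup hKp), bot_sup_eq] at e1
      exact e1.symm)
  have hnR : ¬ K ≤ 𝒞(R) := by
    intro hc
    apply hns
    rw [← h.SR]
    exact (commutator_mono le_rfl (cent_comm.1 hc)).trans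
      (commutator_le_right (H1.le_normalizer_centralizer hSK))
  obtain ⟨k1, k2, k3⟩ := hcase.resolve_left fun hab => hnR (h.toAct.cent_of_comm hfK hKp hab)
  obtain rfl : q = 2 := by
    by_contra hq2
    have := Fact.mk hq
    obtain ⟨k, hk⟩ := IsPGroup.iff_card.1 hqK
    exact hnR (h.toAct.cent_of_odd hfK hKp (hk ▸ (hq.odd_of_ne_two hq2).pow))
  have hK1 : K ≠ ⊥ := fun e' => hnR (e' ▸ bot_le)
  have hZR : Zc K ≤ 𝒞(R) := h.toAct.cent_of_comm (hfK.sub inf_le_left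
    (hRK.trans (norm_le_norm_Zc K))) (fun d => hKp (d.trans (card_dvd_of_le inf_le_left)))
    (Zc_comm K)
  have hZL : Zc K ≤ Zc (Γ ⊔ R) := by
    refine le_inf ((inf_le_left.trans hKn.le).trans le_sup_left) ?_
    rw [cent_sup, ← e, cent_sup]
    exact le_inf (le_inf inf_le_right (k3 ▸ inf_le_right)) hZR
  have hL : Γ ⊔ R ≤ 𝒩(V) := sup_le h.nV h.RV
  have hZ2 : Nat.card (Zc K) = 2 := by
    have h7 := (cyclic_of_central_irr h.V1 hL hZL
      (eq_bot_iff.2 (hfK.ff ▸ inf_le_inf_right _ inf_le_left)) h.irr').1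
    have h8 : IsElementaryAbelian 2 (Zc K) := k2 ▸ elem_der_of_Phi_le_Zc k1.le
    rw [← omega_eq_of_elem h8]
    exact card_omega_of_cyclic Nat.prime_two h7 (H9.dvd_card_of_ne_bot (elem_pgroup h8)
      (Zc_ne_bot (nil_of_pgroup hqK) hK1))
  obtain ⟨m, -, hm⟩ := card_extraspecial Nat.prime_two
    (extraspecial_of_der_eq_Zc Nat.prime_two hqK k2 hZ2)
  -- the subgroup `[K, R]`
  have hQK : ⁅K, R⁆ ≤ K := commutator_le_left hRK
  have hfQ : Fa V R ⁅K, R⁆ := hfK.sub hQK le_norm_commutator_right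
  have hQ2 : IsPGroup 2 (⁅K, R⁆ : Subgroup G) := hqK.to_le hQK
  have hQc := coprime_commGid hRK hfK.cop
  obtain ⟨-, q2, q3⟩ := h.toAct.special hfQ hQ2 hQc
  have hQZ : Zc ⁅K, R⁆ ≤ Zc K := by rw [← q2, ← k2]; exact commutator_mono hQK hQK
  have hQE := h.toAct.extra hfQ hQ2 hQc (fun e' => hnR (commutator_eq_bot_iff.1 e')) hL
    (hQZ.trans hZL) h.irr'
  obtain ⟨n, hn0, hn1, hn2⟩ := h.toAct.hh hQE hfQ q3
  have hZQ : Zc K ≤ ⁅K, R⁆ := by
    rw [← eq_of_le_of_card_le hQZ (by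
      rw [hZ2, ((extraspecial_iff Nat.prime_two).1 hQE).2.2.2])]
    exact inf_le_left
  -- modulo the centre
  have nK : K ≤ 𝒩(Zc K) := (Zc_normal K).norm
  have nL : Γ ⊔ R ≤ 𝒩(Zc K) := (NormalIn.of_le_Zc hZL).norm
  have nS : S ≤ 𝒩(Zc K) := (h.syl.le.trans le_sup_left).trans nL
  have nR : R ≤ 𝒩(Zc K) := le_sup_right.trans nL
  have hZc : (Nat.card (Zc K)).Coprime (Nat.card (S ⊔ R : Subgroup G)) :=
    hcop.coprime_dvd_left (card_dvd_of_le inf_le_left)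
  have hF : Frob S R (S ⊔ R) := (prime_FrobeniusP h.S1 h.hr).2
    ⟨SDP.of_norm h.nS (inf_eq_bot_of_coprime' h.copS), h.Sfpf⟩
  have hF' := hF.mim (qmk (Zc K)) (sup_le nS nR) (by
    change coquo _ ⊥ ⊓ _ < _
    rw [coquo_bot, inf_eq_bot_of_coprime' hZc]
    exact bot_lt_iff_ne_bot.2 h.S1)
  have hw := Frob.wielandt (H := quo (Zc K) K) hF' (quo_le_norm (sup_le hSK hRK))
    ((hcop.coprime_dvd_left (card_quo_dvd _ _)).coprime_dvd_right (card_quo_dvd _ _))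
    (quo_sol (sol_of_pgroup hqK))
  have hS0 : quo (Zc K) K ⊓ 𝒞(quo (Zc K) S) = ⊥ := by
    rw [← quo_inf_cent_of_coprime nK nS hSK
      ((hcop.symm.coprime_dvd_left (card_dvd_of_le le_sup_left)).coprime_dvd_right
        (card_dvd_of_le inf_le_right)) (Or.inl (sol_of_pgroup h.syl.isPGroup)), k3]
    exact quo_eq_bot_of_le le_rfl
  have hS1 : quo (Zc K) K ⊓ 𝒞(quo (Zc K) (S ⊔ R)) = ⊥ :=
    eq_bot_iff.2 (hS0 ▸ inf_le_inf_left _ (cent_le_cent (quo_mono _ le_sup_left)))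
  have hcR : Nat.card (quo (Zc K) R) = Nat.card R := card_quo_of_inf_eq_bot nR
    (inf_eq_bot_of_coprime' (hZc.coprime_dvd_right (card_dvd_of_le le_sup_right)))
  change Nat.card (quo (Zc K) K ⊓ 𝒞(quo (Zc K) (S ⊔ R)) : Subgroup _) ^ Nat.card (quo (Zc K) R) *
    Nat.card (quo (Zc K) K) = Nat.card (quo (Zc K) K ⊓ 𝒞(quo (Zc K) R) : Subgroup _) ^
      Nat.card (quo (Zc K) R) * Nat.card (quo (Zc K) K ⊓ 𝒞(quo (Zc K) S) : Subgroup _) at hw
  rw [hS0, hS1, card_bot, one_pow, one_mul, mul_one, hcR, hn2] at hw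
  have hdp := (coprime_abelian_cent_dprod (quo_le_norm (K := Zc K) hRK)
    (by rw [hcR]; exact hfK.cop.coprime_dvd_left (card_quo_dvd _ _))
    ((quo_comm_iff nK).2 k2.le)).card_mul
  have hc1 : Nat.card (quo (Zc K) K) = 2 ^ (2 * m) := by
    have := card_inf_mul (Zc K) K
    rw [inf_eq_left.2 inf_le_left, hZ2, hm, pow_succ, mul_comm] at this
    rw [card_quo nK]
    exact Nat.eq_of_mul_eq_mul_right two_pos this
  have hc2 : Nat.card (⁅quo (Zc K) K, quo (Zc K) R⁆ : Subgroup _) = 2 ^ (2 * n) := by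
    have := card_inf_mul (Zc K) ⁅K, R⁆
    rw [inf_eq_left.2 hZQ, hZ2, hn1, pow_succ, mul_comm] at this
    rw [← quo_commutator nK nR, card_quo (hQK.trans nK)]
    exact Nat.eq_of_mul_eq_mul_right two_pos this
  obtain ⟨a, ha⟩ := IsPGroup.iff_card.1
    ((quo_pgroup (K := Zc K) hqK).to_inf_left (K := 𝒞(quo (Zc K) R)))
  rw [hc1, hc2, ha, ← pow_add] at hdp
  rw [hc1, ha, ← pow_mul] at hw
  have e1 := Nat.pow_right_injective le_rfl hdp
  have e2 := Nat.pow_right_injective le_rfl hw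
  exact two_pow_arith hn0 (e2.symm.trans e1.symm) e1.symm

theorem K_le : Op' p Γ ≤ Zc Γ := by
  have hKn : NormalIn (Op' p Γ) Γ := core_normal _ _
  have hRK : R ≤ 𝒩(Op' p Γ) := h.nR.trans (norm_le_norm_core _ _)
  have h1 := h.cent_of_ne hKn.le ((piN_compl_singleton_iff h.hp).1 (core_pi _ _))
    (h.syl.le.trans hKn.norm) hRK h.sup_ne
  have h2 := h.eq_of_le ((NormalIn.refl Γ).inf_centralizer hKn.norm)
    (H1.le_normalizer_inf h.nR (H1.le_normalizer_centralizer hRK)) (le_inf h.syl.le h1)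
  exact le_inf hKn.le (cent_comm.1 (inf_eq_left.1 h2))

theorem le_Z (hN : NormalIn N Γ) (hne : N ≠ Γ) (hn : R ≤ 𝒩(N)) : N ≤ Zc Γ :=
  (le_core hN ((piN_compl_singleton_iff h.hp).2 (h.not_dvd hN hne hn))).trans h.K_le

theorem not_nil : ¬ Group.IsNilpotent Γ := fun e => h.npc (nil_Op_syl e h.hp)

omit h in
theorem nil_of_der_le (e : ⁅N, N⁆ ≤ 𝒞(N)) : Group.IsNilpotent N :=
  nil_of_quo_central (K := ⁅N, N⁆) (le_inf (der_le N) e)
    (nil_of_comm ((quo_comm_iff (le_normalizer.trans (norm_le_norm_der N))).2 le_rfl))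

theorem perf : ⁅Γ, Γ⁆ = Γ := by
  by_contra hne
  exact h.not_nil (nil_of_der_le ((h.le_Z (NormalIn.der Γ) hne
    (h.nR.trans (norm_le_norm_der Γ))).trans inf_le_right))

theorem simple (N0 : Subgroup G) (hN0 : NormalIn N0 Γ) : N0 ≤ Zc Γ ∨ N0 = Γ := by
  have := Fact.mk h.hp
  by_contra hc
  push Not at hc
  obtain ⟨N, ⟨n1, n2, n3⟩, hmin⟩ := (wellFounded_lt (α := Subgroup G)).has_min
    {N | NormalIn N Γ ∧ ¬ N ≤ Zc Γ ∧ N ≤ N0} ⟨N0, hN0, hc.1, le_rfl⟩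
  have hmin' : ∀ M, NormalIn M Γ → M ≤ N → M ≠ N → M ≤ Zc Γ := fun M a b d => by
    by_contra e
    exact hmin M ⟨a, e, b.trans n3⟩ (lt_of_le_of_ne b d)
  have hNΓ : N ≠ Γ := fun e => hc.2 (le_antisymm hN0.le (e ▸ n3))
  have hZ : Zc Γ ≤ 𝒞(N) := inf_le_right.trans (cent_le_cent n1.le)
  have hper : ⁅N, N⁆ = N := by
    by_contra e
    have h1 := nil_of_der_le ((hmin' _ (n1.commutator n1) (der_le N) e).trans hZ)
    refine n2 ((le_fit n1 h1).trans (h.le_Z (fit_normal Γ) (fun e' => h.not_nil ?_)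
      (h.nR.trans (norm_le_norm_fit Γ))))
    rw [← e']; exact fit_nil Γ
  have hcj : ∀ g ∈ R, g ≠ 1 → cj g N ≤ 𝒞(N) := by
    intro g hg g1
    have hn' : NormalIn (cj g N) Γ := by
      have := n1.cj g
      rwa [cj_eq_self_iff.2 (h.nR hg)] at this
    have hne : N ⊓ cj g N ≠ N := by
      intro e
      have e1 : N = cj g N := eq_of_le_of_card_le (inf_eq_left.1 e) (card_cj g N).le
      have e2 : zpowers g = R := by
        rcases (Nat.dvd_prime h.hr).1 (card_dvd_of_le (zpowers_le.2 hg)) with e3 | e3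
        · exact absurd (zpowers_eq_bot.1 (card_eq_one.1 e3)) g1
        · exact eq_of_le_of_card_le (zpowers_le.2 hg) e3.ge
      exact n2 (h.le_Z n1 hNΓ (e2 ▸ zpowers_le.2 (cj_eq_self_iff.1 e1.symm)))
    have h1 : ⁅N, cj g N⁆ ≤ 𝒞(N) :=
      (le_inf (commutator_le_left (hn'.le.trans n1.norm))
        (commutator_le_right (n1.le.trans hn'.norm))).trans
        ((hmin' _ (n1.inf hn') inf_le_left hne).trans hZ)
    have h2 : ⁅⁅N, N⁆, cj g N⁆ = ⊥ := commutator_commutator_eq_bot_of_rotate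
      (commutator_eq_bot_iff.2 h1) (by rw [commutator_comm (cj g N)]; exact commutator_eq_bot_iff.2 h1)
    rw [hper] at h2
    exact cent_comm.1 (commutator_eq_bot_iff.1 h2)
  have hpN : p ∣ Nat.card N := by
    by_contra e
    exact n2 ((le_core n1 ((piN_compl_singleton_iff h.hp).2 e)).trans h.K_le)
  obtain ⟨U, hU, hUc⟩ := exists_card_eq_prime h.hp hpN
  have hUe := elem_of_card_eq h.hp hUc
  have hcomm : ∀ a ∈ R, ∀ b ∈ R, cj a U ≤ 𝒞(cj b U) := by
    intro a ha b hb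
    have e : cj a U = cj b (cj (b⁻¹ * a) U) := by rw [cj_cj, mul_inv_cancel_left]
    rw [e, ← cj_centralizer]
    refine cj_mono b ?_
    by_cases e1 : b⁻¹ * a = 1
    · rw [e1, cj_one]; exact (elem_iff.1 hUe).1
    · exact ((cj_mono _ hU).trans (hcj _ (mul_mem (inv_mem hb) ha) e1)).trans (cent_le_cent hU)
  set V0 : Subgroup G := ⨆ a : R, cj (a : G) U with hV0
  have hab : IsMulCommutative V0 := by
    rw [comm_iff]
    refine iSup_le fun a => cent_comm.1 (iSup_le fun b => hcomm _ b.2 _ a.2)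
  have hel : V0 ≤ omegaOne p V0 := iSup_le fun a =>
    elem_le_omega (elem_cj.2 hUe) (le_iSup (fun a : R => cj (a : G) U) a)
  have hV0p : IsPGroup p V0 := (elem_pgroup (elem_omega_of_comm hab)).to_le hel
  have hV0Γ : V0 ≤ Γ := iSup_le fun a => by
    rw [← cj_eq_self_iff.2 (h.nR a.2)]
    exact cj_mono _ (hU.trans n1.le)
  have hle : ∀ a ∈ R, cj a U ≤ V0 := fun a ha => le_iSup (fun a : R => cj (a : G) U) ⟨a, ha⟩
  have hnV0 : R ≤ 𝒩(V0) := fun a ha => mem_normalizer_of_cj_le (by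
    rw [cj_le_iff_le_cj]
    refine iSup_le fun b => ?_
    rw [← cj_le_iff_le_cj, cj_cj]
    exact hle _ (mul_mem ha b.2))
  have hU0 : U ⊓ 𝒞(N) = ⊥ := by
    have h1 : Zc N ≤ Zc Γ := hmin' _ (n1.inf_centralizer n1.norm) inf_le_left fun e => by
      apply n2
      rw [← hper, commutator_eq_bot_iff.2 (inf_eq_left.1 e)]
      exact bot_le
    rw [eq_bot_iff, ← h.op]
    exact le_Op h.hp (NormalIn.of_le_Zc ((inf_le_inf_right _ hU).trans h1))
      (elem_pgroup hUe).to_inf_left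
  have := card_le_card_cent_of_cj_indep hab hnV0 (by simpa [cj_one] using hle 1 (one_mem R))
    (fun a ha a1 => (cj_mono _ hU).trans (hcj a ha a1)) hU0 hle
  apply h.cp
  refine (H9.dvd_card_of_ne_bot (hV0p.to_inf_left (K := 𝒞(R))) fun e => ?_).trans
    (card_dvd_of_le (inf_le_inf_right _ hV0Γ))
  rw [e, card_bot, hUc] at this
  exact absurd h.hp.two_le (by omega)

theorem qs : QS p V R Γ where
  toAct := h.toAct
  toFa := h.toFa
  V1 := h.V1
  irr := h.irr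
  cp := h.cp
  pc := h.pc
  gen := h.gen
  ne := fun e => h.S1 (eq_bot_iff.2 (e ▸ h.syl.le))
  perf := h.perf
  simple := h.simple

end Min

end Red

/-- Theorem G from the quasisimple case. -/
theorem red (H : ∀ (G : Type u) [Group G] [Finite G] (V R Γ : Subgroup G), ¬ QS p V R Γ)
    {G : Type u} [Group G] [Finite G] {V R Γ : Subgroup G} (h : Act p V R) (hΓ : Fa V R Γ)
    (cp : ¬ p ∣ Nat.card (Γ ⊓ 𝒞(R) : Subgroup G)) : PCl p Γ := by
  have key : ∀ n, Red.IH.{u} p n := by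
    intro n
    induction n with
    | zero => intro G _ _ V R Γ hlt; exact absurd hlt (Nat.not_lt_zero _)
    | succ n ihn =>
      intro G _ _ V R Γ hlt h hΓ cp
      have ih : Red.IH.{u} p (Nat.card Γ * Nat.card V) := fun G' _ _ V' R' Γ' hlt' =>
        ihn G' V' R' Γ' (by omega)
      by_contra npc
      have V1 : V ≠ ⊥ := by
        rintro rfl
        have := hΓ.ff
        rw [cent_bot, inf_top_eq] at this
        subst this
        exact npc (nil_Op_syl (nil_of_comm (comm_iff.2 bot_le)) h.hp)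
      obtain ⟨S, hS, nS⟩ := coprime_Syl_exists h.hp hΓ.nR hΓ.cop (Or.inl h.sol)
      refine H G V R Γ (Red.Min.qs (S := S) ⟨h, hΓ, V1, fun U a b c => ?_, cp, fun X hX hn => ?_,
        npc, hS, nS⟩)
      · by_contra hc
        push Not at hc
        exact npc (ih.reducible h hΓ cp a b c hc.1 hc.2)
      · exact ih G V R X (Nat.mul_lt_mul_of_pos_right (lt_of_le_of_ne (card_le_of_le hX.le)
          fun e => hX.ne (eq_of_le_of_card_le hX.le e.ge)) Nat.card_pos) h (hΓ.sub hX.le hn)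
          fun d => cp (d.trans (card_dvd_of_le (inf_le_inf_right _ hX.le)))
  exact key _ G V R Γ (Nat.lt_succ_self _) h hΓ cp

end Cfsg.Agent.FL
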