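import Cfsg.Agent.Lib.FL.K

/-!
# Case (S2) (notes/FL.md, section S2)
-/

set_option autoImplicit false
set_option linter.unusedSectionVars false

namespace Cfsg.Agent.FL

open Subgroup Cfsg.Agent.FT
open Cfsg.Agent.H6 hiding Op cent_sup
open scoped commutatorElement

variable {G : Type*} [Group G] [Finite G] {p : ℕ} {V R X Y Γ W R' W' T D P L N : Subgroup G}
  {g c x y u : G}

/-- An invariant `2`-group containing an element of `A \ Z` normalises `W`. -/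
theorem Pt.two_y (h : Pt p V Γ R W) (hy : y ∈ Zc W) (hZ : y ∉ Zc Γ) (h1 : Y ≤ Γ)
    (h2 : IsPGroup 2 Y) (hn : R ≤ 𝒩(Y)) (hyY : y ∈ Y) : Y ≤ 𝒩(W) := by
  obtain ⟨c, hc, hle⟩ := h.two_inv h1 h2 hn
  by_cases e : H6.cj c W = W
  · rwa [e] at hle
  · have h3 : Pair p V Γ R (H6.cj c W) R W :=
      Pair.symm ⟨h, h.cj_cent hc.1 hc.2, ⟨c, hc.1, rfl⟩, Ne.symm e⟩
    exact absurd (h3.K ⟨hy, hle hyY⟩) hZ

theorem Pt.cent_le (h : Pt p V Γ R W) (hy : y ∈ Zc W) (hZ : y ∉ Zc Γ) (hg : g ∈ Γ)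
    (hc : g * y = y * g) : g ∈ 𝒩(W) :=
  h.cstar hy hZ hg (by rw [cm_one hc]; exact one_mem _)

theorem Pt.A_comm (_h : Pt p V Γ R W) (hx : x ∈ Zc W) (hy : y ∈ Zc W) : x * y = y * x :=
  hy.2 x hx.1

theorem Pt.cm_A (h : Pt p V Γ R W) (hx : x ∈ Zc W) (hg : g ∈ 𝒩(W)) : ⁅x, g⁆ ∈ Zc W :=
  (h.A_le_cm hg hx).2.2

theorem Pt.cm_A' (h : Pt p V Γ R W) (hx : x ∈ Zc W) (hg : g ∈ 𝒩(W)) : ⁅g, x⁆ ∈ Zc W := by
  rw [← commutatorElement_inv]; exact inv_mem (h.cm_A hx hg)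

theorem Pair.S2 (h : Pair p V Γ R W R' W') (h1 : ¬ Zc W ⊓ 𝒩(W') ≤ Zc Γ)
    (_h2 : ¬ Zc W' ⊓ 𝒩(W) ≤ Zc Γ) (h3 : ¬ Zc W ≤ 𝒩(W')) (h4 : ¬ Zc W' ≤ 𝒩(W)) : False := by
  have ha := h.a
  have hb := h.b
  obtain ⟨y, hy, hyZ⟩ := SetLike.not_le_iff_exists.1 h1
  have hy2 := ha.A_sq hy.1
  have hyΓ := ha.le hy.1.1
  have hBΓ : Zc W' ≤ Γ := inf_le_left.trans hb.le
  have i1 : ∀ v ∈ W, v ∈ Zc W' → v ∈ Zc Γ := fun v hv hv' => by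
    by_contra hZ
    exact h3 fun a ha' => hb.cent_le hv' hZ (ha.le ha'.1) (ha'.2 v hv).symm
  have i2 : ∀ e ∈ W, e ∈ 𝒩(W') → ∀ b ∈ Zc W', b ∈ 𝒩(W) → ⁅e, b⁆ ∈ Zc Γ := fun e he he' b h5 h6 =>
    i1 _ (ha.cm_mem he h6) (hb.cm_A' h5 he')
  have f1 : ∀ b ∈ Zc W', ⁅b, y⁆ ∈ 𝒩(W) := fun b h5 => by
    have h6 := hb.cm_A h5 hy.2
    refine ha.cent_le hy.1 hyZ (hBΓ h6) (eq_comm.1 (mul_inv_eq_iff_eq_mul.1 ?_))
    rw [← inv_eq_of_mul_eq_one_right (hb.A_sq h6)]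
    conv_lhs => rw [inv_eq_of_mul_eq_one_right (hb.A_sq h6)]
    calc y * ⁅b, y⁆ * y⁻¹ = y * b * y * b⁻¹ * (y * y)⁻¹ := by rw [commutatorElement_def]; group
      _ = y * b * y⁻¹ * b⁻¹ := by rw [hy2, inv_one, mul_one, inv_eq_of_mul_eq_one_right hy2]
      _ = _ := by rw [commutatorElement_inv, commutatorElement_def]
  have i3 : ∀ e ∈ W, e ∈ 𝒩(W') → ∀ b ∈ Zc W', ⁅e, b⁆ ∈ 𝒩(W) := fun e he he' b h5 => by
    have h6 := hb.cm_A' h5 he'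
    refine ha.cstar hy.1 hyZ (hBΓ h6) ?_
    have h7 := i2 e he he' _ (hb.cm_A h5 hy.2) (f1 b h5)
    have e1 : ⁅e, ⁅b, y⁆⁆ = ⁅⁅e, b⁆, y⁆ := by
      rw [commutatorElement_def e ⁅b, y⁆, cm_conj, conj_of_comm (hy.1.2 e he), conj_eq_cm e b, cm_mul,
        conj_of_comm (hb.A_comm h6 (hb.cm_A h5 hy.2)),
        hb.A_comm (hb.cm_A h5 hy.2) (hb.cm_A h6 hy.2), mul_inv_cancel_right]
    exact e1 ▸ h7
  have i4 : ∀ e ∈ W, e ∈ 𝒩(W') → e * e ∈ Zc Γ := fun e he he' => by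
    by_contra hZ
    refine h4 fun b h5 => ha.cstar (ha.sq_mem he) hZ (hBΓ h5) ?_
    have h6 := hb.cm_A' h5 he'
    rw [← commutatorElement_inv, cm_mul, conj_eq_cm, mul_assoc, hb.A_sq h6, mul_one]
    exact inv_mem (i2 e he he' _ h6 (i3 e he he' b h5))
  have i5 : ∀ u ∈ Zc W', u ∈ 𝒩(W) → ∀ g ∈ R, u * (g * u * g⁻¹) ∈ W ⊓ 𝒩(W') := fun u hu hn g hg => by
    have hu2 := hb.A_sq hu
    refine ⟨ha.k1 (hBΓ hu) hn hu2 hg, mul_mem (le_normalizer hu.1) ?_⟩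
    by_cases hZ : u ∈ Zc Γ
    · rw [conj_of_comm (mem_cent.1 (ha.Z_cent hZ) g hg)]; exact le_normalizer hu.1
    obtain ⟨k, hk, rfl⟩ := ha.toAct.exists_sq hg
    obtain ⟨h5, h6⟩ := ha.k2 (hBΓ hu) hn hu2 hk
    have h7 := i4 _ h5.1 (hb.cent_le hu hZ (ha.le h5.1) (mem_cent1.1 h5.2))
    refine hb.cstar hu hZ (conj_mem_of_mem_normalizer (ha.nR hg) (hBΓ hu)) ?_
    rw [← commutatorElement_inv, ← h6]
    exact inv_mem h7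
  let Y := closure {x | ∃ u ∈ Zc W' ⊓ 𝒩(W), ∃ g ∈ R, x = g * u * g⁻¹} ⊔ zpowers y
  have hB0 : Zc W' ⊓ 𝒩(W) ≤ Y := fun u hu =>
    mem_sup_left (subset_closure ⟨u, hu, 1, R.one_mem, by simp⟩)
  have hyY : y ∈ Y := mem_sup_right (mem_zpowers y)
  have hn0 : Zc W' ⊓ 𝒩(W) ≤ 𝒩(W ⊓ 𝒩(W')) := H1.le_normalizer_inf inf_le_right
    (H1.le_normalizer_normalizer (inf_le_left.trans (inf_le_left.trans le_normalizer)))
  have hF : Y ≤ (Zc W' ⊓ 𝒩(W)) ⊔ (W ⊓ 𝒩(W')) := sup_le ((closure_le _).2 (by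
    rintro _ ⟨u, hu, g, hg, rfl⟩
    have : g * u * g⁻¹ = u * (u * (g * u * g⁻¹)) := by rw [← mul_assoc, hb.A_sq hu.1, one_mul]
    rw [this]
    exact mul_mem (mem_sup_left hu) (mem_sup_right (i5 u hu.1 hu.2 g hg))))
    (zpowers_le.2 (mem_sup_right ⟨hy.1.1, hy.2⟩))
  have hY2 : IsPGroup 2 Y := (isPGroup_sup_of_le_normalizer
    (hb.two.to_le (inf_le_left.trans inf_le_left)) (ha.two.to_le inf_le_left) hn0).to_le hF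
  have hYΓ : Y ≤ Γ := hF.trans (sup_le (inf_le_left.trans hBΓ) (inf_le_left.trans ha.le))
  have hYW : Y ≤ 𝒩(W) := hF.trans (sup_le inf_le_right (inf_le_left.trans le_normalizer))
  have hBY : Zc W' ≤ 𝒩(Y) := fun b h5 => mem_normalizer_of_cj_le (cj_le_iff.2 fun x hx => by
    obtain ⟨u, hu, e, he, rfl⟩ := (H1.mem_sup_of_le_normalizer' hn0).1 (hF hx)
    rw [conj_eq_cm, cm_mul', cm_one (hb.A_comm h5 hu.1), one_mul,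
      conj_of_comm (hb.A_comm hu.1 (hb.cm_A h5 he.2)), ← commutatorElement_inv]
    exact mul_mem (inv_mem (hB0 ⟨hb.cm_A' h5 he.2, i3 e he.1 he.2 b h5⟩)) hx)
  have hRY : R ≤ 𝒩(Y) := H1.le_normalizer_sup (fun r hr => mem_normalizer_of_cj_le (by
    rw [H6.cj, MonoidHom.map_closure, closure_le]
    rintro _ ⟨_, ⟨u, hu, g, hg, rfl⟩, rfl⟩
    exact subset_closure ⟨u, hu, r * g, R.mul_mem hr hg, by simp [mul_assoc]⟩))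
    ((cent_comm.1 (zpowers_le.2 (ha.A_cent hy.1))).trans cent_le_norm)
  have hN := ha.norm_lt hYΓ hY2 fun e => hyZ (e hyY)
  have hRN := H1.le_normalizer_inf ha.nR (H1.le_normalizer_normalizer hRY)
  have hf := ha.toFa.sub hN.le hRN
  have := Fact.mk ha.hp
  have hNp : ¬ p ∣ Nat.card (Γ ⊓ 𝒩(Y) : Subgroup G) := fun hd => by
    have h5 := (ha.pc _ hN hRN).ne_bot_iff.2 hd
    have h6 := Op_pgroup ha.hp (Γ ⊓ 𝒩(Y))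
    have h7 : Op p (Γ ⊓ 𝒩(Y)) ≤ 𝒞(Y) := cent_of_normal_of_inf (core_normal _ _)
      ⟨le_inf hYΓ le_normalizer, inf_le_right⟩ (inf_eq_bot_of_coprime'
        (coprime_of_pgroup_of_not_dvd ha.hp h6 (ha.toAct.not_dvd_two hY2)))
    refine ha.M_p ((H9.dvd_card_of_ne_bot h6 h5).trans (card_dvd_of_le fun x hx => ?_))
    have h8 := (core_le _ _ hx).1
    exact ⟨h8, ha.cent_le hy.1 hyZ h8 (h7 hx y hyY).symm⟩
  have hQ2 := ha.toAct.commutator_two hf hNp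
  have hQN : ⁅Γ ⊓ 𝒩(Y), R⁆ ≤ Γ ⊓ 𝒩(Y) := commutator_le_left hRN
  have hyQ : zpowers y ≤ 𝒩(⁅Γ ⊓ 𝒩(Y), R⁆) :=
    (zpowers_le.2 (⟨hyΓ, le_normalizer hyY⟩ : y ∈ Γ ⊓ 𝒩(Y))).trans le_norm_commutator_left
  have hQW := ha.two_y hy.1 hyZ (sup_le (zpowers_le.2 hyΓ) (hQN.trans inf_le_left))
    (isPGroup_sup_of_le_normalizer (two_zp hy2) hQ2 hyQ) (H1.le_normalizer_sup
      ((cent_comm.1 (zpowers_le.2 (ha.A_cent hy.1))).trans cent_le_norm) le_norm_commutator_right)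
    (mem_sup_left (mem_zpowers y))
  obtain ⟨b, h5, h6⟩ := SetLike.not_le_iff_exists.1 h4
  have h7 := coprime_cent_prod hRN hf.cop (Or.inl ha.toAct.sol)
  rw [sup_comm] at h7
  obtain ⟨c, hc, t, ht, e⟩ := (H1.mem_sup_of_le_normalizer'
    (inf_le_left.trans le_norm_commutator_left)).1 (h7.ge (⟨hBΓ h5, hBY h5⟩ : b ∈ Γ ⊓ 𝒩(Y)))
  have e1 : H6.cj b W = H6.cj c W := by
    rw [← e, ← cj_cj, cj_eq_self_iff.2 (hQW (mem_sup_right ht))]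
  have h8 : Pair p V Γ R W R (H6.cj b W) := ⟨ha, e1 ▸ ha.cj_cent hc.1.1 hc.2, ⟨b, hBΓ h5, rfl⟩,
    fun e' => h6 (cj_eq_self_iff.1 e'.symm)⟩
  exact hyZ (((Zc_normal Γ).conj_mem_iff (hBΓ h5)).1 (h8.K ⟨cj_Zc b W ▸ conj_mem_cj hy.1,
    hYW (conj_mem_of_mem_normalizer (hBY h5) hyY)⟩))

end Cfsg.Agent.FL
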