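import Cfsg.Agent.Lib.FL.S1
import Cfsg.Agent.Lib.FL.S2
import Cfsg.Agent.Lib.FL.End
import Cfsg.Agent.Lib.FL.Red

/-!
# Theorem G (notes/FL.md, section Main)
-/

set_option autoImplicit false
set_option linter.unusedSectionVars false

namespace Cfsg.Agent.FL

open Subgroup Cfsg.Agent.FT
open Cfsg.Agent.H6 hiding Op cent_sup
open scoped commutatorElement

variable {G : Type*} [Group G] [Finite G] {p : ℕ} {V R X Y Γ W R' W' T D P L N : Subgroup G}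
  {g c x y u : G}

theorem exists_sq_mem (h2 : IsPGroup 2 Y) (h : X < Y) :
    ∃ x ∈ Y ⊓ 𝒩(X), x ∉ X ∧ x * x ∈ X := by
  obtain ⟨x, hx, hx1⟩ := SetLike.exists_of_lt (H1.lt_inf_normalizer_of_isPGroup h2 h)
  obtain ⟨k, hk⟩ := h2 ⟨x, hx.1⟩
  have hk' : x ^ 2 ^ k = 1 := congrArg Subtype.val hk
  have : ∃ k, x ^ 2 ^ k ∈ X := ⟨k, hk' ▸ X.one_mem⟩
  classical
  have h0 : Nat.find this ≠ 0 := fun e => hx1 (by simpa [e] using Nat.find_spec this)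
  obtain ⟨m, hm⟩ := Nat.exists_eq_succ_of_ne_zero h0
  refine ⟨x ^ 2 ^ m, pow_mem hx _, Nat.find_min this (by omega), ?_⟩
  rw [← pow_add, ← two_mul, ← pow_succ', ← Nat.succ_eq_add_one, ← hm]
  exact Nat.find_spec this

/-- There is no bad pair. -/
theorem Pair.good (h : Pair p V Γ R W R' W') : Zc W' ⊓ 𝒩(W) ≤ Zc Γ := by
  intro u hu
  by_contra hZ
  have hb := h.b
  have hu2 := hb.A_sq hu.1
  have huΓ := hb.le hu.1.1
  have h2 := isPGroup_sup_of_le_normalizer (two_zp hu2) h.a.two (zpowers_le.2 hu.2)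
  have hle : zpowers u ⊔ W ≤ Γ := sup_le (zpowers_le.2 huΓ) h.a.le
  have hlt : (zpowers u ⊔ W) ⊓ 𝒩(W') < zpowers u ⊔ W := lt_of_le_of_ne inf_le_left fun e =>
    h.symm.not_le (le_sup_right.trans (e.ge.trans inf_le_right))
  obtain ⟨x, hx, hx1, hx2⟩ := exists_sq_mem h2 hlt
  have hxΓ := hle hx.1
  have hxW : x ∉ 𝒩(W') := fun e => hx1 ⟨hx.1, e⟩
  have h3 : Pair p V Γ (H6.cj x R') (H6.cj x W') R' W' :=
    Pair.symm ⟨hb, hb.cj_mem hxΓ, ⟨x, hxΓ, rfl⟩, fun e => hxW (cj_eq_self_iff.1 e.symm)⟩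
  have hu0 : u ∈ (zpowers u ⊔ W) ⊓ 𝒩(W') := ⟨mem_sup_left (mem_zpowers u), le_normalizer hu.1.1⟩
  have h4 : u ∈ 𝒩(H6.cj x W') := by
    rw [← cj_normalizer, mem_cj]
    simpa using (conj_mem_of_mem_normalizer (inv_mem hx.2) hu0).2
  have e : H6.cj x (H6.cj x W') = W' := by rw [cj_cj, cj_eq_self_iff.2 hx2.2]
  have hiff : Zc (H6.cj x W') ≤ 𝒩(W') ↔ Zc W' ≤ 𝒩(H6.cj x W') := by
    rw [← cj_le_cj_iff (g := x), cj_Zc, e, cj_normalizer]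
  by_cases h5 : Zc W' ≤ 𝒩(H6.cj x W')
  · exact h3.not_le_Z (hb.cj_mem hxΓ).caseI (h3.symm.S1b (h3.symm.S1a h5 (hiff.2 h5)))
  · exact h3.S2 (fun e' => hZ (((Zc_normal Γ).conj_mem_iff hxΓ).1 (e' ⟨cj_Zc x W' ▸ conj_mem_cj hu.1,
      (conj_mem_of_mem_normalizer hx.2 hu0).2⟩))) (fun e' => hZ (e' ⟨hu.1, h4⟩))
      (fun e' => h5 (hiff.1 e')) h5

theorem QS.false (h : QS p V R Γ) : False := by
  obtain ⟨W, hW⟩ := h.exists_pt
  refine hW.endgame fun g hg hn => ?_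
  rw [cj_Zc]
  exact Pair.good ⟨hW, hW.cj_mem hg, ⟨g, hg, rfl⟩, fun e => hn (cj_eq_self_iff.1 e.symm)⟩

/-- Theorem G. -/
theorem thmG (h : Act p V R) (hΓ : Fa V R Γ) (cp : ¬ p ∣ Nat.card (Γ ⊓ 𝒞(R) : Subgroup G)) :
    PCl p Γ :=
  red (fun _ _ _ _ _ _ h => h.false) h hΓ cp

end Cfsg.Agent.FL
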