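import Cfsg.Agent.Lib.FL.S2

/-!
# Case (S1) (notes/FL.md, section S1)
-/

set_option autoImplicit false
set_option linter.unusedSectionVars false

namespace Cfsg.Agent.FL

open Subgroup Cfsg.Agent.FT
open Cfsg.Agent.H6 hiding Op cent_sup
open scoped commutatorElement

variable {G : Type*} [Group G] [Finite G] {p : ℕ} {V R X Y Γ W R' W' T D P L N : Subgroup G}
  {g c x y u : G}

theorem Pair.S1a (h : Pair p V Γ R W R' W') (h1 : Zc W ≤ 𝒩(W')) (h2 : Zc W' ≤ 𝒩(W)) :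
    Zc W ≤ 𝒞(Zc W') := by
  refine cent_comm.1 fun u hu => ?_
  by_contra hc0
  have ha := h.a
  have hu2 := h.b.A_sq hu
  have huΓ := h.b.le hu.1
  have hn := h2 hu
  have hZ : u ∉ Zc Γ := fun e => hc0 fun a ha' => e.2 a (ha.le ha'.1)
  obtain ⟨D, hD, -, -, -, -, h3, -, h4⟩ := ha.transv huΓ hn
    (fun a ha' => h.inf_le ⟨ha.cm_A ha' hn, h.b.cm_A' hu (h1 ha')⟩) hc0
    fun w _ => by rw [hu2, commutatorElement_one_right]; exact one_mem _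
  obtain ⟨c, hc, t, ht, rfl⟩ := ha.dec huΓ hn
  have e2 : c * t * c⁻¹ = t⁻¹ * (c * c)⁻¹ := by
    calc c * t * c⁻¹ = (c * t * (c * t)) * (t⁻¹ * (c * c)⁻¹) := by group
      _ = _ := by rw [hu2, one_mul]
  have h5 : c * c ∈ Zc W := by
    refine ha.cent.le ⟨?_, mul_mem hc.2 hc.2⟩
    have : c * c = (t * (c * t * c⁻¹))⁻¹ := by rw [e2, mul_inv_cancel_left, inv_inv]
    rw [this]
    exact W.inv_mem (W.mul_mem ht (conj_mem_of_mem_normalizer hc.1.2 ht))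
  have h6 : ⁅t, c * t⁆ ∈ Zc W := by
    have : ⁅t, c * t⁆ = t * (c * t * c⁻¹)⁻¹ := by rw [commutatorElement_def]; group
    rw [this, e2, mul_inv_rev, inv_inv, inv_inv, ← h5.2 t ht, ← mul_assoc]
    exact mul_mem (ha.sq_mem ht) h5
  obtain ⟨w, hw, a, ha', e3⟩ := h4 t ((h3 t ht).1 h6)
  refine h.K' hu hn hZ hw ?_
  have : w * (c * t) * w⁻¹ = a⁻¹ * (c * c)⁻¹ * c := by
    calc w * (c * t) * w⁻¹ = ⁅w, c * t⁆ * (c * t * c⁻¹) * c := by rw [conj_eq_cm]; group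
      _ = (t * a⁻¹ * t⁻¹) * (c * c)⁻¹ * c := by
        rw [e2, eq_mul_inv_of_mul_eq e3.symm]; group
      _ = _ := by rw [conj_of_comm ((inv_mem ha' : _ ∈ Zc W).2 t ht)]
  rw [this]
  exact mul_mem (mul_mem (inv_mem (ha.A_cent ha')) (inv_mem (mul_mem hc.2 hc.2))) hc.2

theorem mul_of_le {K : Subgroup G} (hX : X ≤ Y) (hle : K.relIndex Y ≤ K.relIndex X) :
    ∀ y ∈ Y, ∃ c ∈ Y ⊓ K, ∃ x ∈ X, y = c * x := by
  refine forall_mul_of_card inf_le_left hX ?_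
  have e : Y ⊓ K ⊓ X = K ⊓ X := by
    rw [inf_comm Y, inf_assoc, inf_eq_right.2 hX]
  rw [e, ← card_inf_mul K Y, ← card_inf_mul K X, inf_comm Y, mul_assoc, mul_comm (K.relIndex Y)]
  exact Nat.mul_le_mul_left _ (Nat.mul_le_mul_left _ hle)

/-- Duality in an extraspecial group. -/
theorem dual {H : Subgroup G} (hE : Extraspecial 2 D) (hH : D ≤ H) (hZ : H ≤ 𝒞(Zc D))
    (h1 : Zc D ≤ L) (h2 : L ≤ D) (h3 : ∀ w ∈ H, ∀ v ∈ L, ⁅w, v⁆ ∈ Zc D) (hx : x ∈ H) :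
    ∃ d ∈ D, x * d ∈ 𝒞(L) := by
  obtain ⟨hP, -, h4, h5⟩ := (extraspecial_iff Nat.prime_two).1 hE
  have h6 := relIndex_cent_le_of_commutator_mem Nat.prime_two h5 hZ (hP.to_le h2) h3 h1
  have h7 := relIndex_cent_le_of_commutator_mem (P := L) Nat.prime_two h5 (h2.trans (hH.trans hZ)) hP
    (fun g hg e he => h4 ▸ commutator_mem_commutator (h2 hg) he) (inf_le_left : D ⊓ 𝒞(L) ≤ D)
  rw [inf_eq_left.2 hZ] at h6
  rw [inf_eq_left.2 (cent_comm.1 inf_le_right), inf_relIndex_left, ← inf_relIndex_right,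
    show 𝒞(D) ⊓ L = Zc D ⊓ L from le_antisymm (fun z hz => ⟨⟨h2 hz.2, hz.1⟩, hz.2⟩)
      (inf_le_inf_right _ inf_le_right), inf_relIndex_right] at h7
  obtain ⟨c, hc, d, hd, e⟩ := mul_of_le hH (h6.trans h7) x hx
  exact ⟨d⁻¹, D.inv_mem hd, by rw [e, mul_inv_cancel_right]; exact hc.2⟩

theorem Pt.inner (h : Pt p V Γ R W) (hx : x ∈ Γ) (hn : x ∈ 𝒩(W)) (hc : x ∈ 𝒞(Zc W)) (hy : y ∈ W) :
    ⁅x, y⁆ ∈ Zc W := by
  obtain ⟨c, h1, t, ht, rfl⟩ := h.centA hx hn hc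
  rw [cm_mul, cm_one (h1.2 y hy).symm, mul_one, conj_of_comm (h1.2 _ (h.comm_mem ht hy).1).symm]
  exact h.comm_mem ht hy

theorem Pt.sq_cent (h : Pt p V Γ R W) (hx : x ∈ Γ) (hn : x ∈ 𝒩(W)) (hc : x ∈ 𝒞(Zc W)) :
    x * x ∈ 𝒞(W) := by
  obtain ⟨c, h1, t, ht, rfl⟩ := h.centA hx hn hc
  rw [mul_assoc, ← mul_assoc t, h1.2 t ht, mul_assoc, ← mul_assoc]
  exact mul_mem (mul_mem h1.2 h1.2) (h.sq_mem ht).2

theorem Pair.not_le_Z (h : Pair p V Γ R W R' W') (hA : ¬ Zc W ≤ Zc Γ) : ¬ Zc W' ≤ Zc Γ := by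
  obtain ⟨g, hg, rfl⟩ := h.conj
  rwa [← cj_Zc, ← (Zc_normal Γ).cj_eq hg, cj_le_cj_iff]

theorem Pair.S1α (h : Pair p V Γ R W R' W') (h1 : Zc W ≤ 𝒞(Zc W')) (hB : ¬ Zc W' ≤ Zc Γ) :
    ¬ W ⊓ 𝒩(W') ≤ 𝒞(Zc W') := by
  intro H
  have ha := h.a
  have hb := h.b
  obtain ⟨u, hu, hZ⟩ := SetLike.not_le_iff_exists.1 hB
  obtain ⟨y, hy, hyZ⟩ := SetLike.not_le_iff_exists.1 (h.symm.not_le_Z hB)
  have huΓ := hb.le hu.1
  have hn := ha.cent_le hy hyZ huΓ (h1 hy u hu)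
  have hu2 := hb.A_sq hu
  obtain ⟨k, hk, hκ⟩ := h.k3 hu hn hZ
  obtain ⟨g, hg, rfl⟩ := ha.toAct.exists_sq hk
  obtain ⟨h2, h3⟩ := ha.k2 huΓ hn hu2 hg
  have h4 := hb.cent_le hu hZ (ha.le h2.1) (mem_cent1.1 h2.2)
  have h5 := hb.sq_cent (ha.le h2.1) h4 (H ⟨h2.1, h4⟩)
  have h6 : ⁅u, g * g * u * (g * g)⁻¹⁆ ∈ Zc Γ := by
    by_contra h6
    rw [← h3] at h6
    exact h.not_le fun w hw => ha.cent_le (ha.sq_mem h2.1) h6 (hb.le hw) (h5 w hw)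
  have h7 := hb.cstar hu hZ (conj_mem_of_mem_normalizer (ha.nR hk) huΓ)
    (by rw [← commutatorElement_inv]; exact inv_mem h6)
  have h8 := H ⟨ha.k1 huΓ hn hu2 hk, mul_mem (le_normalizer hu.1) h7⟩ u hu
  rw [mul_assoc u _ u] at h8
  exact hκ (cm_one (mul_left_cancel h8))

theorem Pair.S1b (h : Pair p V Γ R W R' W') (h1 : Zc W ≤ 𝒞(Zc W')) : Zc W ≤ Zc Γ := by
  by_contra hA
  have ha := h.a
  have hb := h.b
  have hB := h.not_le_Z hA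
  have h1' := cent_comm.1 h1
  have hBΓ : Zc W' ≤ Γ := inf_le_left.trans hb.le
  obtain ⟨u, hu, hZ⟩ := SetLike.not_le_iff_exists.1 hB
  obtain ⟨y, hy, hyZ⟩ := SetLike.not_le_iff_exists.1 hA
  have hBW : Zc W' ≤ 𝒩(W) := fun b h2 => ha.cent_le hy hyZ (hBΓ h2) (h1 hy b h2)
  have hAW : Zc W ≤ 𝒩(W') := fun a h2 => hb.cent_le hu hZ (ha.le h2.1) (h1' hu a h2)
  obtain ⟨s, hs, hsA⟩ := SetLike.not_le_iff_exists.1 (h.symm.S1α h1' hA)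
  have hsΓ := hb.le hs.1
  have j1 : ∀ a ∈ Zc W, ⁅a, s⁆ ∈ Zc Γ := fun a h2 => h.inf_le ⟨ha.cm_A h2 hs.2,
    hb.inner (ha.le h2.1) (hAW h2) (h1 h2) hs.1⟩
  obtain ⟨D, hD, hRD, -, hE, hZD, h3, h4, h5⟩ := ha.transv hsΓ hs.2 j1 hsA fun w hw => by
    have h2 := hb.sq_mem hs.1
    rw [← commutatorElement_inv]
    exact inv_mem (ha.inner (hBΓ h2) (hBW h2) (h1' h2) hw)
  have hDZ : ∀ d ∈ D, d * d ∈ Zc Γ := fun d hd => by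
    have := H9.pow_mem_Phi (p := 2) hd
    rw [((extraspecial_iff Nat.prime_two).1 hE).2.1, hZD, pow_two] at this
    exact this.2
  have hDD : ∀ d ∈ D, ∀ d' ∈ D, ⁅d, d'⁆ ∈ Zc Γ := fun d hd d' hd' => by
    have := commutator_mem_commutator hd hd'
    rw [((extraspecial_iff Nat.prime_two).1 hE).2.2.1, hZD] at this
    exact this.2
  have j2 : ∀ b ∈ Zc W', ∃ c ∈ 𝒞(R) ⊓ 𝒞(W), ∃ d ∈ D, b = c * d := fun b h2 => by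
    obtain ⟨c, hc, t, ht, e⟩ := ha.centA (hBΓ h2) (hBW h2) (h1' h2)
    have e1 : ⁅t, s⁆ = c⁻¹ * (s * c * s⁻¹) := by
      calc ⁅t, s⁆ = c⁻¹ * (c * t) * s * t⁻¹ * s⁻¹ := by rw [commutatorElement_def]; group
        _ = c⁻¹ * (b * s) * t⁻¹ * s⁻¹ := by rw [← e]; group
        _ = _ := by rw [← h2.2 s hs.1, e]; group
    have h6 : ⁅t, s⁆ ∈ Zc W := ⟨ha.cm_mem ht hs.2, e1 ▸ (𝒞(W)).mul_mem ((𝒞(W)).inv_mem hc.2)
      ((normalIn_cent_norm W).conj_mem hs.2 hc.2)⟩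
    obtain ⟨d, hd, a, ha', e2⟩ := (ha.mem_sup_A hD).1 ((h3 t ht).1 h6)
    exact ⟨c * a, mul_mem ⟨hc.1.2, hc.2⟩ ⟨ha.A_cent ha', ha'.2⟩, d, hd, by
      rw [e, ← e2, ha'.2 d (hD hd), mul_assoc]⟩
  have j3 : ∀ x ∈ W, ∀ c ∈ 𝒞(W), ∀ d ∈ D, ⁅x, c * d⁆ = ⁅x, d⁆ := fun x hx c hc d hd => by
    rw [cm_mul', cm_one (hc x hx), one_mul, conj_of_comm (hc _ (ha.comm_mem hx (hD hd)).1).symm]
  -- `δ` modulo `A`
  have δ1 : ∀ x ∈ W, ∀ x' ∈ W, ∃ a ∈ Zc W, ⁅x * x', s⁆ = ⁅x, s⁆ * ⁅x', s⁆ * a := fun x hx x' hx' => by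
    have a1 := ha.cm_mem hx hs.2
    have a2 := ha.cm_mem hx' hs.2
    refine ⟨⁅x, ⁅x', s⁆⁆ * ⁅⁅x, s⁆⁻¹, ⁅x', s⁆⁻¹⁆⁻¹, mul_mem (ha.comm_mem hx a2)
      (inv_mem (ha.comm_mem (inv_mem a1) (inv_mem a2))), ?_⟩
    rw [cm_mul, conj_eq_cm, ← mul_assoc, (ha.comm_mem hx a2).2 _ (mul_mem a1 a2),
      commutatorElement_def ⁅x, s⁆⁻¹]
    group
  have δ2 : ∀ x ∈ W, ∀ g ∈ R, ∃ a ∈ Zc W, ⁅g * x * g⁻¹, s⁆ = g * ⁅x, s⁆ * g⁻¹ * a :=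
    fun x hx g hg => by
    obtain ⟨c, hc, t, ht, e⟩ := ha.dec hsΓ hs.2
    have a1 := conj_mem_of_mem_normalizer (ha.nA hc.1.2) (ha.comm_mem hx ht)
    have a2 := conj_mem_of_mem_normalizer (ha.nA hc.1.2)
      (ha.comm_mem (conj_mem_of_mem_normalizer (ha.nW hg) hx) ht)
    refine ⟨(g * (c * ⁅x, t⁆ * c⁻¹) * g⁻¹)⁻¹ * (c * ⁅g * x * g⁻¹, t⁆ * c⁻¹), mul_mem
      (inv_mem (conj_mem_of_mem_normalizer (ha.nA (ha.nW hg)) a1)) a2, ?_⟩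
    rw [e, cm_mul', cm_mul', ← conj_of_comm (mem_cent.1 hc.2 g hg), ← cm_conj,
      conj_of_comm (mem_cent.1 hc.2 g hg)]
    group
  have δ3 : ∀ w ∈ W, ⁅w, s⁆ * ⁅w, s⁆ ∈ Zc Γ := fun w hw => by
    obtain ⟨d, hd, a, ha', e⟩ := (ha.mem_sup_A hD).1 (h4 w hw)
    rw [← e, mul_assoc, ← mul_assoc a, ← ha'.2 d (hD hd), mul_assoc, ha.A_sq ha', mul_one]
    exact hDZ d hd
  have δ4 : ∀ w ∈ W, ⁅w * w, s⁆ = ⁅w, ⁅w, s⁆⁆ * (⁅w, s⁆ * ⁅w, s⁆) := fun w _ => by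
    rw [cm_mul, conj_eq_cm, mul_assoc]
  have alt : ∀ w ∈ W, ⁅w, ⁅w, s⁆⁆ ∈ Zc Γ := fun w hw => by
    have := j1 _ (ha.sq_mem hw)
    rwa [δ4 w hw, Subgroup.mul_mem_cancel_right _ (δ3 w hw)] at this
  have cA : ∀ x ∈ W, ∀ v ∈ W, ∀ a ∈ Zc W, ⁅x, v * a⁆ = ⁅x, v⁆ := fun x hx v hv a ha' => by
    rw [ha.cmr hx hv ha'.1, cm_one (ha'.2 x hx), mul_one]
  have sym : ∀ x ∈ W, ∀ x' ∈ W, ⁅x, ⁅x', s⁆⁆ * ⁅x', ⁅x, s⁆⁆ ∈ Zc Γ := fun x hx x' hx' => by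
    have a1 := ha.cm_mem hx hs.2
    have a2 := ha.cm_mem hx' hs.2
    obtain ⟨a, ha', e⟩ := δ1 x hx x' hx'
    have := alt _ (mul_mem hx hx')
    rw [e, cA _ (mul_mem hx hx') _ (mul_mem a1 a2) a ha', ha.cml hx hx' (mul_mem a1 a2),
      ha.cmr hx a1 a2, ha.cmr hx' a1 a2, mul_assoc, Subgroup.mul_mem_cancel_left _ (alt x hx),
      ← mul_assoc, Subgroup.mul_mem_cancel_right _ (alt x' hx')] at this
    exact this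
  obtain ⟨k, hk, hκ⟩ := h.k3 hu (hBW hu) hZ
  obtain ⟨g, hg, rfl⟩ := ha.toAct.exists_sq hk
  obtain ⟨-, hκ2⟩ := ha.k2 (hBΓ hu) (hBW hu) (hb.A_sq hu) hg
  obtain ⟨c, hc, d, hd, eu⟩ := j2 u hu
  have hg' := R.inv_mem hg
  have hd1 := conj_mem_of_mem_normalizer (hRD hg) hd
  have hd2 := conj_mem_of_mem_normalizer (hRD hg') hd
  set e := (g * d * g⁻¹) * (g⁻¹ * d * g⁻¹⁻¹) with he
  have heD : e ∈ D := mul_mem hd1 hd2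
  have hee : e * e ≠ 1 := fun h0 => hκ (by
    have c1 := mem_cent.1 hc.1 g hg
    have c2 := mem_cent.1 hc.1 g⁻¹ hg'
    have c3 := hc.2 _ (hD hd1)
    have c4 := hc.2 _ (hD heD)
    have c5 : c * c * (d * d) = 1 := by
      rw [← hb.A_sq hu, eu]
      calc c * c * (d * d) = c * (c * d) * d := by group
        _ = c * (d * c) * d := by rw [hc.2 d (hD hd)]
        _ = _ := by simp only [mul_assoc]
    have c6 : (c * c) * (c * c) = 1 := by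
      rw [eq_inv_of_mul_eq_one_left c5, ← mul_inv_rev, ha.A_sq (ha.sq_mem (hD hd)), inv_one]
    have e1 : (g * u * g⁻¹) * (g⁻¹ * u * g) = c * c * e := by
      calc (g * u * g⁻¹) * (g⁻¹ * u * g) = (g * c * g⁻¹) * (g * d * g⁻¹) * (g⁻¹ * c * g⁻¹⁻¹) *
            (g⁻¹ * d * g⁻¹⁻¹) := by rw [eu]; group
        _ = _ := by rw [conj_of_comm c1, conj_of_comm c2, mul_assoc c, c3, he]; group
    rw [← hκ2, e1]
    calc c * c * e * (c * c * e) = c * c * (e * c) * c * e := by group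
      _ = c * c * c * (e * c) * e := by rw [c4]; simp only [mul_assoc, c4]
      _ = (c * c * (c * c)) * (e * e) := by rw [c4]; group
      _ = 1 := by rw [c6, h0, one_mul])
  obtain ⟨x0, hx0, a0, ha0, ed⟩ := h5 d (mem_sup_left hd)
  have hy1 := conj_mem_of_mem_normalizer (ha.nW hg) hx0
  have hy2 := conj_mem_of_mem_normalizer (ha.nW hg') hx0
  set x := (g * x0 * g⁻¹) * (g⁻¹ * x0 * g⁻¹⁻¹) with hx
  have hxW : x ∈ W := mul_mem hy1 hy2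
  have hδ0 := ha.cm_mem hx0 hs.2
  have hxe : ∃ a ∈ Zc W, ⁅x, s⁆ = e * a := by
    obtain ⟨a1, ha1, e1⟩ := δ1 _ hy1 _ hy2
    obtain ⟨a2, ha2, e2⟩ := δ2 _ hx0 _ hg
    obtain ⟨a3, ha3, e3⟩ := δ2 _ hx0 _ hg'
    have a4 := mul_mem (inv_mem ha0) ha2
    refine ⟨a0⁻¹ * a2 * (a0⁻¹ * a3 * a1), mul_mem a4 (mul_mem (mul_mem (inv_mem ha0) ha3) ha1), ?_⟩
    have e4 : ∀ r ∈ R, r * ⁅x0, s⁆ * r⁻¹ = r * d * r⁻¹ * a0⁻¹ := fun r hr => by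
      rw [ed, ← conj_of_comm (mem_cent.1 (inv_mem (ha.A_cent ha0)) r hr)]; group
    rw [hx, e1, e2, e3, e4 g hg, e4 _ hg', he, mul_assoc (g * d * g⁻¹) (g⁻¹ * d * g⁻¹⁻¹),
      ← mul_assoc (g⁻¹ * d * g⁻¹⁻¹), a4.2 _ (hD hd2)]
    group
  have hxd : ⁅x, d⁆ ∈ Zc Γ := by
    obtain ⟨a2, ha2, e2⟩ := δ2 _ hx0 _ hg
    have e3 : ⁅g⁻¹ * x0 * g⁻¹⁻¹, ⁅x0, s⁆⁆ = ⁅x0, ⁅g * x0 * g⁻¹, s⁆⁆ := by
      rw [e2, cA _ hx0 _ (conj_mem_of_mem_normalizer (ha.nW hg) hδ0) _ ha2,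
        ← conj_of_comm (mem_cent.1 (ha.A_cent (ha.comm_mem hy2 hδ0)) g hg), cm_conj]
      congr 1
      group
    rw [ed, cA _ hxW _ hδ0 _ ha0, hx, ha.cml hy1 hy2 hδ0, e3]
    exact sym _ hy1 _ hx0
  have hxW' : x ∈ 𝒩(W') := hb.cstar hu hZ (ha.le hxW) (by rwa [eu, j3 x hxW c hc.2 d hd])
  have hZ1 : Zc W ⊓ Zc Γ ≤ Zc W := inf_le_left
  have hn1 : W ≤ 𝒩(Zc D) := hZD ▸ (cent_comm.1 (hZ1.trans inf_le_right)).trans cent_le_norm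
  let L := cm D (Zc D) x
  have hL : ∀ v ∈ D, ⁅x, v⁆ ∈ Zc Γ → v ∈ L := fun v hv h6 => (mem_cm (hD.trans hn1)).2 ⟨hv, by
    rw [hZD, ← commutatorElement_inv]; exact inv_mem ⟨ha.comm_mem hxW (hD hv), h6⟩⟩
  obtain ⟨a, ha', ea⟩ := hxe
  have heL : e ∈ L := hL e heD (by rw [← cA x hxW e (hD heD) a ha', ← ea]; exact alt x hxW)
  have hH : D ⊔ zpowers x ≤ W := sup_le hD (zpowers_le.2 hxW)
  obtain ⟨d1, hd1', hx1⟩ := dual hE (le_sup_left : D ≤ D ⊔ zpowers x)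
    (hH.trans (hZD ▸ cent_comm.1 (hZ1.trans inf_le_right)))
    (L := L) (fun z hz => hL z hz.1 (by
      rw [cm_one ((hZ1 (hZD ▸ hz)).2 x hxW)]; exact one_mem _)) cm_le
    (fun w hw v hv => by
      refine (SetLike.le_def.1 (sup_le (fun d' hd' => (mem_cm hn1).2 ⟨hD hd', ?_⟩)
        (zpowers_le.2 ((mem_cm hn1).2 ⟨hxW, ?_⟩)) : _ ≤ cm W (Zc D) v) hw).2.2
      · rw [hZD]; exact ⟨ha.comm_mem (hD hd') (hD hv.1), hDD _ hd' _ hv.1⟩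
      · rw [← commutatorElement_inv]; exact inv_mem hv.2.2)
    (mem_sup_right (mem_zpowers x))
  have hx'W : x * d1 ∈ W := mul_mem hxW (hD hd1')
  have hx'B : x * d1 ∈ 𝒞(Zc W') := fun b h6 => by
    obtain ⟨c', hc', d', hd', rfl⟩ := j2 b h6
    have h7 : d' ∈ L := hL d' hd' (by
      rw [← j3 x hxW c' hc'.2 d' hd']
      exact h.inf_le ⟨j3 x hxW c' hc'.2 d' hd' ▸ ha.comm_mem hxW (hD hd'), hb.cm_A' h6 hxW'⟩)
    rw [mul_assoc, hx1 d' h7, ← mul_assoc, ← hc'.2 _ hx'W, mul_assoc]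
  have h8 := hb.sq_cent (ha.le hx'W) (hb.cent_le hu hZ (ha.le hx'W) (hx'B u hu).symm) hx'B
  have h9 := δ4 _ hx'W
  obtain ⟨a1, ha1, e1⟩ := δ1 _ hxW _ (hD hd1')
  have h10 := (h3 d1 (hD hd1')).2 (mem_sup_left hd1')
  have a5 := mul_mem (mul_mem ha' h10) ha1
  have e2 : ⁅x * d1, s⁆ = e * (a * ⁅d1, s⁆ * a1) := by rw [e1, ea]; group
  rw [cm_one (h8 s hs.1).symm, e2, cA _ hx'W _ (hD heD) _ a5, cm_one (hx1 e heL).symm, one_mul,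
    mul_assoc e, ← mul_assoc _ e, ← a5.2 e (hD heD), mul_assoc e, ha.A_sq a5, mul_one] at h9
  exact hee h9.symm

end Cfsg.Agent.FL
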